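import Mathlib

set_option autoImplicit false

namespace Cfsg.Agent.H59.E6Ar

theorem small {q D j : ℕ} (h2 : 2 ≤ q) (h7 : q ≤ 7) (hj : 1 ≤ j) (hj6 : j ≤ 6)
    (hD : D + j = q*(q^6+q^3+1)*(q^4+1)) (h : D ∣ q^11*((q^4+1)*(q^6+q^3+1)*(q^12-1))) : False := by
  have hD' : D = q*(q^6+q^3+1)*(q^4+1) - j := by omega
  subst hD'
  clear hD
  revert h
  interval_cases q <;> interval_cases j <;> norm_num

theorem ar {q D j : ℕ} (hq : IsPrimePow q) (hj : 1 ≤ j) (hj6 : j ≤ 6)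
    (hD : D + j = q*(q^6+q^3+1)*(q^4+1)) (h : D ∣ q^11*((q^4+1)*(q^6+q^3+1)*(q^12-1))) : False := by
  by_cases h7 : q ≤ 7
  · exact small hq.two_le h7 hj hj6 hD h
  have h8 : 8 ≤ q := by omega
  obtain ⟨p, k, hp, hk, rfl⟩ := hq
  set q := p ^ k with hqdef
  have hp' : p.Prime := hp.nat_prime
  -- step 1
  have h1 : D ∣ j * (q^10 * (q^12-1)) := by
    have e : q^11*((q^4+1)*(q^6+q^3+1)*(q^12-1)) = D * (q^10 * (q^12-1)) + j * (q^10 * (q^12-1)) := by
      rw [← add_mul, hD]; ring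
    rw [e] at h
    exact (Nat.dvd_add_right (dvd_mul_right D _)).1 h
  -- step 2
  have h2 : D ∣ Nat.gcd D (q^10) * (j * (q^12-1)) := by
    rw [← Nat.gcd_mul_right]
    apply Nat.dvd_gcd
    · exact dvd_mul_right D _
    · have e : q^10 * (j * (q^12-1)) = j * (q^10 * (q^12-1)) := by ring
      rw [e]; exact h1
  -- step 3
  have hqj : ¬ q ∣ j := fun hd => by
    have := Nat.le_of_dvd (by omega) hd
    omega
  have h3 : Nat.gcd D (q^10) ∣ j := by
    have hdq : Nat.gcd D (q^10) ∣ p ^ (k * 10) := by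
      rw [pow_mul]; exact Nat.gcd_dvd_right _ _
    obtain ⟨i, hi, hi'⟩ := (Nat.dvd_prime_pow hp').1 hdq
    have hiD : p ^ i ∣ D := hi' ▸ Nat.gcd_dvd_left _ _
    rw [hi']
    have hqB : ∀ x, x ∣ q → x ∣ D → x ∣ j := by
      intro x hx hxD
      have : x ∣ D + j := by
        rw [hD, mul_assoc]; exact dvd_mul_of_dvd_left hx _
      exact (Nat.dvd_add_right hxD).1 this
    by_cases hik : i ≤ k
    · exact hqB _ (pow_dvd_pow p hik) hiD
    · exfalso
      exact hqj (hqB q dvd_rfl ((pow_dvd_pow p (by omega : k ≤ i)).trans hiD))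
  have h3' : Nat.gcd D (q^10) ≤ 6 := (Nat.le_of_dvd (by omega) h3).trans hj6
  have h3'' : 0 < Nat.gcd D (q^10) := Nat.gcd_pos_of_pos_right _ (by positivity)
  set c := Nat.gcd D (q^10) with hc
  -- step 4
  have hqj' : q * j < q^2 := by nlinarith
  have hq12 : 1 ≤ q^12 := Nat.one_le_pow _ _ (by omega)
  obtain ⟨N, hN⟩ : ∃ N, N + q * j = q^9+q^8+q^6+q^5+q^2+1 := ⟨q^9+q^8+q^6+q^5+q^2+1 - q*j, by omega⟩
  have hN0 : 0 < N := by omega
  have hNq : N ≤ q^9+q^8+q^6+q^5+q^2+1 := by omega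
  have e1 : (q^12-1) + N = q * D := by
    have e2 : (q^12 - 1) + N + q * j = q * D + q * j := by
      have e3 : q * D + q * j = q^12 + q^9 + q^8 + q^6 + q^5 + q^2 := by
        rw [← mul_add, hD]; ring
      omega
    omega
  have h4 : D ∣ c * j * N := by
    have h5 : D ∣ c * (j * (q^12-1)) + c * j * N := by
      have : c * (j * (q^12-1)) + c * j * N = c * j * ((q^12-1) + N) := by ring
      rw [this, e1]
      exact ⟨c * j * q, by ring⟩
    exact (Nat.dvd_add_right h2).1 h5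
  have h6 : D ≤ c * j * N := Nat.le_of_dvd (by positivity) h4
  have h7' : c * j ≤ 36 := by nlinarith
  have h8' : c * j * N ≤ 36 * (q^9+q^8+q^6+q^5+q^2+1) := Nat.mul_le_mul h7' hNq
  have h9 : q^11 ≤ D := by
    have e3 : D + j = q^11 + (q^8 + q^7 + q^5 + q^4 + q) := by rw [hD]; ring
    have : 6 ≤ q := by omega
    omega
  -- bounds
  have b1 : q^11 = q^2 * q^9 := by ring
  have b2 : 64 ≤ q^2 := by nlinarith
  have b3 : 64 * q^9 ≤ q^11 := by rw [b1]; exact Nat.mul_le_mul_right _ b2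
  have b4 : 8 * q^8 ≤ q^9 := by
    have : q^9 = q * q^8 := by ring
    rw [this]; exact Nat.mul_le_mul_right _ h8
  have b5 : 8 * q^7 ≤ q^8 := by
    have : q^8 = q * q^7 := by ring
    rw [this]; exact Nat.mul_le_mul_right _ h8
  have b6 : 8 * q^6 ≤ q^7 := by
    have : q^7 = q * q^6 := by ring
    rw [this]; exact Nat.mul_le_mul_right _ h8
  have b7 : 8 * q^5 ≤ q^6 := by
    have : q^6 = q * q^5 := by ring
    rw [this]; exact Nat.mul_le_mul_right _ h8
  have b8 : q^2 ≤ q^5 := Nat.pow_le_pow_right (by omega) (by norm_num)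
  have b9 : 1 ≤ q^2 := Nat.one_le_pow _ _ (by omega)
  omega

end Cfsg.Agent.H59.E6Ar
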