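import Mathlib

set_option autoImplicit false

namespace Cfsg.Agent.H59.E6twAr

theorem small {q D j : ℕ} (h2 : 2 ≤ q) (h7 : q ≤ 15) (hj : 1 ≤ j) (hj2 : j ≤ 2)
    (hD : D + j = q*(q^6-q^3+1)*(q^4+1))
    (h : D ∣ q^36*(q^2-1)*(q^5+1)*(q^6-1)*(q^8-1)*(q^9+1)*(q^12-1)) : False := by
  have hD' : D = q*(q^6-q^3+1)*(q^4+1) - j := by omega
  subst hD'
  clear hD
  revert h
  interval_cases q <;> interval_cases j <;> norm_num

theorem red {E f c A B : ℤ} (h : A * E + B * f = c) (n : ℕ) :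
    ∀ {K : ℤ}, E ∣ K * f^n → E ∣ K * c^n := by
  induction n with
  | zero => intro K hd; simpa using hd
  | succ n ih =>
    intro K hd
    have h1 : E ∣ (K * f) * f^n := by
      have : K * f^(n+1) = (K * f) * f^n := by ring
      rwa [this] at hd
    have h2 := ih h1
    have h3 : K * c^(n+1) = (K * c^n * A) * E + B * (K * f * c^n) := by
      linear_combination (-(K*c^n)) * h
    rw [h3]
    exact dvd_add (dvd_mul_left _ _) (h2.mul_left _)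

theorem artw {q D j : ℕ} (hq : IsPrimePow q) (hj : 1 ≤ j) (hj2 : j ≤ 2)
    (hD : D + j = q*(q^6-q^3+1)*(q^4+1))
    (h : D ∣ q^36*(q^2-1)*(q^5+1)*(q^6-1)*(q^8-1)*(q^9+1)*(q^12-1)) : False := by
  by_cases h7 : q ≤ 15
  · exact small hq.two_le h7 hj hj2 hD h
  have h16 : 16 ≤ q := by omega
  have e63 : q^3 ≤ q^6 := Nat.pow_le_pow_right (by omega) (by norm_num)
  have o2 : 1 ≤ q^2 := Nat.one_le_pow _ _ (by omega)
  have o6 : 1 ≤ q^6 := Nat.one_le_pow _ _ (by omega)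
  have o8 : 1 ≤ q^8 := Nat.one_le_pow _ _ (by omega)
  have o12 : 1 ≤ q^12 := Nat.one_le_pow _ _ (by omega)
  have hD' : (D:ℤ) + j = (q:ℤ)*((q:ℤ)^6-(q:ℤ)^3+1)*((q:ℤ)^4+1) := by
    have := congrArg (Nat.cast : ℕ → ℤ) hD
    push_cast [Nat.cast_sub e63] at this
    exact this
  have h' : (D:ℤ) ∣ (q:ℤ)^36*((q:ℤ)^2-1)*((q:ℤ)^5+1)*((q:ℤ)^6-1)*((q:ℤ)^8-1)*((q:ℤ)^9+1)*((q:ℤ)^12-1) := by
    have := Int.natCast_dvd_natCast.2 h
    push_cast [Nat.cast_sub o2, Nat.cast_sub o6, Nat.cast_sub o8, Nat.cast_sub o12] at this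
    exact this
  have hQ : (16:ℤ) ≤ (q:ℤ) := by exact_mod_cast h16
  have hpow2 : 2 ∣ q → 4 ∣ q := by
    intro h2
    obtain ⟨p, k, hp, hk, hpk⟩ := hq
    have hp2 : p = 2 := by
      rw [← hpk] at h2
      exact ((Nat.prime_dvd_prime_iff_eq Nat.prime_two hp.nat_prime).1 (Nat.prime_two.dvd_of_dvd_pow h2)).symm
    subst hp2
    have hk2 : 2 ≤ k := by
      by_contra hcon
      have : k = 1 := by omega
      subst this
      omega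
    rw [← hpk]
    exact pow_dvd_pow 2 hk2
  have hpow2' : (2:ℤ) ∣ (q:ℤ) → (4:ℤ) ∣ (q:ℤ) := by
    intro h
    have h1 : 2 ∣ q := by exact_mod_cast h
    exact_mod_cast hpow2 h1
  clear hD h h7 h16 e63 o2 o6 o8 o12 hpow2
  set Q : ℤ := (q:ℤ) with hQd
  obtain rfl | rfl : j = 1 ∨ j = 2 := by omega
  · -- j = 1
    set E : ℤ := Q^7 + Q^5 - Q^4 + Q^3 - Q^2 + Q - 1 with hE
    have hDE : (D:ℤ) = (Q^4-Q^2+1) * E := by
      have : (D:ℤ) = Q*(Q^6-Q^3+1)*(Q^4+1) - 1 := by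
        rw [← hD']; push_cast; ring
      rw [this, hE]; ring
    have h1 : E ∣ (Q^36 * (Q+1)^6 * (Q^2+Q+1)^2 * (Q^2+1)^2 * (Q^2-Q+1)^3 * (Q^4+1)^1 * (Q^4-Q^3+Q^2-Q+1)^1
        * (Q^4-Q^2+1)^1 * (Q^6-Q^3+1)^1) * (Q-1)^4 := by
      have h2 : E ∣ (D:ℤ) := ⟨Q^4-Q^2+1, by rw [hDE]; ring⟩
      refine (h2.trans h').trans (dvd_of_eq ?_)
      ring
    have h2 := red (A := 1) (B := -2 - Q - 2*Q^2 - Q^3 - 2*Q^4 - Q^5 - Q^6) (c := 1) (by rw [hE]; ring) 4 h1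
    rw [one_pow, mul_one] at h2
    have h3 := red (A := -1+Q^2-Q^4) (B := Q+Q^5) (c := 1) (by rw [hE]; ring) 1 h2
    rw [one_pow, mul_one] at h3
    have h4 := red (A := -14-11*Q+8*Q^2+Q^3) (B := 23+3*Q+28*Q^2-Q^3+9*Q^4-8*Q^5-Q^6) (c := 37) (by rw [hE]; ring) 1 h3
    have h4' : E ∣ (37 * Q^36 * (Q+1)^6 * (Q^2+Q+1)^2 * (Q^2+1)^2 * (Q^2-Q+1)^3 * (Q^4+1)^1) *
        (Q^4-Q^3+Q^2-Q+1)^1 := by
      refine h4.trans (dvd_of_eq ?_); ring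
    have h5 := red (A := -Q+Q^2) (B := 1+Q^2-Q^5) (c := 1) (by rw [hE]; ring) 1 h4'
    rw [one_pow, mul_one] at h5
    have h6 := red (A := Q^2) (B := 1+Q^2-Q^3-Q^5) (c := 1) (by rw [hE]; ring) 1 h5
    rw [one_pow, mul_one] at h6
    have h7 := red (A := 1-Q) (B := 2-2*Q^3+Q^6) (c := 1) (by rw [hE]; ring) 3 h6
    rw [one_pow, mul_one] at h7
    have h8 := red (A := -1) (B := Q-Q^2+Q^5) (c := 1) (by rw [hE]; ring) 2 h7
    rw [one_pow, mul_one] at h8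
    have h9 := red (A := -1-Q) (B := Q^6) (c := 1) (by rw [hE]; ring) 2 h8
    rw [one_pow, mul_one] at h9
    have h10 := red (A := -1) (B := 6-5*Q+4*Q^2-3*Q^3+2*Q^4-Q^5+Q^6) (c := 7) (by rw [hE]; ring) 6 h9
    have h10' : E ∣ (37 * 7^6) * Q^36 := by
      refine h10.trans (dvd_of_eq ?_); ring
    have h11 := red (A := -1) (B := 1-Q+Q^2-Q^3+Q^4+Q^6) (c := 1) (by rw [hE]; ring) 36 h10'
    rw [one_pow, mul_one] at h11
    have h12 := Int.le_of_dvd (by norm_num) h11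
    have h13 : (16:ℤ)^7 ≤ Q^7 := pow_le_pow_left₀ (by norm_num) hQ 7
    have h14 : Q^4 ≤ Q^5 := pow_le_pow_right₀ (by linarith) (by norm_num)
    have h15 : Q^2 ≤ Q^3 := pow_le_pow_right₀ (by linarith) (by norm_num)
    have h16 : Q^7 ≤ E := by rw [hE]; linarith
    norm_num at h12 h13
    linarith
  · -- j = 2
    set R : ℤ := 1 + Q + Q^2 + 2*Q^3 + Q^4 + Q^5 + Q^7 + Q^8 + Q^9 with hR
    set E : ℤ := 2 + Q * R with hE
    have hDE : (D:ℤ) = (Q-1) * E := by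
      have : (D:ℤ) = Q*(Q^6-Q^3+1)*(Q^4+1) - 2 := by
        rw [← hD']; push_cast; ring
      rw [this, hE, hR]; ring
    have h1 : E ∣ (Q^36 * (Q+1)^6 * (Q^2+Q+1)^2 * (Q^2+1)^2 * (Q^2-Q+1)^3 * (Q^4+1)^1 * (Q^4-Q^3+Q^2-Q+1)^1
        * (Q^4-Q^2+1)^1 * (Q^6-Q^3+1)^1) * (Q-1)^4 := by
      have h2 : E ∣ (D:ℤ) := ⟨Q-1, by rw [hDE]; ring⟩
      refine (h2.trans h').trans (dvd_of_eq ?_)
      ring
    have h2 := red (A := 1) (B := -10-9*Q-8*Q^2-7*Q^3-5*Q^4-4*Q^5-3*Q^6-3*Q^7-2*Q^8-Q^9) (c := 12)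
      (by rw [hE, hR]; ring) 4 h1
    have h2' : E ∣ (12^4 * Q^36 * (Q+1)^6 * (Q^2+Q+1)^2 * (Q^2+1)^2 * (Q^2-Q+1)^3 * (Q^4+1)^1 *
        (Q^4-Q^3+Q^2-Q+1)^1 * (Q^4-Q^2+1)^1) * (Q^6-Q^3+1)^1 := by
      refine h2.trans (dvd_of_eq ?_); ring
    have h3 := red (A := 1-Q) (B := Q+Q^5) (c := 2) (by rw [hE, hR]; ring) 1 h2'
    have h3' : E ∣ (2 * 12^4 * Q^36 * (Q+1)^6 * (Q^2+Q+1)^2 * (Q^2+1)^2 * (Q^2-Q+1)^3 * (Q^4+1)^1 *
        (Q^4-Q^3+Q^2-Q+1)^1) * (Q^4-Q^2+1)^1 := by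
      refine h3.trans (dvd_of_eq ?_); ring
    have h4 := red (A := 1-Q) (B := -1+Q-Q^2+Q^3-Q^4+Q^5+Q^7) (c := 1) (by rw [hE, hR]; ring) 1 h3'
    rw [one_pow, mul_one] at h4
    have h5 := red (A := 6-3*Q-Q^2-Q^3) (B := -1-Q-Q^2-Q^3-7*Q^4-4*Q^5+3*Q^6+7*Q^7+3*Q^8+Q^9) (c := 11)
      (by rw [hE, hR]; ring) 1 h4
    have h5' : E ∣ (11 * 2 * 12^4 * Q^36 * (Q+1)^6 * (Q^2+Q+1)^2 * (Q^2+1)^2 * (Q^2-Q+1)^3) * (Q^4+1)^1 := by
      refine h5.trans (dvd_of_eq ?_); ring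
    have h6 := red (A := 1-Q) (B := Q-Q^4+Q^7) (c := 2) (by rw [hE, hR]; ring) 1 h5'
    have h6' : E ∣ (2 * 11 * 2 * 12^4 * Q^36 * (Q+1)^6 * (Q^2+Q+1)^2 * (Q^2+1)^2) * (Q^2-Q+1)^3 := by
      refine h6.trans (dvd_of_eq ?_); ring
    have h7 := red (A := -1+Q) (B := 3+2*Q-Q^2-3*Q^3-Q^4+Q^5+2*Q^6-Q^8-Q^9) (c := 1) (by rw [hE, hR]; ring) 3 h6'
    rw [one_pow, mul_one] at h7
    have h8 := red (A := 1-Q) (B := 2+Q-2*Q^2-Q^3+Q^4+2*Q^5-Q^6-Q^7+Q^9) (c := 4) (by rw [hE, hR]; ring) 2 h7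
    have h8' : E ∣ (4^2 * 2 * 11 * 2 * 12^4 * Q^36 * (Q+1)^6) * (Q^2+Q+1)^2 := by
      refine h8.trans (dvd_of_eq ?_); ring
    have h9 := red (A := 1-Q) (B := 1-Q^2+Q^3-Q^4+Q^5-Q^8+Q^9) (c := 3) (by rw [hE, hR]; ring) 2 h8'
    have h9' : E ∣ (3^2 * 4^2 * 2 * 11 * 2 * 12^4 * Q^36) * (Q+1)^6 := by
      refine h9.trans (dvd_of_eq ?_); ring
    have h10 := red (A := 1) (B := 2-3*Q+2*Q^2-3*Q^3+Q^4-2*Q^5+Q^6-Q^7-Q^9) (c := 4) (by rw [hE, hR]; ring) 6 h9'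
    have h10' : E ∣ (4^6 * 3^2 * 4^2 * 2 * 11 * 2 * 12^4) * Q^36 := by
      refine h10.trans (dvd_of_eq ?_); ring
    -- the power of `Q`
    have h11 : E ∣ (4^6 * 3^2 * 4^2 * 2 * 11 * 2 * 12^4) * 2 := by
      by_cases h2Q : (2:ℤ) ∣ Q
      · obtain ⟨m, hm⟩ := hpow2' h2Q
        have hE2 : E = 2 * (1 + 2 * m * R) := by rw [hE, hm]; ring
        have h12 : (1 + 2 * m * R) ∣ (4^6 * 3^2 * 4^2 * 2 * 11 * 2 * 12^4) * Q^36 :=
          (Dvd.intro_left 2 hE2.symm).trans h10'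
        have c1 : IsCoprime (1 + 2 * m * R) m := ⟨1, -2*R, by ring⟩
        have c2 : IsCoprime (1 + 2 * m * R) 2 := ⟨1, -m*R, by ring⟩
        have c3 : IsCoprime (1 + 2 * m * R) Q := by
          rw [hm, show (4:ℤ) * m = 2 * (2 * m) by ring]
          exact c2.mul_right (c2.mul_right c1)
        have h13 := (c3.pow_right (n := 36)).dvd_of_dvd_mul_right h12
        rw [hE2, mul_comm (2:ℤ)]
        exact mul_dvd_mul_right h13 2
      · have c3 : IsCoprime E Q := by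
          have c4 : IsCoprime (2:ℤ) Q := by
            rw [Int.isCoprime_iff_gcd_eq_one]
            have : Int.gcd 2 Q ∣ 2 := by
              have := Int.gcd_dvd_left (a := 2) (b := Q)
              exact_mod_cast this
            rcases (Nat.dvd_prime Nat.prime_two).1 this with h1 | h1
            · exact h1
            · exfalso
              apply h2Q
              have := Int.gcd_dvd_right (a := 2) (b := Q)
              rw [h1] at this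
              exact_mod_cast this
          obtain ⟨a, b, hab⟩ := c4
          exact ⟨a, b - a * R, by rw [hE]; linear_combination hab⟩
        exact ((c3.pow_right (n := 36)).dvd_of_dvd_mul_right h10').mul_right 2
    have h12 := Int.le_of_dvd (by norm_num) h11
    have h13 : (16:ℤ)^10 ≤ Q^10 := pow_le_pow_left₀ (by norm_num) hQ 10
    have h16 : Q^10 ≤ E := by
      have : E = Q^10 + (2 + Q + Q^2 + Q^3 + 2*Q^4 + Q^5 + Q^6 + Q^8 + Q^9) := by rw [hE, hR]; ring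
      rw [this]
      have : 0 ≤ 2 + Q + Q^2 + Q^3 + 2*Q^4 + Q^5 + Q^6 + Q^8 + Q^9 := by positivity
      linarith
    norm_num at h12 h13
    linarith

end Cfsg.Agent.H59.E6twAr
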