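import Mathlib

set_option autoImplicit false

namespace Cfsg.Agent.H59.E8Ar

theorem small {q D j : ℕ} (h2 : 2 ≤ q) (h7 : q ≤ 8) (hj : 1 ≤ j) (hj8 : j ≤ 8)
    (hD : D + j = q*(q^12+1)*(q^10+1)*(q^6+1))
    (h : D ∣ q^29*((q^12+1)*(q^10+1)*(q^6+1)*(q^30-1))) : False := by
  have hD' : D = q*(q^12+1)*(q^10+1)*(q^6+1) - j := by omega
  subst hD'
  clear hD
  revert h
  interval_cases q <;> interval_cases j <;> norm_num

theorem ar8 {q D j : ℕ} (hq : IsPrimePow q) (hj : 1 ≤ j) (hj8 : j ≤ 8)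
    (hD : D + j = q*(q^12+1)*(q^10+1)*(q^6+1))
    (h : D ∣ q^29*((q^12+1)*(q^10+1)*(q^6+1)*(q^30-1))) : False := by
  by_cases h7 : q ≤ 8
  · exact small hq.two_le h7 hj hj8 hD h
  have h8 : 9 ≤ q := by omega
  obtain ⟨p, k, hp, hk, rfl⟩ := hq
  set q := p ^ k with hqdef
  have hp' : p.Prime := hp.nat_prime
  -- step 1
  have h1 : D ∣ j * (q^28 * (q^30-1)) := by
    have e : q^29*((q^12+1)*(q^10+1)*(q^6+1)*(q^30-1)) = D * (q^28 * (q^30-1)) + j * (q^28 * (q^30-1)) := by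
      rw [← add_mul, hD]; ring
    rw [e] at h
    exact (Nat.dvd_add_right (dvd_mul_right D _)).1 h
  -- step 2
  have h2 : D ∣ Nat.gcd D (q^28) * (j * (q^30-1)) := by
    rw [← Nat.gcd_mul_right]
    apply Nat.dvd_gcd
    · exact dvd_mul_right D _
    · have e : q^28 * (j * (q^30-1)) = j * (q^28 * (q^30-1)) := by ring
      rw [e]; exact h1
  -- step 3
  have hqj : ¬ q ∣ j := fun hd => by
    have := Nat.le_of_dvd (by omega) hd
    omega
  have h3 : Nat.gcd D (q^28) ∣ j := by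
    have hdq : Nat.gcd D (q^28) ∣ p ^ (k * 28) := by
      rw [pow_mul]; exact Nat.gcd_dvd_right _ _
    obtain ⟨i, hi, hi'⟩ := (Nat.dvd_prime_pow hp').1 hdq
    have hiD : p ^ i ∣ D := hi' ▸ Nat.gcd_dvd_left _ _
    rw [hi']
    have hqB : ∀ x, x ∣ q → x ∣ D → x ∣ j := by
      intro x hx hxD
      have : x ∣ D + j := by
        rw [hD, mul_assoc, mul_assoc]; exact dvd_mul_of_dvd_left hx _
      exact (Nat.dvd_add_right hxD).1 this
    by_cases hik : i ≤ k
    · exact hqB _ (pow_dvd_pow p hik) hiD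
    · exfalso
      exact hqj (hqB q dvd_rfl ((pow_dvd_pow p (by omega : k ≤ i)).trans hiD))
  have h3' : Nat.gcd D (q^28) ≤ 8 := (Nat.le_of_dvd (by omega) h3).trans hj8
  have h3'' : 0 < Nat.gcd D (q^28) := Nat.gcd_pos_of_pos_right _ (by positivity)
  set c := Nat.gcd D (q^28) with hc
  -- step 4
  have hqj' : q * j < q^2 := by nlinarith
  have hq30 : 1 ≤ q^30 := Nat.one_le_pow _ _ (by omega)
  set R := q^24+q^20+q^18+q^14+q^12+q^8 with hR
  obtain ⟨N, hN⟩ : ∃ N, N + q * j = R+q^2+1 := ⟨R+q^2+1 - q*j, by omega⟩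
  have hN0 : 0 < N := by omega
  have hNq : N ≤ R+q^2+1 := by omega
  have e1 : (q^30-1) + N = q * D := by
    have e2 : (q^30 - 1) + N + q * j = q * D + q * j := by
      have e3 : q * D + q * j = q^30 + R + q^2 := by
        rw [← mul_add, hD, hR]; ring
      omega
    omega
  have h4 : D ∣ c * j * N := by
    have h5 : D ∣ c * (j * (q^30-1)) + c * j * N := by
      have : c * (j * (q^30-1)) + c * j * N = c * j * ((q^30-1) + N) := by ring
      rw [this, e1]
      exact ⟨c * j * q, by ring⟩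
    exact (Nat.dvd_add_right h2).1 h5
  have h6 : D ≤ c * j * N := Nat.le_of_dvd (by positivity) h4
  have h7' : c * j ≤ 64 := by nlinarith
  have h8' : c * j * N ≤ 64 * (R+q^2+1) := Nat.mul_le_mul h7' hNq
  have h9 : q^29 ≤ D := by
    have e3 : D + j = q^29 + (q^23 + q^19 + q^17 + q^13 + q^11 + q^7 + q) := by rw [hD]; ring
    omega
  -- bounds
  have m : ∀ {a b : ℕ}, a ≤ b → q^a ≤ q^b := fun h => Nat.pow_le_pow_right (by omega) h
  have a1 : q^20 ≤ q^24 := m (by norm_num)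
  have a2 : q^18 ≤ q^24 := m (by norm_num)
  have a3 : q^14 ≤ q^24 := m (by norm_num)
  have a4 : q^12 ≤ q^24 := m (by norm_num)
  have a5 : q^8 ≤ q^24 := m (by norm_num)
  have a6 : q^2 ≤ q^24 := m (by norm_num)
  have a7 : 1 ≤ q^24 := Nat.one_le_pow _ _ (by omega)
  have b1 : q^29 = q^5 * q^24 := by ring
  have b2 : 9^5 ≤ q^5 := Nat.pow_le_pow_left h8 5
  have b3 : 9^5 * q^24 ≤ q^29 := by rw [b1]; exact Nat.mul_le_mul_right _ b2
  norm_num at b3
  omega

end Cfsg.Agent.H59.E8Ar
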