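import Mathlib

/-!
Modules in characteristic 5 for `A5 × A5`: no vector which is fixed by a 5-cycle and negated by an involution
inverting it (first factor) and fixed by a point stabilizer of the second factor, if the second factor and all
twisted diagonals have no nonzero fixed vectors.
-/

set_option autoImplicit false
set_option linter.all false

namespace Cfsg.Agent.H59.AW

open Equiv

universe u

abbrev A5 := alternatingGroup (Fin 5)

/-- `(0 1 2 3 4)` -/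
def X : A5 := ⟨⟨![1,2,3,4,0], ![4,0,1,2,3], by decide, by decide⟩, by rw [Perm.mem_alternatingGroup]; decide⟩
/-- `(1 4)(2 3)` -/
def T : A5 := ⟨⟨![0,4,3,2,1], ![0,4,3,2,1], by decide, by decide⟩, by rw [Perm.mem_alternatingGroup]; decide⟩
/-- `(1 2)(3 4)` -/
def G1 : A5 := ⟨⟨![0,2,1,4,3], ![0,2,1,4,3], by decide, by decide⟩, by rw [Perm.mem_alternatingGroup]; decide⟩
/-- `(0 1)(2 3)` -/
def A : A5 := ⟨⟨![1,0,3,2,4], ![1,0,3,2,4], by decide, by decide⟩, by rw [Perm.mem_alternatingGroup]; decide⟩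
/-- `(0 2)(1 3)` -/
def B : A5 := ⟨⟨![2,3,0,1,4], ![2,3,0,1,4], by decide, by decide⟩, by rw [Perm.mem_alternatingGroup]; decide⟩
/-- `(0 1 2)` -/
def C : A5 := ⟨⟨![1,2,0,3,4], ![2,0,1,3,4], by decide, by decide⟩, by rw [Perm.mem_alternatingGroup]; decide⟩

theorem e1 : G1 * G1 = 1 := by decide
theorem e2 : G1 * (X*G1) = X^4*G1*X^4 := by decide
theorem e3 : G1 * (X^2*G1) = X^2*G1*X^3*T := by decide
theorem e4 : G1 * (X^3*G1) = X^3*G1*X^2*T := by decide
theorem e5 : G1 * (X^4*G1) = X*G1*X := by decide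
theorem eX : X * (X^4*G1) = G1 := by decide
theorem t1 : T * G1 = G1 * T := by decide
theorem t2 : T * (X*G1) = X^4*G1*T := by decide
theorem t3 : T * (X^2*G1) = X^3*G1*T := by decide
theorem t4 : T * (X^3*G1) = X^2*G1*T := by decide
theorem t5 : T * (X^4*G1) = X*G1*T := by decide

theorem words (g : A5) : ∃ i k : Fin 5, ∃ e : Fin 2,
    g = X^(i:ℕ) * T^(e:ℕ) ∨ g = X^(i:ℕ) * G1 * X^(k:ℕ) * T^(e:ℕ) := by
  revert g
  decide +kernel

theorem words4 (g : A5) (h : (g : Perm (Fin 5)) 4 = 4) : ∃ i j : Fin 2, ∃ k : Fin 3,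
    g = A^(i:ℕ) * B^(j:ℕ) * C^(k:ℕ) := by
  revert g
  decide +kernel

theorem trans4 (j : Fin 5) : ∃ g : A5, (g : Perm (Fin 5)) 4 = j := by
  revert j
  decide +kernel


section one

variable {V : Type u} [AddCommGroup V] (σ : A5 →* AddMonoid.End V) (n : V)

/-- `b1 .. b5` (neighbours of the vertex `n`) -/
def bb (i : ℕ) : V := σ (X^i * G1) n

/-- the operator `A` -/
def Av : V := σ G1 n + σ (X*G1) n + σ (X^2*G1) n + σ (X^3*G1) n + σ (X^4*G1) n

theorem act_mul (g h : A5) (v : V) : σ g (σ h v) = σ (g*h) v := by rw [map_mul]; rfl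

variable {σ n}

theorem powX (hx : σ X n = n) (k : ℕ) : σ (X^k) n = n := by
  induction k with
  | zero => simp
  | succ k ih => rw [pow_succ, ← act_mul, hx, ih]

variable (h5 : ∀ v : V, (5:ℕ) • v = 0) (hx : σ X n = n) (ht : σ T n = -n)

include hx in
theorem a_X1 (g : A5) (k : ℕ) : σ (g * X^k) n = σ g n := by rw [← act_mul, powX hx]

include hx ht in
theorem a_XT (g : A5) (k : ℕ) : σ (g * X^k * T) n = - σ g n := by
  rw [← act_mul, ht, map_neg, a_X1 hx]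

include ht in
theorem a_T (g : A5) : σ (g * T) n = - σ g n := by
  rw [← act_mul, ht, map_neg]

include hx ht in
theorem g2 : σ G1 (σ (X*G1) n) = σ (X^4*G1) n := by rw [act_mul, e2, a_X1 hx]
include hx ht in
theorem g3 : σ G1 (σ (X^2*G1) n) = - σ (X^2*G1) n := by rw [act_mul, e3, a_XT hx ht]
include hx ht in
theorem g4 : σ G1 (σ (X^3*G1) n) = - σ (X^3*G1) n := by rw [act_mul, e4, a_XT hx ht]
include hx ht in
theorem g5 : σ G1 (σ (X^4*G1) n) = σ (X*G1) n := by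
  rw [act_mul, e5]
  have := a_X1 hx (X*G1) 1
  rwa [pow_one] at this
theorem g1 : σ G1 (σ G1 n) = n := by rw [act_mul, e1, map_one]; rfl
theorem x1 : σ X (σ G1 n) = σ (X*G1) n := act_mul _ _ _ _
theorem x2 : σ X (σ (X*G1) n) = σ (X^2*G1) n := by rw [act_mul]; congr 1
theorem x3 : σ X (σ (X^2*G1) n) = σ (X^3*G1) n := by rw [act_mul]; congr 1
theorem x4 : σ X (σ (X^3*G1) n) = σ (X^4*G1) n := by rw [act_mul]; congr 1
theorem x5 : σ X (σ (X^4*G1) n) = σ G1 n := by rw [act_mul, eX]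
include ht in
theorem T1 : σ T (σ G1 n) = - σ G1 n := by rw [act_mul, t1, a_T ht]
include ht in
theorem T2 : σ T (σ (X*G1) n) = - σ (X^4*G1) n := by rw [act_mul, t2, a_T ht]
include ht in
theorem T3 : σ T (σ (X^2*G1) n) = - σ (X^3*G1) n := by rw [act_mul, t3, a_T ht]
include ht in
theorem T4 : σ T (σ (X^3*G1) n) = - σ (X^2*G1) n := by rw [act_mul, t4, a_T ht]
include ht in
theorem T5 : σ T (σ (X^4*G1) n) = - σ (X*G1) n := by rw [act_mul, t5, a_T ht]

/-! ### the operator `A` -/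

theorem x_Av : σ X (Av σ n) = Av σ n := by
  unfold Av
  simp only [map_add, x1, x2, x3, x4, x5]
  abel

include ht in
theorem T_Av : σ T (Av σ n) = - Av σ n := by
  unfold Av
  simp only [map_add, T1 ht, T2 ht, T3 ht, T4 ht, T5 ht]
  abel

include h5 hx ht in
theorem Av_Av : Av σ (Av σ n) = 0 := by
  -- `σ G1 (Av n)`
  have hg : σ G1 (Av σ n) = n + σ (X^4*G1) n - σ (X^2*G1) n - σ (X^3*G1) n + σ (X*G1) n := by
    unfold Av
    simp only [map_add, g1, g2 hx ht, g3 hx ht, g4 hx ht, g5 hx ht]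
    abel
  have h1 : σ (X*G1) (Av σ n) = n + σ G1 n - σ (X^3*G1) n - σ (X^4*G1) n + σ (X^2*G1) n := by
    rw [← act_mul, hg]
    simp only [map_add, map_sub, x1, x2, x3, x4, x5, hx]
  have h2 : σ (X^2*G1) (Av σ n) = n + σ (X*G1) n - σ (X^4*G1) n - σ G1 n + σ (X^3*G1) n := by
    rw [show X^2*G1 = X*(X*G1) from by decide, ← act_mul, h1]
    simp only [map_add, map_sub, x1, x2, x3, x4, x5, hx]
  have h3 : σ (X^3*G1) (Av σ n) = n + σ (X^2*G1) n - σ G1 n - σ (X*G1) n + σ (X^4*G1) n := by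
    rw [show X^3*G1 = X*(X^2*G1) from by decide, ← act_mul, h2]
    simp only [map_add, map_sub, x1, x2, x3, x4, x5, hx]
  have h4 : σ (X^4*G1) (Av σ n) = n + σ (X^3*G1) n - σ (X*G1) n - σ (X^2*G1) n + σ G1 n := by
    rw [show X^4*G1 = X*(X^3*G1) from by decide, ← act_mul, h3]
    simp only [map_add, map_sub, x1, x2, x3, x4, x5, hx]
  have e : Av σ (Av σ n) = (5:ℕ) • n := by
    conv_lhs => rw [Av]
    rw [hg, h1, h2, h3, h4]
    abel
  rw [e, h5]


variable (σ n) in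
/-- image of `e_p - e_0` -/
def psi : Fin 5 → V := ![0, (3:ℤ)•n + σ G1 n + σ (X*G1) n, (3:ℤ)•n + (4:ℤ)•σ (X*G1) n,
  (4:ℤ)•n + (2:ℤ)•σ G1 n + (4:ℤ)•σ (X*G1) n, (2:ℤ)•σ G1 n + σ (X*G1) n]

include h5 in
theorem h5z (v : V) : (5:ℤ) • v = 0 := by
  have := h5 v
  rw [← this]
  exact_mod_cast (natCast_zsmul v 5)

variable (hA : Av σ n = 0)

include hx ht hA in
theorem R1 : n + σ (X^4*G1) n - σ (X^2*G1) n - σ (X^3*G1) n + σ (X*G1) n = 0 := by
  have hg : σ G1 (Av σ n) = n + σ (X^4*G1) n - σ (X^2*G1) n - σ (X^3*G1) n + σ (X*G1) n := by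
    unfold Av
    simp only [map_add, g1, g2 hx ht, g3 hx ht, g4 hx ht, g5 hx ht]
    abel
  rw [← hg, hA, map_zero]

include hx ht hA in
theorem R2 : n + σ G1 n - σ (X^3*G1) n - σ (X^4*G1) n + σ (X^2*G1) n = 0 := by
  have := congrArg (σ X) (R1 hx ht hA)
  simp only [map_add, map_sub, x1, x2, x3, x4, x5, hx, map_zero] at this
  exact this

include h5 hx ht hA in
theorem r5 : σ (X^4*G1) n = (2:ℤ)•n + (2:ℤ)•σ G1 n - σ (X*G1) n := by
  have q1 := R1 hx ht hA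
  have q0 := hA
  unfold Av at q0
  have z := h5z h5 (n + σ G1 n + σ (X*G1) n + σ (X^4*G1) n)
  linear_combination (norm := module) (3:ℤ)•q0 + (3:ℤ)•q1 - z

include h5 hx ht hA in
theorem r3 : σ (X^2*G1) n = (2:ℤ)•n - σ G1 n + (2:ℤ)•σ (X*G1) n := by
  have q1 := R2 hx ht hA
  have q0 := hA
  unfold Av at q0
  have z := h5z h5 (n + σ G1 n + σ (X*G1) n + σ (X^2*G1) n)
  linear_combination (norm := module) (3:ℤ)•q0 + (3:ℤ)•q1 - z

include h5 hx ht hA in
theorem r4 : σ (X^3*G1) n = n + (3:ℤ)•σ G1 n + (3:ℤ)•σ (X*G1) n := by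
  have q0 := hA
  unfold Av at q0
  rw [r3 h5 hx ht hA, r5 h5 hx ht hA] at q0
  have z := h5z h5 (n + σ G1 n + σ (X*G1) n)
  linear_combination (norm := module) q0 - z


/-- `psi` is equivariant up to constants -/
def Eqv (σ : A5 →* AddMonoid.End V) (ψ : Fin 5 → V) (g : A5) : Prop :=
  ∀ p, σ g (ψ p) = ψ ((g : Perm (Fin 5)) p) - ψ ((g : Perm (Fin 5)) 0)

theorem Eqv.mul {ψ : Fin 5 → V} (h0 : ψ 0 = 0) {g h : A5} (hg : Eqv σ ψ g) (hh : Eqv σ ψ h) :
    Eqv σ ψ (g*h) := by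
  intro p
  rw [← act_mul, hh, map_sub, hg, hg]
  simp only [Subgroup.coe_mul, Perm.mul_apply]
  abel

theorem Eqv.one {ψ : Fin 5 → V} (h0 : ψ 0 = 0) : Eqv σ ψ 1 := by
  intro p
  simp [h0]

theorem Eqv.pow {ψ : Fin 5 → V} (h0 : ψ 0 = 0) {g : A5} (hg : Eqv σ ψ g) (k : ℕ) :
    Eqv σ ψ (g^k) := by
  induction k with
  | zero => rw [pow_zero]; exact Eqv.one h0
  | succ k ih => rw [pow_succ]; exact ih.mul h0 hg

include h5 hx ht hA in
theorem eqX : Eqv σ (psi σ n) X := by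
  have q3 := r3 h5 hx ht hA
  have q4 := r4 h5 hx ht hA
  have q5 := r5 h5 hx ht hA
  have za := h5z h5 n
  have zb := h5z h5 (σ G1 n)
  have zc := h5z h5 (σ (X*G1) n)
  intro p
  fin_cases p
  · show σ X (0:V) = psi σ n 1 - psi σ n 1
    rw [map_zero, sub_self]
  · show σ X ((3:ℤ)•n + σ G1 n + σ (X*G1) n) = ((3:ℤ)•n + (4:ℤ)•σ (X*G1) n) -
      ((3:ℤ)•n + σ G1 n + σ (X*G1) n)
    simp only [map_add, map_zsmul, x1, x2, hx, q3]
    linear_combination (norm := module) za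
  · show σ X ((3:ℤ)•n + (4:ℤ)•σ (X*G1) n) = ((4:ℤ)•n + (2:ℤ)•σ G1 n + (4:ℤ)•σ (X*G1) n) -
      ((3:ℤ)•n + σ G1 n + σ (X*G1) n)
    simp only [map_add, map_zsmul, x1, x2, hx, q3]
    linear_combination (norm := module) (2:ℤ)•za - zb + zc
  · show σ X ((4:ℤ)•n + (2:ℤ)•σ G1 n + (4:ℤ)•σ (X*G1) n) = ((2:ℤ)•σ G1 n + σ (X*G1) n) -
      ((3:ℤ)•n + σ G1 n + σ (X*G1) n)
    simp only [map_add, map_zsmul, x1, x2, hx, q3]
    linear_combination (norm := module) (3:ℤ)•za - zb + (2:ℤ)•zc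
  · show σ X ((2:ℤ)•σ G1 n + σ (X*G1) n) = (0:V) - ((3:ℤ)•n + σ G1 n + σ (X*G1) n)
    simp only [map_add, map_zsmul, x1, x2, hx, q3]
    linear_combination (norm := module) za + zc

include h5 hx ht hA in
theorem eqT : Eqv σ (psi σ n) T := by
  have q3 := r3 h5 hx ht hA
  have q4 := r4 h5 hx ht hA
  have q5 := r5 h5 hx ht hA
  have za := h5z h5 n
  have zb := h5z h5 (σ G1 n)
  have zc := h5z h5 (σ (X*G1) n)
  intro p
  fin_cases p
  · show σ T (0:V) = (0:V) - (0:V)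
    rw [map_zero, sub_self]
  · show σ T ((3:ℤ)•n + σ G1 n + σ (X*G1) n) = ((2:ℤ)•σ G1 n + σ (X*G1) n) - (0:V)
    simp only [map_add, map_zsmul, T1 ht, T2 ht, ht, q5]
    linear_combination (norm := module) -za - zb
  · show σ T ((3:ℤ)•n + (4:ℤ)•σ (X*G1) n) = ((4:ℤ)•n + (2:ℤ)•σ G1 n + (4:ℤ)•σ (X*G1) n) - (0:V)
    simp only [map_add, map_zsmul, T1 ht, T2 ht, ht, q5]
    linear_combination (norm := module) (-3:ℤ)•za - (2:ℤ)•zb
  · show σ T ((4:ℤ)•n + (2:ℤ)•σ G1 n + (4:ℤ)•σ (X*G1) n) = ((3:ℤ)•n + (4:ℤ)•σ (X*G1) n) - (0:V)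
    simp only [map_add, map_zsmul, T1 ht, T2 ht, ht, q5]
    linear_combination (norm := module) (-3:ℤ)•za - (2:ℤ)•zb
  · show σ T ((2:ℤ)•σ G1 n + σ (X*G1) n) = ((3:ℤ)•n + σ G1 n + σ (X*G1) n) - (0:V)
    simp only [map_add, map_zsmul, T1 ht, T2 ht, ht, q5]
    linear_combination (norm := module) -za - zb

include h5 hx ht hA in
theorem eqG : Eqv σ (psi σ n) G1 := by
  have q3 := r3 h5 hx ht hA
  have q4 := r4 h5 hx ht hA
  have q5 := r5 h5 hx ht hA
  have za := h5z h5 n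
  have zb := h5z h5 (σ G1 n)
  have zc := h5z h5 (σ (X*G1) n)
  intro p
  fin_cases p
  · show σ G1 (0:V) = (0:V) - (0:V)
    rw [map_zero, sub_self]
  · show σ G1 ((3:ℤ)•n + σ G1 n + σ (X*G1) n) = ((3:ℤ)•n + (4:ℤ)•σ (X*G1) n) - (0:V)
    simp only [map_add, map_zsmul, g1, g2 hx ht, q5]
    linear_combination (norm := module) zb - zc
  · show σ G1 ((3:ℤ)•n + (4:ℤ)•σ (X*G1) n) = ((3:ℤ)•n + σ G1 n + σ (X*G1) n) - (0:V)
    simp only [map_add, map_zsmul, g1, g2 hx ht, q5]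
    linear_combination (norm := module) za + (2:ℤ)•zb - zc
  · show σ G1 ((4:ℤ)•n + (2:ℤ)•σ G1 n + (4:ℤ)•σ (X*G1) n) = ((2:ℤ)•σ G1 n + σ (X*G1) n) - (0:V)
    simp only [map_add, map_zsmul, g1, g2 hx ht, q5]
    linear_combination (norm := module) (2:ℤ)•za + (2:ℤ)•zb - zc
  · show σ G1 ((2:ℤ)•σ G1 n + σ (X*G1) n) = ((4:ℤ)•n + (2:ℤ)•σ G1 n + (4:ℤ)•σ (X*G1) n) - (0:V)
    simp only [map_add, map_zsmul, g1, g2 hx ht, q5]
    linear_combination (norm := module) -zc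

include h5 hx ht hA in
theorem eqAll (g : A5) : Eqv σ (psi σ n) g := by
  have h0 : psi σ n 0 = 0 := rfl
  have hX := eqX h5 hx ht hA
  have hT := eqT h5 hx ht hA
  have hG := eqG h5 hx ht hA
  obtain ⟨i, k, e, h | h⟩ := words g
  · rw [h]; exact (hX.pow h0 _).mul h0 (hT.pow h0 _)
  · rw [h]; exact (((hX.pow h0 _).mul h0 hG).mul h0 (hX.pow h0 _)).mul h0 (hT.pow h0 _)

include h5 in
theorem recover : psi σ n 1 + (2:ℤ)•psi σ n 2 + (3:ℤ)•psi σ n 3 + (4:ℤ)•psi σ n 4 = n := by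
  have za := h5z h5 n
  have zb := h5z h5 (σ G1 n)
  have zc := h5z h5 (σ (X*G1) n)
  show ((3:ℤ)•n + σ G1 n + σ (X*G1) n) + (2:ℤ)•((3:ℤ)•n + (4:ℤ)•σ (X*G1) n) +
    (3:ℤ)•((4:ℤ)•n + (2:ℤ)•σ G1 n + (4:ℤ)•σ (X*G1) n) + (4:ℤ)•((2:ℤ)•σ G1 n + σ (X*G1) n) = n
  linear_combination (norm := module) (4:ℤ)•za + (3:ℤ)•zb + (5:ℤ)•zc


theorem comm_Av (τ : AddMonoid.End V) (hτ : ∀ g v, τ (σ g v) = σ g (τ v)) (v : V) :
    τ (Av σ v) = Av σ (τ v) := by
  unfold Av
  simp only [map_add, hτ]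

theorem comm_psi (τ : AddMonoid.End V) (hτ : ∀ g v, τ (σ g v) = σ g (τ v)) (v : V) (p : Fin 5) :
    τ (psi σ v p) = psi σ (τ v) p := by
  fin_cases p
  · show τ 0 = 0
    exact map_zero _
  · show τ ((3:ℤ)•v + σ G1 v + σ (X*G1) v) = (3:ℤ)•(τ v) + σ G1 (τ v) + σ (X*G1) (τ v)
    simp only [map_add, map_zsmul, hτ]
  · show τ ((3:ℤ)•v + (4:ℤ)•σ (X*G1) v) = (3:ℤ)•(τ v) + (4:ℤ)•σ (X*G1) (τ v)
    simp only [map_add, map_zsmul, hτ]
  · show τ ((4:ℤ)•v + (2:ℤ)•σ G1 v + (4:ℤ)•σ (X*G1) v) =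
      (4:ℤ)•(τ v) + (2:ℤ)•σ G1 (τ v) + (4:ℤ)•σ (X*G1) (τ v)
    simp only [map_add, map_zsmul, hτ]
  · show τ ((2:ℤ)•σ G1 v + σ (X*G1) v) = (2:ℤ)•σ G1 (τ v) + σ (X*G1) (τ v)
    simp only [map_add, map_zsmul, hτ]

theorem sum_psi {ι : Type} [Fintype ι] (M : ι → V) (hM : ∑ j, M j = 0) (p : Fin 5) :
    ∑ j, psi σ (M j) p = 0 := by
  fin_cases p
  · show ∑ j, (0:V) = 0
    exact Finset.sum_const_zero
  · show ∑ j, ((3:ℤ)•(M j) + σ G1 (M j) + σ (X*G1) (M j)) = 0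
    simp only [Finset.sum_add_distrib, ← Finset.smul_sum, ← map_sum, hM, map_zero, smul_zero, add_zero]
  · show ∑ j, ((3:ℤ)•(M j) + (4:ℤ)•σ (X*G1) (M j)) = 0
    simp only [Finset.sum_add_distrib, ← Finset.smul_sum, ← map_sum, hM, map_zero, smul_zero, add_zero]
  · show ∑ j, ((4:ℤ)•(M j) + (2:ℤ)•σ G1 (M j) + (4:ℤ)•σ (X*G1) (M j)) = 0
    simp only [Finset.sum_add_distrib, ← Finset.smul_sum, ← map_sum, hM, map_zero, smul_zero, add_zero]
  · show ∑ j, ((2:ℤ)•σ G1 (M j) + σ (X*G1) (M j)) = 0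
    simp only [Finset.sum_add_distrib, ← Finset.smul_sum, ← map_sum, hM, map_zero, smul_zero, add_zero]

end one

section two

variable {V : Type u} [AddCommGroup V] (h5 : ∀ v : V, (5:ℕ) • v = 0)
  (rho : A5 × A5 →* AddMonoid.End V)
  (h2 : ∀ v : V, (∀ g, rho (1, g) v = v) → v = 0)
  (hd : ∀ s : Perm (Fin 5), ∀ v : V,
    (∀ g h : A5, (h : Perm (Fin 5)) = s * g * s⁻¹ → rho (g, h) v = v) → v = 0)

/-- the first factor -/
def fst : A5 →* AddMonoid.End V := rho.comp (MonoidHom.inl A5 A5)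

theorem fst_apply (g : A5) (v : V) : fst rho g v = rho (g, 1) v := rfl

theorem rho_split (g h : A5) (v : V) : rho (g, h) v = fst rho g (rho (1, h) v) := by
  rw [fst_apply]
  show _ = (rho (g, 1) * rho (1, h)) v
  rw [← map_mul, Prod.mk_mul_mk, mul_one, one_mul]

theorem comm12 (g h : A5) (v : V) : rho (1, h) (fst rho g v) = fst rho g (rho (1, h) v) := by
  rw [← rho_split, fst_apply]
  show (rho (1, h) * rho (g, 1)) v = _
  rw [← map_mul, Prod.mk_mul_mk, mul_one, one_mul]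

theorem exists_perm {p q a b : Fin 5} (hpq : p ≠ q) (hab : a ≠ b) :
    ∃ s : Perm (Fin 5), s p = a ∧ s q = b := by
  refine ⟨swap (swap p a q) b * swap p a, ?_, ?_⟩
  · rw [Perm.mul_apply, swap_apply_left]
    apply swap_apply_of_ne_of_ne
    · intro h
      have : swap p a q = swap p a p := by rw [swap_apply_left]; exact h.symm
      exact hpq ((swap p a).injective this).symm
    · exact hab
  · rw [Perm.mul_apply, swap_apply_left]

include h5 h2 hd in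
theorem core (m : V) (hx : fst rho X m = m) (ht : fst rho T m = -m)
    (h4 : ∀ k : A5, (k : Perm (Fin 5)) 4 = 4 → rho (1, k) m = m) (hA : Av (fst rho) m = 0) :
    m = 0 := by
  choose tr htr using trans4
  obtain ⟨M, hMdef⟩ : ∃ M : Fin 5 → V, ∀ j, M j = rho (1, tr j) m := ⟨_, fun _ => rfl⟩
  have snd_mul : ∀ (h k : A5) (v : V), rho (1, h) (rho (1, k) v) = rho (1, h*k) v := by
    intro h k v
    show (rho (1, h) * rho (1, k)) v = _
    rw [← map_mul, Prod.mk_mul_mk, mul_one]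
  have hM : ∀ (h : A5) (j : Fin 5), rho (1, h) (M j) = M ((h : Perm (Fin 5)) j) := by
    intro h j
    rw [hMdef, hMdef, snd_mul]
    have e : h * tr j = tr ((h : Perm (Fin 5)) j) * ((tr ((h : Perm (Fin 5)) j))⁻¹ * (h * tr j)) := by
      rw [mul_inv_cancel_left]
    rw [e, ← snd_mul, h4]
    simp only [Subgroup.coe_mul, Subgroup.coe_inv, Perm.mul_apply, htr]
    rw [Perm.inv_eq_iff_eq, htr]
  have hM4 : M 4 = m := by
    rw [hMdef]; exact h4 _ (htr 4)
  have hsum : ∑ j, M j = 0 := by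
    apply h2
    intro h
    rw [map_sum]
    simp only [hM]
    exact Equiv.sum_comp (h : Perm (Fin 5)) M
  have hXj : ∀ j, fst rho X (M j) = M j := by
    intro j; rw [hMdef, ← comm12, hx]
  have hTj : ∀ j, fst rho T (M j) = - M j := by
    intro j; rw [hMdef, ← comm12, ht, map_neg]
  have hAj : ∀ j, Av (fst rho) (M j) = 0 := by
    intro j
    rw [hMdef, ← comm_Av (σ := fst rho) (rho (1, tr j)) (fun g v => comm12 rho g (tr j) v), hA, map_zero]
  obtain ⟨D, hD⟩ : ∃ D : Fin 5 → Fin 5 → V, ∀ a p, D a p = psi (fst rho) (M a) p := ⟨_, fun _ _ => rfl⟩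
  have hD0 : ∀ a, D a 0 = 0 := fun a => by rw [hD]; rfl
  have hDsnd : ∀ (h : A5) (a p), rho (1, h) (D a p) = D ((h : Perm (Fin 5)) a) p := by
    intro h a p
    rw [hD, hD, comm_psi (σ := fst rho) (rho (1, h)) (fun g v => comm12 rho g h v), hM]
  have hDfst : ∀ (g : A5) (a p), fst rho g (D a p) =
      D a ((g : Perm (Fin 5)) p) - D a ((g : Perm (Fin 5)) 0) := by
    intro g a p
    rw [hD, hD, hD]
    exact eqAll h5 (hXj a) (hTj a) (hAj a) g p
  have hDsum : ∀ (s : Perm (Fin 5)) (p), ∑ j, D (s j) p = 0 := by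
    intro s p
    simp only [hD]
    apply sum_psi
    rw [← hsum]
    exact Equiv.sum_comp s M
  have hTh : ∀ s : Perm (Fin 5), ∑ j, D (s j) j = 0 := by
    intro s
    apply hd s
    intro g h hgh
    rw [rho_split, map_sum, map_sum]
    have e : ∀ j, fst rho g (rho (1, h) (D (s j) j)) =
        D (s ((g : Perm (Fin 5)) j)) ((g : Perm (Fin 5)) j) -
          D (s ((g : Perm (Fin 5)) j)) ((g : Perm (Fin 5)) 0) := by
      intro j
      rw [hDsnd, hDfst, hgh]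
      have hs : s⁻¹ (s j) = j := by simp
      simp only [Perm.mul_apply, hs]
    rw [Finset.sum_congr rfl (fun j _ => e j), Finset.sum_sub_distrib]
    have e1 := Equiv.sum_comp (g : Perm (Fin 5)) (fun j => D (s j) j)
    have e2 := Equiv.sum_comp (g : Perm (Fin 5)) (fun j => D (s j) ((g : Perm (Fin 5)) 0))
    rw [e1, e2, hDsum, sub_zero]
  have hab : ∀ a b p : Fin 5, D a p = D b p := by
    intro a b p
    by_cases hab : a = b
    · rw [hab]
    by_cases hp : p = 0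
    · rw [hp, hD0, hD0]
    obtain ⟨s, hs1, hs2⟩ := exists_perm (p := p) (q := 0) hp hab
    have k1 := hTh s
    have k2 := hTh (s * swap p 0)
    have k3 : ∑ j, (D (s j) j - D ((s * swap p 0) j) j) = 0 := by
      rw [Finset.sum_sub_distrib, k1, k2, sub_zero]
    rw [Fintype.sum_eq_add p 0 hp] at k3
    · simp only [Perm.mul_apply, swap_apply_left, swap_apply_right, hs1, hs2, hD0] at k3
      rw [sub_zero, add_zero] at k3
      exact sub_eq_zero.1 k3
    · rintro j ⟨hj1, hj2⟩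
      rw [Perm.mul_apply, swap_apply_of_ne_of_ne hj1 hj2, sub_self]
  have hMab : ∀ a b, M a = M b := by
    intro a b
    rw [← recover (σ := fst rho) (n := M a) h5, ← recover (σ := fst rho) (n := M b) h5]
    simp only [← hD]
    rw [hab a b 1, hab a b 2, hab a b 3, hab a b 4]
  apply h2
  intro g
  rw [← hM4, hM]
  exact hMab _ _

include h5 h2 hd in
/-- Piece (W). -/
theorem minus_zero (m : V) (hx : rho (X, 1) m = m) (ht : rho (T, 1) m = -m)
    (ha : rho (1, A) m = m) (hb : rho (1, B) m = m) (hc : rho (1, C) m = m) : m = 0 := by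
  have snd_mul : ∀ (h k : A5) (v : V), rho (1, h) (rho (1, k) v) = rho (1, h*k) v := by
    intro h k v
    show (rho (1, h) * rho (1, k)) v = _
    rw [← map_mul, Prod.mk_mul_mk, mul_one]
  have snd_pow : ∀ (h : A5) (v : V), rho (1, h) v = v → ∀ k : ℕ, rho (1, h^k) v = v := by
    intro h v hv k
    induction k with
    | zero =>
      have : rho ((1:A5), h^0) = 1 := by rw [pow_zero]; exact map_one rho
      rw [this]; rfl
    | succ k ih => rw [pow_succ, ← snd_mul, hv, ih]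
  have h4 : ∀ k : A5, (k : Perm (Fin 5)) 4 = 4 → rho (1, k) m = m := by
    intro k hk
    obtain ⟨i, j, l, rfl⟩ := words4 k hk
    rw [← snd_mul, ← snd_mul, snd_pow _ _ hc, snd_pow _ _ hb, snd_pow _ _ ha]
  have hx' : fst rho X m = m := hx
  have ht' : fst rho T m = -m := ht
  have h0 : Av (fst rho) m = 0 := by
    apply core h5 rho h2 hd _ x_Av (T_Av ht')
    · intro k hk
      rw [comm_Av (σ := fst rho) (rho (1, k)) (fun g v => comm12 rho g k v), h4 k hk]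
    · exact Av_Av h5 hx' ht'
  exact core h5 rho h2 hd m hx' ht' h4 h0

include h5 h2 hd in
/-- Piece (W) for arbitrary names of the elements. -/
theorem minus_zero' (x t a b c : A5) (hxv : ∀ i, (x : Perm (Fin 5)) i = ![1,2,3,4,0] i)
    (htv : ∀ i, (t : Perm (Fin 5)) i = ![0,4,3,2,1] i) (hav : ∀ i, (a : Perm (Fin 5)) i = ![1,0,3,2,4] i)
    (hbv : ∀ i, (b : Perm (Fin 5)) i = ![2,3,0,1,4] i) (hcv : ∀ i, (c : Perm (Fin 5)) i = ![1,2,0,3,4] i)
    (m : V) (hx : rho (x, 1) m = m) (ht : rho (t, 1) m = -m)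
    (ha : rho (1, a) m = m) (hb : rho (1, b) m = m) (hc : rho (1, c) m = m) : m = 0 := by
  have e1 : x = X := Subtype.ext (Equiv.ext hxv)
  have e2 : t = T := Subtype.ext (Equiv.ext htv)
  have e3 : a = A := Subtype.ext (Equiv.ext hav)
  have e4 : b = B := Subtype.ext (Equiv.ext hbv)
  have e5 : c = C := Subtype.ext (Equiv.ext hcv)
  subst e1 e2 e3 e4 e5
  exact minus_zero h5 rho h2 hd m hx ht ha hb hc

end two

end Cfsg.Agent.H59.AW
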