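import Cfsg.Agent.H59.AZ3

set_option autoImplicit false
set_option linter.all false

namespace Cfsg.Agent.H59.AZ

open Equiv
open Cfsg.Agent.H59.AW (A5 X T G1)

universe u v

abbrev A6 := alternatingGroup (Fin 6)

/-- `(0 1 2 3 4)` -/
def x6 : A6 := ⟨⟨![1,2,3,4,0,5], ![4,0,1,2,3,5], by decide, by decide⟩, by rw [Perm.mem_alternatingGroup]; decide⟩
/-- `(1 4)(2 3)` -/
def t6 : A6 := ⟨⟨![0,4,3,2,1,5], ![0,4,3,2,1,5], by decide, by decide⟩, by rw [Perm.mem_alternatingGroup]; decide⟩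
/-- `(2 4)(3 5)` -/
def w6 : A6 := ⟨⟨![0,1,4,5,2,3], ![0,1,4,5,2,3], by decide, by decide⟩, by rw [Perm.mem_alternatingGroup]; decide⟩
/-- `(1 2)(3 4)` -/
def gn : A6 := ⟨⟨![0,2,1,4,3,5], ![0,2,1,4,3,5], by decide, by decide⟩, by rw [Perm.mem_alternatingGroup]; decide⟩
/-- `(0 5)(1 4)` -/
def ge : A6 := ⟨⟨![5,4,2,3,1,0], ![5,4,2,3,1,0], by decide, by decide⟩, by rw [Perm.mem_alternatingGroup]; decide⟩
/-- `(0 1 4)` -/
def a6 : A6 := ⟨⟨![1,4,2,3,0,5], ![4,0,2,3,1,5], by decide, by decide⟩, by rw [Perm.mem_alternatingGroup]; decide⟩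
/-- `(2 3 5)` -/
def b6 : A6 := ⟨⟨![0,1,3,5,4,2], ![0,1,5,2,4,3], by decide, by decide⟩, by rw [Perm.mem_alternatingGroup]; decide⟩
/-- `(0 5)(1 2 4 3)` -/
def u6 : A6 := ⟨⟨![5,2,4,1,3,0], ![5,3,1,4,2,0], by decide, by decide⟩, by rw [Perm.mem_alternatingGroup]; decide⟩

theorem relN : Rel x6 t6 gn := by
  constructor <;> decide

theorem relE : Rel x6 t6 ge := by
  constructor <;> decide

/-- the elements fixing `5` -/
theorem natW (g : A6) (h : (g : Perm (Fin 6)) 5 = 5) : ∃ p : P, g = W x6 t6 gn p := by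
  revert g
  decide +kernel

theorem aN : W x6 t6 gn (.inr (4, 1, 1)) = a6 := by decide
theorem aE : W x6 t6 ge (.inr (3, 3, 0)) = a6 * b6⁻¹ := by decide
theorem wE : W x6 t6 ge (.inr (3, 2, 0)) = w6 := by decide
theorem tW : W x6 t6 ge (.inl (0, 1)) = t6 := by decide
theorem tW' : W x6 t6 gn (.inl (0, 1)) = t6 := by decide
theorem xW : W x6 t6 ge (.inl (1, 0)) = x6 := by decide
theorem xW' : W x6 t6 gn (.inl (1, 0)) = x6 := by decide
theorem TW : W X T G1 (.inl (0, 1)) = T := by decide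
theorem XW : W X T G1 (.inl (1, 0)) = X := by decide

theorem i0 : g0 * T * g0 = T := by decide
theorem i0' : g0' * T * g0' = T := by decide

section A6

variable {M : Type u} [AddCommGroup M] (h5 : ∀ v : M, (5:ℕ) • v = 0) (ρ : A6 →* AddMonoid.End M)

theorem ract (g h : A6) (v : M) : ρ g (ρ h v) = ρ (g*h) v := by rw [map_mul]; rfl

theorem rone (v : M) : ρ 1 v = v := by rw [map_one]; rfl

/-- `g` fixes a vector only if `s` does -/
def Q (g s : A6) : Prop := ∀ v : M, ρ g v = v → ρ s v = v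

variable {ρ}

theorem Q.conj {g s : A6} (h : Q ρ g s) (u : A6) : Q ρ (u*g*u⁻¹) (u*s*u⁻¹) := by
  intro v hv
  have h1 : ρ g (ρ u⁻¹ v) = ρ u⁻¹ v := by
    have := congrArg (ρ u⁻¹) hv
    rw [ract] at this
    rw [ract]
    rw [← this]
    congr 2
    group
  have h2 := h _ h1
  have := congrArg (ρ u) h2
  rw [ract, ract, ract] at this
  rw [mul_inv_cancel, rone] at this
  exact this

theorem Q.inv {g s : A6} (h : Q ρ g s) : Q ρ g⁻¹ s := by
  intro v hv
  apply h
  have := congrArg (ρ g) hv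
  rw [ract, mul_inv_cancel, rone] at this
  exact this.symm

/-- from `Q g s` with `s` inverting `c`, and `c` commuting with `g`, of order 3 -/
theorem Q.cent {g s c : A6} (h : Q ρ g s) (hc : c * g * c⁻¹ = g) (hs : s * c * s = c⁻¹) (hs2 : s * s = 1)
    (hc3 : c^3 = 1) : Q ρ g c := by
  intro v hv
  have h1 := h v hv
  have h2 := h.conj c v (by rw [hc]; exact hv)
  have h3 : ρ (c * s * c⁻¹ * s) v = v := by rw [← ract, h1, h2]
  have h4 : c * s * c⁻¹ * s = c * c := by
    have : s * c⁻¹ * s = c := by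
      rw [← hs]
      calc s * (s * c * s) * s = (s * s) * c * (s * s) := by group
        _ = c := by rw [hs2]; group
    calc c * s * c⁻¹ * s = c * (s * c⁻¹ * s) := by group
      _ = c * c := by rw [this]
  rw [h4] at h3
  have h5 := congrArg (ρ (c * c)) h3
  rw [ract, show c * c * (c * c) = c from by
    have : c * c * (c * c) = c^3 * c := by simp only [pow_succ, pow_zero, one_mul, mul_assoc]
    rw [this, hc3, one_mul], h3] at h5
  exact h5

theorem fix_sum {g c : A6} (h : Q ρ g c) (hg : g^3 = 1) (v : M) :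
    ρ c (v + ρ g v + ρ (g*g) v) = v + ρ g v + ρ (g*g) v := by
  apply h
  rw [map_add, map_add, ract, ract]
  have : g * (g * g) = 1 := by rw [← hg]; simp only [pow_succ, pow_zero, one_mul, mul_assoc]
  rw [this, rone]
  abel

include h5 in
theorem a_triv (Qa : Q ρ a6 t6) (Qe : Q ρ (a6 * b6⁻¹) t6) (v : M) : ρ a6 v = v := by
  have Qb : Q ρ b6 t6 := by
    have := Qa.conj u6
    rwa [show u6 * a6 * u6⁻¹ = b6 from by decide, show u6 * t6 * u6⁻¹ = t6 from by decide] at this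
  have Qd : Q ρ (b6 * a6) t6 := by
    have := Qe.conj u6
    rwa [show u6 * (a6 * b6⁻¹) * u6⁻¹ = b6 * a6 from by decide, show u6 * t6 * u6⁻¹ = t6 from by decide] at this
  have ts : t6 * a6 * t6 = a6⁻¹ := by decide
  have tt : t6 * t6 = 1 := by decide
  have a3 : a6^3 = 1 := by decide
  have Q2 : Q ρ b6 a6 := Qb.cent (by decide) ts tt a3
  have Q3 : Q ρ (a6 * b6⁻¹) a6 := Qe.cent (by decide) ts tt a3
  have Q4 : Q ρ (b6 * a6) a6 := Qd.cent (by decide) ts tt a3
  have n1 : ρ a6 (v + ρ a6 v + ρ (a6 * a6) v) = v + ρ a6 v + ρ (a6 * a6) v :=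
    fix_sum (fun w hw => hw) a3 v
  have n2 := fix_sum Q2 (by decide) v
  have n3 := fix_sum Q3 (by decide) v
  have n4 := fix_sum Q4 (by decide) v
  have nE : ρ a6 (v + ρ a6 v + ρ (a6*a6) v + (ρ b6 v + ρ (a6*b6) v + ρ (a6*a6*b6) v)
      + (ρ (b6*b6) v + ρ (a6*(b6*b6)) v + ρ (a6*a6*(b6*b6)) v)) =
      v + ρ a6 v + ρ (a6*a6) v + (ρ b6 v + ρ (a6*b6) v + ρ (a6*a6*b6) v)
      + (ρ (b6*b6) v + ρ (a6*(b6*b6)) v + ρ (a6*a6*(b6*b6)) v) := by
    simp only [map_add, ract]
    rw [show a6 * (a6 * a6) = 1 from by decide, rone, show a6 * (a6 * b6) = a6*a6*b6 from by decide,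
      show a6 * (a6 * a6 * b6) = b6 from by decide, show a6 * (a6 * (b6*b6)) = a6*a6*(b6*b6) from by decide,
      show a6 * (a6 * a6 * (b6*b6)) = b6*b6 from by decide]
    abel
  rw [show a6 * b6⁻¹ = a6 * (b6 * b6) from by decide,
    show a6 * (b6 * b6) * (a6 * (b6 * b6)) = a6 * a6 * b6 from by decide] at n3
  rw [show b6 * a6 = a6 * b6 from by decide,
    show a6 * b6 * (a6 * b6) = a6 * a6 * (b6 * b6) from by decide] at n4
  have key : ρ a6 ((3:ℤ) • v) = (3:ℤ) • v := by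
    have e : (3:ℤ) • v = (v + ρ a6 v + ρ (a6 * a6) v) + (v + ρ b6 v + ρ (b6*b6) v) +
        (v + ρ (a6*(b6*b6)) v + ρ (a6*a6*b6) v) + (v + ρ (a6*b6) v + ρ (a6*a6*(b6*b6)) v) -
        (v + ρ a6 v + ρ (a6*a6) v + (ρ b6 v + ρ (a6*b6) v + ρ (a6*a6*b6) v)
      + (ρ (b6*b6) v + ρ (a6*(b6*b6)) v + ρ (a6*a6*(b6*b6)) v)) := by module
    rw [e, map_sub, nE, map_add, map_add, map_add, n1, n2, n3, n4]
  rw [map_zsmul] at key
  have z1 : (5:ℤ) • (ρ a6 v) = 0 := h5z h5 _
  have z2 : (5:ℤ) • v = 0 := h5z h5 _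
  linear_combination (norm := module) (2:ℤ) • key - z1 + z2

theorem all_triv (ha : ∀ v, ρ a6 v = v) (g : A6) (v : M) : ρ g v = v := by
  have h1 : ρ a6 = 1 := by
    ext v
    exact ha v
  have h3 : (a6 : Perm (Fin 6)).IsThreeCycle := by
    rw [← card_support_eq_three_iff]
    decide
  have h2 : Subgroup.normalClosure ({a6} : Set A6) = ⊤ := by
    have := h3.alternating_normalClosure (by simp)
    exact this
  have h4 : (⊤ : Subgroup A6) ≤ ρ.ker := by
    rw [← h2]
    apply Subgroup.normalClosure_le_normal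
    rintro _ rfl
    exact h1
  have : ρ g = 1 := h4 (Subgroup.mem_top g)
  rw [this]
  rfl

include h5 in
/-- **Main result** -/
theorem six_St (hn : ∀ v : M, (∀ g : A6, (g : Perm (Fin 6)) 5 = 5 → ρ g v = v) → v = 0)
    (he : ∀ v : M, ρ x6 v = v → ρ t6 v = v → ρ w6 v = v → v = 0)
    (hm : ∀ v : M, ρ x6 v = v → ρ t6 v = -v → v = 0) : ∀ v : M, v = 0 := by
  have hxt : ∀ v : M, ρ x6 v = v → ρ t6 v = v := by
    intro v hv
    have h1 : ρ x6 (ρ t6 v) = ρ t6 v := by
      rw [ract, show x6 * t6 = t6 * x6^4 from by decide, ← ract]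
      have : ∀ n : ℕ, ρ (x6^n) v = v := by
        intro n
        induction n with
        | zero => rw [pow_zero, rone]
        | succ n ih => rw [pow_succ, ← ract, hv, ih]
      rw [this]
    have h2 : v - ρ t6 v = 0 := by
      apply hm
      · rw [map_sub, hv, h1]
      · rw [map_sub, ract, show t6 * t6 = 1 from by decide, rone, neg_sub]
    exact (sub_eq_zero.mp h2).symm
  obtain ⟨JN, hJN⟩ := hom relN
  obtain ⟨JE, hJE⟩ := hom relE
  have NX : JN X = x6 := by rw [← XW, hJN, xW']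
  have NT : JN T = t6 := by rw [← TW, hJN, tW']
  have EX : JE X = x6 := by rw [← XW, hJE, xW]
  have ET : JE T = t6 := by rw [← TW, hJE, tW]
  have Qa : Q ρ a6 t6 := by
    intro v hv
    have := fixed_of (τ := ρ.comp JN) h5 fT_S3 i0 ?_ ?_ (w := v) ?_
    · rwa [MonoidHom.comp_apply, NT] at this
    · intro v hv
      apply hn
      intro g hg
      obtain ⟨p, rfl⟩ := natW g hg
      have := hv (W X T G1 p)
      rwa [MonoidHom.comp_apply, hJN] at this
    · intro v hv
      rw [MonoidHom.comp_apply, NT]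
      rw [MonoidHom.comp_apply, NX] at hv
      exact hxt v hv
    · rw [MonoidHom.comp_apply, g0, hJN, aN]
      exact hv
  have Qe : Q ρ (a6 * b6⁻¹) t6 := by
    intro v hv
    have := fixed_of (τ := ρ.comp JE) h5 fT_S3' i0' ?_ ?_ (w := v) ?_
    · rwa [MonoidHom.comp_apply, ET] at this
    · intro v hv
      apply he
      · have := hv X
        rwa [MonoidHom.comp_apply, EX] at this
      · have := hv T
        rwa [MonoidHom.comp_apply, ET] at this
      · have := hv (W X T G1 (.inr (3, 2, 0)))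
        rwa [MonoidHom.comp_apply, hJE, wE] at this
    · intro v hv
      rw [MonoidHom.comp_apply, ET]
      rw [MonoidHom.comp_apply, EX] at hv
      exact hxt v hv
    · rw [MonoidHom.comp_apply, g0', hJE, aE]
      exact hv
  intro v
  apply hn
  intro g _
  exact all_triv (fun v => a_triv h5 Qa Qe v) g v

end A6

end Cfsg.Agent.H59.AZ
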