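import Cfsg.Agent.H59.AW

/-!
Modules in characteristic 5 for `A6`: if no nonzero vector is fixed by the natural `A5`, none by the transitive
`A5`, and no nonzero vector is fixed by a 5-element and negated by an involution inverting it, the module is zero.
-/

set_option autoImplicit false
set_option linter.all false

namespace Cfsg.Agent.H59.AZ

open Equiv
open Cfsg.Agent.H59.AW (A5 X T G1)

universe u v

/-- parameters of the normal form of the elements of `A5` -/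
abbrev P := (Fin 5 × Fin 2) ⊕ (Fin 5 × Fin 5 × Fin 2)

def W {G : Type v} [Monoid G] (x t g : G) : P → G
  | .inl (i, e) => x^(i:ℕ) * t^(e:ℕ)
  | .inr (i, k, e) => x^(i:ℕ) * g * x^(k:ℕ) * t^(e:ℕ)

structure Rel {G : Type v} [Monoid G] (x t g : G) : Prop where
  x5 : x^5 = 1
  t2 : t^2 = 1
  tx : t * x = x^4 * t
  tg : t * g = g * t
  g1 : g * g = 1
  g2 : g * x * g = x^4 * g * x^4
  g3 : g * x^2 * g = x^2 * g * x^3 * t
  g4 : g * x^3 * g = x^3 * g * x^2 * t
  g5 : g * x^4 * g = x * g * x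

theorem relA5 : Rel X T G1 := by
  constructor <;> decide

theorem W_inj : Function.Injective (W X T G1) := by
  intro p q
  revert p q
  decide +kernel

theorem card_A5 : Fintype.card A5 = 60 := by
  decide +kernel

theorem W_bij : Function.Bijective (W X T G1) := by
  rw [Fintype.bijective_iff_injective_and_card]
  refine ⟨W_inj, ?_⟩
  rw [card_A5]
  rfl

noncomputable def E : P ≃ A5 := Equiv.ofBijective _ W_bij

def mX : P → P
  | .inl (i, e) => .inl (1 + i, e)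
  | .inr (i, k, e) => .inr (1 + i, k, e)

def mT : P → P
  | .inl (i, e) => .inl (-i, 1 + e)
  | .inr (i, k, e) => .inr (-i, -k, 1 + e)

def mG : P → P
  | .inl (i, e) => .inr (0, i, e)
  | .inr (0, k, e) => .inl (k, e)
  | .inr (1, k, e) => .inr (4, 4 + k, e)
  | .inr (2, k, e) => .inr (2, 3 - k, 1 + e)
  | .inr (3, k, e) => .inr (3, 2 - k, 1 + e)
  | .inr (4, k, e) => .inr (1, 1 + k, e)

section rels

variable {G : Type v} [Monoid G] {x t g : G} (h : Rel x t g)

include h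

theorem px (i j : Fin 5) : x^((i + j : Fin 5):ℕ) = x^(i:ℕ) * x^(j:ℕ) := by
  rw [← pow_add, Fin.val_add, ← pow_eq_pow_mod _ h.x5]

theorem pt (i j : Fin 2) : t^((i + j : Fin 2):ℕ) = t^(i:ℕ) * t^(j:ℕ) := by
  rw [← pow_add, Fin.val_add, ← pow_eq_pow_mod _ h.t2]

theorem tx' (n : ℕ) : t * x^n = x^(4*n) * t := by
  induction n with
  | zero => simp
  | succ n ih =>
    rw [pow_succ, ← mul_assoc, ih, mul_assoc, h.tx, ← mul_assoc, ← pow_add]
    rfl

theorem txf (i : Fin 5) : t * x^(i:ℕ) = x^((-i : Fin 5):ℕ) * t := by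
  rw [tx' h, pow_eq_pow_mod (4*(i:ℕ)) h.x5]
  congr 2
  revert i
  decide

theorem t1e (e : Fin 2) : t^((1 + e : Fin 2):ℕ) = t * t^(e:ℕ) := by
  rw [pt h]
  simp

theorem W_mX (p : P) : W x t g (mX p) = x * W x t g p := by
  rcases p with ⟨i, e⟩ | ⟨i, k, e⟩
  · show x^((1 + i : Fin 5):ℕ) * t^(e:ℕ) = x * (x^(i:ℕ) * t^(e:ℕ))
    rw [px h]
    simp [mul_assoc]
  · show x^((1 + i : Fin 5):ℕ) * g * x^(k:ℕ) * t^(e:ℕ) = x * (x^(i:ℕ) * g * x^(k:ℕ) * t^(e:ℕ))
    rw [px h]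
    simp [mul_assoc]

theorem W_mT (p : P) : W x t g (mT p) = t * W x t g p := by
  rcases p with ⟨i, e⟩ | ⟨i, k, e⟩
  · show x^((-i : Fin 5):ℕ) * t^((1 + e : Fin 2):ℕ) = t * (x^(i:ℕ) * t^(e:ℕ))
    rw [← mul_assoc, txf h, t1e h, mul_assoc]
  · show x^((-i : Fin 5):ℕ) * g * x^((-k : Fin 5):ℕ) * t^((1 + e : Fin 2):ℕ) =
      t * (x^(i:ℕ) * g * x^(k:ℕ) * t^(e:ℕ))
    rw [← mul_assoc, ← mul_assoc, ← mul_assoc, txf h, mul_assoc _ t g, h.tg, ← mul_assoc,
      mul_assoc _ t (x^(k:ℕ)), txf h, ← mul_assoc, mul_assoc _ t (t^(e:ℕ)), ← t1e h]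

theorem W_mG (p : P) : W x t g (mG p) = g * W x t g p := by
  rcases p with ⟨i, e⟩ | ⟨i, k, e⟩
  · show x^(0:ℕ) * g * x^(i:ℕ) * t^(e:ℕ) = g * (x^(i:ℕ) * t^(e:ℕ))
    simp [mul_assoc]
  · have key : ∀ n : ℕ, g * (x^n * g * x^(k:ℕ) * t^(e:ℕ)) = (g * x^n * g) * (x^(k:ℕ) * t^(e:ℕ)) := by
      intro n
      simp only [mul_assoc]
    fin_cases i
    · show x^(k:ℕ) * t^(e:ℕ) = g * (x^0 * g * x^(k:ℕ) * t^(e:ℕ))
      rw [key, pow_zero, mul_one, h.g1, one_mul]
    · show x^4 * g * x^((4 + k : Fin 5):ℕ) * t^(e:ℕ) = g * (x^1 * g * x^(k:ℕ) * t^(e:ℕ))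
      rw [key, pow_one, h.g2, px h]
      simp only [mul_assoc]
      rfl
    · show x^2 * g * x^((3 - k : Fin 5):ℕ) * t^((1 + e : Fin 2):ℕ) = g * (x^2 * g * x^(k:ℕ) * t^(e:ℕ))
      rw [key, h.g3, sub_eq_add_neg, px h, t1e h]
      simp only [mul_assoc]
      rw [← mul_assoc t (x^(k:ℕ)), txf h]
      simp only [mul_assoc]
      rfl
    · show x^3 * g * x^((2 - k : Fin 5):ℕ) * t^((1 + e : Fin 2):ℕ) = g * (x^3 * g * x^(k:ℕ) * t^(e:ℕ))
      rw [key, h.g4, sub_eq_add_neg, px h, t1e h]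
      simp only [mul_assoc]
      rw [← mul_assoc t (x^(k:ℕ)), txf h]
      simp only [mul_assoc]
      rfl
    · show x^1 * g * x^((1 + k : Fin 5):ℕ) * t^(e:ℕ) = g * (x^4 * g * x^(k:ℕ) * t^(e:ℕ))
      rw [key, h.g5, px h, show ((1 : Fin 5):ℕ) = 1 from rfl]
      simp only [mul_assoc, pow_one]

/-- the homomorphism from `A5` given by three elements with the relations -/
theorem hom : ∃ J : A5 →* G, ∀ p, J (W X T G1 p) = W x t g p := by
  have hE : ∀ p, E p = W X T G1 p := fun p => rfl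
  let j : A5 → G := fun a => W x t g (E.symm a)
  have jE : ∀ p, j (W X T G1 p) = W x t g p := by
    intro p
    show W x t g (E.symm (W X T G1 p)) = _
    rw [← hE, Equiv.symm_apply_apply]
  have surj : ∀ a : A5, ∃ p, a = W X T G1 p := fun a => ⟨E.symm a, by rw [← hE, Equiv.apply_symm_apply]⟩
  have jX : ∀ a, j (X * a) = x * j a := by
    intro a
    obtain ⟨p, rfl⟩ := surj a
    rw [← W_mX relA5, jE, jE, W_mX h]
  have jT : ∀ a, j (T * a) = t * j a := by
    intro a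
    obtain ⟨p, rfl⟩ := surj a
    rw [← W_mT relA5, jE, jE, W_mT h]
  have jG : ∀ a, j (G1 * a) = g * j a := by
    intro a
    obtain ⟨p, rfl⟩ := surj a
    rw [← W_mG relA5, jE, jE, W_mG h]
  have j1 : j 1 = 1 := by
    have := jE (.inl (0, 0))
    simpa [W] using this
  have jmul : ∀ a b, j (a * b) = j a * j b := by
    have mX : ∀ a, (∀ b, j (a * b) = j a * j b) → ∀ n : ℕ, ∀ b, j (X^n * a * b) = j (X^n * a) * j b := by
      intro a ha n
      induction n with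
      | zero => intro b; rw [pow_zero, one_mul, ha]
      | succ n ih => intro b; rw [pow_succ', mul_assoc, mul_assoc, ← mul_assoc (X^n), jX, ih, mul_assoc X, jX, mul_assoc]
    have mT : ∀ a, (∀ b, j (a * b) = j a * j b) → ∀ n : ℕ, ∀ b, j (T^n * a * b) = j (T^n * a) * j b := by
      intro a ha n
      induction n with
      | zero => intro b; rw [pow_zero, one_mul, ha]
      | succ n ih => intro b; rw [pow_succ', mul_assoc, mul_assoc, ← mul_assoc (T^n), jT, ih, mul_assoc T, jT, mul_assoc]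
    have mG : ∀ a, (∀ b, j (a * b) = j a * j b) → ∀ b, j (G1 * a * b) = j (G1 * a) * j b := by
      intro a ha b
      rw [mul_assoc, jG, ha, jG, mul_assoc]
    have m1 : ∀ b, j (1 * b) = j 1 * j b := by
      intro b
      rw [one_mul, j1, one_mul]
    intro a b
    obtain ⟨p, rfl⟩ := surj a
    rcases p with ⟨i, e⟩ | ⟨i, k, e⟩
    · have := mX _ (mT _ m1 e) i b
      simpa [W] using this
    · have := mX _ (mG _ (mX _ (mT _ m1 e) k)) i b
      simpa [W, mul_assoc] using this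
  exact ⟨⟨⟨j, j1⟩, jmul⟩, jE⟩

end rels

end Cfsg.Agent.H59.AZ
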