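import Cfsg.Agent.H59.AZ

set_option autoImplicit false
set_option linter.all false

namespace Cfsg.Agent.H59.AZ

open Equiv
open Cfsg.Agent.H59.AW (A5 X T G1)

universe u v

/-- number of fixed points -/
def nf (g : A5) : ℕ := (List.finRange 5).countP (fun i => (g : Perm (Fin 5)) i = i)

/-- coefficient: `1` on involutions, `-1` on elements of order 3 -/
def fT (g : A5) : ℤ := if nf g = 1 then 1 else if nf g = 2 then -1 else 0

theorem fT_sq : ∀ k : A5, (5:ℤ) ∣ (∑ g : A5, fT g * fT (g⁻¹ * k)) - 2 * fT k := by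
  decide +kernel

theorem fT_X : ∀ k : A5, fT (X * k * X⁻¹) = fT k := by
  decide +kernel

/-- an element of order 3 inverted by `T` -/
def g0 : A5 := W X T G1 (.inr (4, 1, 1))

def g0' : A5 := W X T G1 (.inr (3, 3, 0))

theorem fT_S3 : ∀ k : A5, (5:ℤ) ∣ fT k + fT (k * g0⁻¹) + fT (k * (g0*g0)⁻¹) - fT (k * T⁻¹) - fT (k * (g0*T)⁻¹)
    - fT (k * (g0*g0*T)⁻¹) := by
  decide +kernel

theorem fT_S3' : ∀ k : A5, (5:ℤ) ∣ fT k + fT (k * g0'⁻¹) + fT (k * (g0'*g0')⁻¹) - fT (k * T⁻¹) - fT (k * (g0'*T)⁻¹)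
    - fT (k * (g0'*g0'*T)⁻¹) := by
  decide +kernel

theorem c1 : (∑ i : Fin 5, ∑ e : Fin 2, fT (X^(i:ℕ) * T^(e:ℕ))) = 5 := by
  decide +kernel

theorem c2 : ∀ i : Fin 5, (∑ k : Fin 5, ∑ e : Fin 2, fT (X^(i:ℕ) * G1 * X^(k:ℕ) * T^(e:ℕ))) = -2 := by
  decide +kernel

end Cfsg.Agent.H59.AZ
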