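import Cfsg.Agent.H59.AZ2

set_option autoImplicit false
set_option linter.all false

namespace Cfsg.Agent.H59.AZ

open Equiv
open Cfsg.Agent.H59.AW (A5 X T G1)

universe u v

section modules

variable {N : Type u} [AddCommGroup N] (τ : A5 →* AddMonoid.End N)

/-- the operator `T` -/
def Top (v : N) : N := ∑ g : A5, fT g • τ g v

theorem act_mul (g h : A5) (v : N) : τ g (τ h v) = τ (g*h) v := by rw [map_mul]; rfl

theorem act_one (v : N) : τ 1 v = v := by rw [map_one]; rfl

theorem Top_add (v w : N) : Top τ (v + w) = Top τ v + Top τ w := by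
  unfold Top
  rw [← Finset.sum_add_distrib]
  refine Finset.sum_congr rfl fun g _ => ?_
  rw [map_add, smul_add]

theorem Top_zsmul (n : ℤ) (v : N) : Top τ (n • v) = n • Top τ v := by
  unfold Top
  rw [Finset.smul_sum]
  refine Finset.sum_congr rfl fun g _ => ?_
  rw [map_zsmul, smul_comm]

theorem Top_sub (v w : N) : Top τ (v - w) = Top τ v - Top τ w := by
  have h := Top_zsmul τ (-1) w
  rw [sub_eq_add_neg, Top_add]
  have e : -w = (-1:ℤ) • w := by simp
  rw [e, h]
  simp [sub_eq_add_neg]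

variable {τ} (h5 : ∀ v : N, (5:ℕ) • v = 0)

include h5

theorem h5z (v : N) : (5:ℤ) • v = 0 := by
  have := h5 v
  rw [← this]
  exact_mod_cast (natCast_zsmul v 5)

theorem z_dvd {n : ℤ} (hn : (5:ℤ) ∣ n) (v : N) : n • v = 0 := by
  obtain ⟨m, rfl⟩ := hn
  rw [mul_smul, h5z h5]

theorem Top_Top (v : N) : Top τ (Top τ v) = (2:ℤ) • Top τ v := by
  have e1 : Top τ (Top τ v) = ∑ k : A5, (∑ g : A5, fT g * fT (g⁻¹ * k)) • τ k v := by
    calc Top τ (Top τ v) = ∑ g : A5, fT g • τ g (∑ h : A5, fT h • τ h v) := rfl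
      _ = ∑ g : A5, ∑ h : A5, (fT g * fT h) • τ (g * h) v := by
        refine Finset.sum_congr rfl fun g _ => ?_
        rw [map_sum, Finset.smul_sum]
        refine Finset.sum_congr rfl fun h _ => ?_
        rw [map_zsmul, act_mul, smul_smul]
      _ = ∑ g : A5, ∑ k : A5, (fT g * fT (g⁻¹ * k)) • τ k v := by
        refine Finset.sum_congr rfl fun g _ => ?_
        refine Fintype.sum_equiv (Equiv.mulLeft g) _ _ fun h => ?_
        simp
      _ = ∑ k : A5, (∑ g : A5, fT g * fT (g⁻¹ * k)) • τ k v := by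
        rw [Finset.sum_comm]
        refine Finset.sum_congr rfl fun k _ => ?_
        rw [Finset.sum_smul]
  rw [e1, ← sub_eq_zero]
  unfold Top
  rw [Finset.smul_sum, ← Finset.sum_sub_distrib]
  refine Finset.sum_eq_zero fun k _ => ?_
  rw [smul_smul, ← sub_smul]
  exact z_dvd h5 (fT_sq k) _

omit h5 in
theorem Top_X (v : N) : Top τ (τ X v) = τ X (Top τ v) := by
  unfold Top
  rw [map_sum]
  refine (Fintype.sum_equiv (MulAut.conj X).toEquiv _ _ fun g => ?_).symm
  show τ X (fT g • τ g v) = fT (X * g * X⁻¹) • τ (X * g * X⁻¹) (τ X v)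
  rw [map_zsmul, fT_X, act_mul, act_mul]
  congr 3
  group

/-- the anti-invariant vectors of a subgroup `S3` are killed by `T` -/
theorem Top_neg {a : A5} (ha : ∀ k : A5, (5:ℤ) ∣ fT k + fT (k * a⁻¹) + fT (k * (a*a)⁻¹) - fT (k * T⁻¹) -
    fT (k * (a*T)⁻¹) - fT (k * (a*a*T)⁻¹)) {w : N} (hg : τ a w = w) (hs : τ T w = -w) : Top τ w = 0 := by
  have shift : ∀ b : A5, Top τ (τ b w) = ∑ k : A5, fT (k * b⁻¹) • τ k w := by
    intro b
    unfold Top
    refine Fintype.sum_equiv (Equiv.mulRight b) _ _ fun g => ?_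
    rw [act_mul]
    simp
  have e0 : Top τ w = ∑ k : A5, fT k • τ k w := rfl
  have e1 := shift a
  have e2 := shift (a*a)
  have e3 := shift T
  have e4 := shift (a*T)
  have e5 := shift (a*a*T)
  rw [hg] at e1
  rw [← act_mul, hg, hg] at e2
  rw [hs] at e3
  rw [← act_mul, hs, map_neg, hg] at e4
  rw [← act_mul, hs, map_neg, ← act_mul, hg, hg] at e5
  have en : Top τ (-w) = - Top τ w := by
    have := Top_zsmul τ (-1) w
    simpa using this
  rw [en] at e3 e4 e5
  have key : (6:ℤ) • Top τ w = 0 := by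
    have S : ∑ k : A5, (fT k + fT (k * a⁻¹) + fT (k * (a*a)⁻¹) - fT (k * T⁻¹) - fT (k * (a*T)⁻¹)
        - fT (k * (a*a*T)⁻¹)) • τ k w = 0 :=
      Finset.sum_eq_zero fun k _ => z_dvd h5 (ha k) _
    simp only [add_smul, sub_smul, Finset.sum_add_distrib, Finset.sum_sub_distrib] at S
    rw [← e0, ← e1, ← e2, ← e3, ← e4, ← e5] at S
    rw [← S]
    module
  have z := h5z h5 (Top τ w)
  have : Top τ w = (6:ℤ) • Top τ w - (5:ℤ) • Top τ w := by module
  rw [this, key, z, sub_zero]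

/-- vectors fixed by the Borel subgroup -/
theorem Top_fix (hfix : ∀ v : N, (∀ g : A5, τ g v = v) → v = 0) {w : N} (hx : τ X w = w) (ht : τ T w = w) :
    Top τ w = (2:ℤ) • w := by
  have pX : ∀ n : ℕ, τ (X^n) w = w := by
    intro n
    induction n with
    | zero => rw [pow_zero, act_one]
    | succ n ih => rw [pow_succ, ← act_mul, hx, ih]
  have pT : ∀ n : ℕ, τ (T^n) w = w := by
    intro n
    induction n with
    | zero => rw [pow_zero, act_one]
    | succ n ih => rw [pow_succ, ← act_mul, ht, ih]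
  set b : Fin 5 → N := fun i => τ (X^(i:ℕ) * G1) w with hb
  -- the sum of the six translates
  have hU : w + ∑ i, b i = 0 := by
    apply hfix
    have bi : ∀ i : Fin 5, b i = τ (X^(i:ℕ) * G1) w := fun i => rfl
    have UX : τ X (w + ∑ i, b i) = w + ∑ i, b i := by
      have q0 : τ X (b 0) = b 1 := by rw [bi, bi, act_mul]; congr 1
      have q1 : τ X (b 1) = b 2 := by rw [bi, bi, act_mul]; congr 1
      have q2 : τ X (b 2) = b 3 := by rw [bi, bi, act_mul]; congr 1
      have q3 : τ X (b 3) = b 4 := by rw [bi, bi, act_mul]; congr 1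
      have q4 : τ X (b 4) = b 0 := by
        rw [bi, bi, act_mul, show X * (X^((4 : Fin 5):ℕ) * G1) = X^((0 : Fin 5):ℕ) * G1 from by decide]
      rw [Fin.sum_univ_five]
      simp only [map_add, q0, q1, q2, q3, q4, hx]
      abel
    have UT : τ T (w + ∑ i, b i) = w + ∑ i, b i := by
      have q0 : τ T (b 0) = b 0 := by
        rw [bi, act_mul, show T * (X^((0 : Fin 5):ℕ) * G1) = (X^((0 : Fin 5):ℕ) * G1) * T from by decide,
          ← act_mul _ (X^((0 : Fin 5):ℕ) * G1), ht]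
      have q1 : τ T (b 1) = b 4 := by
        rw [bi, bi, act_mul, show T * (X^((1 : Fin 5):ℕ) * G1) = (X^((4 : Fin 5):ℕ) * G1) * T from by decide,
          ← act_mul _ (X^((4 : Fin 5):ℕ) * G1), ht]
      have q2 : τ T (b 2) = b 3 := by
        rw [bi, bi, act_mul, show T * (X^((2 : Fin 5):ℕ) * G1) = (X^((3 : Fin 5):ℕ) * G1) * T from by decide,
          ← act_mul _ (X^((3 : Fin 5):ℕ) * G1), ht]
      have q3 : τ T (b 3) = b 2 := by
        rw [bi, bi, act_mul, show T * (X^((3 : Fin 5):ℕ) * G1) = (X^((2 : Fin 5):ℕ) * G1) * T from by decide,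
          ← act_mul _ (X^((2 : Fin 5):ℕ) * G1), ht]
      have q4 : τ T (b 4) = b 1 := by
        rw [bi, bi, act_mul, show T * (X^((4 : Fin 5):ℕ) * G1) = (X^((1 : Fin 5):ℕ) * G1) * T from by decide,
          ← act_mul _ (X^((1 : Fin 5):ℕ) * G1), ht]
      rw [Fin.sum_univ_five]
      simp only [map_add, q0, q1, q2, q3, q4, ht]
      abel
    have UG : τ G1 (w + ∑ i, b i) = w + ∑ i, b i := by
      have qw : τ G1 w = b 0 := by rw [bi]; congr 1
      have q0 : τ G1 (b 0) = w := by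
        rw [bi, act_mul, show G1 * (X^((0 : Fin 5):ℕ) * G1) = 1 from by decide, act_one]
      have q1 : τ G1 (b 1) = b 4 := by
        rw [bi, bi, act_mul, show G1 * (X^((1 : Fin 5):ℕ) * G1) = (X^((4 : Fin 5):ℕ) * G1) * X^4 from by decide,
          ← act_mul _ (X^((4 : Fin 5):ℕ) * G1), pX]
      have q2 : τ G1 (b 2) = b 2 := by
        rw [bi, act_mul, show G1 * (X^((2 : Fin 5):ℕ) * G1) = (X^((2 : Fin 5):ℕ) * G1) * (X^3*T) from by decide,
          ← act_mul _ (X^((2 : Fin 5):ℕ) * G1), ← act_mul _ (X^3), ht, pX]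
      have q3 : τ G1 (b 3) = b 3 := by
        rw [bi, act_mul, show G1 * (X^((3 : Fin 5):ℕ) * G1) = (X^((3 : Fin 5):ℕ) * G1) * (X^2*T) from by decide,
          ← act_mul _ (X^((3 : Fin 5):ℕ) * G1), ← act_mul _ (X^2), ht, pX]
      have q4 : τ G1 (b 4) = b 1 := by
        rw [bi, bi, act_mul, show G1 * (X^((4 : Fin 5):ℕ) * G1) = (X^((1 : Fin 5):ℕ) * G1) * X^1 from by decide,
          ← act_mul _ (X^((1 : Fin 5):ℕ) * G1), pX]
      rw [Fin.sum_univ_five]
      simp only [map_add, q0, q1, q2, q3, q4, qw]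
      abel
    set U := w + ∑ i, b i
    have qX : ∀ n : ℕ, τ (X^n) U = U := by
      intro n
      induction n with
      | zero => rw [pow_zero, act_one]
      | succ n ih => rw [pow_succ, ← act_mul, UX, ih]
    have qT : ∀ n : ℕ, τ (T^n) U = U := by
      intro n
      induction n with
      | zero => rw [pow_zero, act_one]
      | succ n ih => rw [pow_succ, ← act_mul, UT, ih]
    intro g
    obtain ⟨p, rfl⟩ : ∃ p, g = W X T G1 p := by
      obtain ⟨p, hp⟩ := W_bij.2 g
      exact ⟨p, hp.symm⟩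
    rcases p with ⟨i, e⟩ | ⟨i, k, e⟩
    · show τ (X^(i:ℕ) * T^(e:ℕ)) U = U
      rw [← act_mul, qT, qX]
    · show τ (X^(i:ℕ) * G1 * X^(k:ℕ) * T^(e:ℕ)) U = U
      rw [← act_mul, qT, ← act_mul, qX, ← act_mul, UG, qX]
  have e : Top τ w = (5:ℤ) • w + (-2:ℤ) • ∑ i, b i := by
    have e1 : Top τ w = ∑ p : P, fT (W X T G1 p) • τ (W X T G1 p) w := by
      unfold Top
      exact (Fintype.sum_equiv E _ _ fun p => rfl).symm
    rw [e1, Fintype.sum_sum_type, Fintype.sum_prod_type, Fintype.sum_prod_type]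
    congr 1
    · rw [← c1, Finset.sum_smul]
      refine Finset.sum_congr rfl fun i _ => ?_
      rw [Finset.sum_smul]
      refine Finset.sum_congr rfl fun e _ => ?_
      show fT (X^(i:ℕ) * T^(e:ℕ)) • τ (X^(i:ℕ) * T^(e:ℕ)) w = _
      rw [← act_mul, pT, pX]
    · rw [Finset.smul_sum]
      refine Finset.sum_congr rfl fun i _ => ?_
      rw [Fintype.sum_prod_type, ← c2 i, Finset.sum_smul]
      refine Finset.sum_congr rfl fun k _ => ?_
      rw [Finset.sum_smul]
      refine Finset.sum_congr rfl fun e _ => ?_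
      show fT (X^(i:ℕ) * G1 * X^(k:ℕ) * T^(e:ℕ)) • τ (X^(i:ℕ) * G1 * X^(k:ℕ) * T^(e:ℕ)) w =
        fT (X^(i:ℕ) * G1 * X^(k:ℕ) * T^(e:ℕ)) • τ (X^(i:ℕ) * G1) w
      rw [← act_mul _ (X^(i:ℕ) * G1 * X^(k:ℕ)), pT, ← act_mul _ (X^(i:ℕ) * G1), pX]
  rw [e]
  have : ∑ i, b i = -w := by
    rw [eq_neg_iff_add_eq_zero, add_comm, hU]
  rw [this]
  have z := h5z h5 w
  linear_combination (norm := module) z

theorem Top_inj (hfix : ∀ v : N, (∀ g : A5, τ g v = v) → v = 0) (hxt : ∀ v : N, τ X v = v → τ T v = v)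
    {w : N} (hw : Top τ w = 0) : w = 0 := by
  -- `D = X - 1` is injective on the kernel of `T`, and `D^5 = 0`
  have base : ∀ u : N, Top τ u = 0 → τ X u - u = 0 → u = 0 := by
    intro u hu hx
    have hx' : τ X u = u := sub_eq_zero.mp hx
    have h1 := Top_fix h5 hfix hx' (hxt u hx')
    rw [hu] at h1
    have z := h5z h5 u
    have e : u = (5:ℤ) • u - (2:ℤ) • ((2:ℤ) • u) := by module
    rw [e, z, ← h1]
    simp
  have ker : ∀ u : N, Top τ u = 0 → Top τ (τ X u - u) = 0 := by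
    intro u hu
    rw [Top_sub, Top_X, hu, map_zero, sub_zero]
  have k1 := ker w hw
  have k2 := ker _ k1
  have k3 := ker _ k2
  have k4 := ker _ k3
  have x5 : τ X (τ X (τ X (τ X (τ X w)))) = w := by
    rw [act_mul, act_mul, act_mul, act_mul, show X * X * X * X * X = 1 from by decide, act_one]
  refine base w hw (base _ k1 (base _ k2 (base _ k3 (base _ k4 ?_))))
  simp only [map_sub]
  rw [x5]
  have z1 := h5z h5 (τ X w)
  have z2 := h5z h5 (τ X (τ X w))
  have z3 := h5z h5 (τ X (τ X (τ X w)))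
  have z4 := h5z h5 (τ X (τ X (τ X (τ X w))))
  linear_combination (norm := module) z1 - (2:ℤ)•z2 + (2:ℤ)•z3 - z4

/-- `T` is multiplication by 2 -/
theorem Top_two (hfix : ∀ v : N, (∀ g : A5, τ g v = v) → v = 0) (hxt : ∀ v : N, τ X v = v → τ T v = v)
    (w : N) : Top τ w = (2:ℤ) • w := by
  rw [← sub_eq_zero]
  apply Top_inj h5 hfix hxt
  rw [Top_sub, Top_Top h5, Top_zsmul, sub_self]

/-- vectors fixed by an element of order 3 are fixed by the involutions inverting it -/
theorem fixed_of {a : A5} (ha : ∀ k : A5, (5:ℤ) ∣ fT k + fT (k * a⁻¹) + fT (k * (a*a)⁻¹) - fT (k * T⁻¹) -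
    fT (k * (a*T)⁻¹) - fT (k * (a*a*T)⁻¹)) (hinv : a * T * a = T)
    (hfix : ∀ v : N, (∀ g : A5, τ g v = v) → v = 0) (hxt : ∀ v : N, τ X v = v → τ T v = v)
    {w : N} (hg : τ a w = w) : τ T w = w := by
  have TT : τ T (τ T w) = w := by
    rw [act_mul, show T * T = 1 from by decide, act_one]
  have h2 : τ a (τ T w) = τ T w := by
    conv_lhs => rw [← hg]
    rw [act_mul, act_mul, hinv]
  have hn : Top τ (w - τ T w) = 0 := by
    apply Top_neg h5 ha
    · rw [map_sub, hg, h2]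
    · rw [map_sub, TT, neg_sub]
  rw [Top_two h5 hfix hxt] at hn
  have z := h5z h5 (w - τ T w)
  have e : w - τ T w = (5:ℤ) • (w - τ T w) - (2:ℤ) • ((2:ℤ) • (w - τ T w)) := by module
  rw [hn, z] at e
  rw [smul_zero, sub_zero] at e
  exact (sub_eq_zero.mp e).symm

end modules

end Cfsg.Agent.H59.AZ
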