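import Mathlib

/-!
Groups acting on graphs, without trees: for a group `K` acting on a graph `(V, E)`, the group `pi a` of pairs
(reduced path from `a` to `g • a`, `g`) inside `FreeGroup E ⋊ K`, and the fixed point theorem for its finite subgroups.
-/

set_option autoImplicit false
set_option linter.unusedSectionVars false

namespace Cfsg.Agent.H59.GraphPi

open FreeGroup

section words

variable {K E : Type*} [Group K] [MulAction K E]

/-- action on letters -/
def la (g : K) (x : E × Bool) : E × Bool := (g • x.1, x.2)

/-- inverse letter -/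
def iv (x : E × Bool) : E × Bool := (x.1, !x.2)

lemma la_mul (g h : K) (x : E × Bool) : la (g * h) x = la g (la h x) := by simp [la, mul_smul]
lemma la_one (x : E × Bool) : la (1 : K) x = x := by simp [la]
lemma la_inj (g : K) : Function.Injective (la (E := E) g) := by
  intro x y h
  have := congrArg (la g⁻¹) h
  rw [← la_mul, ← la_mul, inv_mul_cancel, la_one, la_one] at this
  exact this
lemma iv_iv (x : E × Bool) : iv (iv x) = x := by simp [iv]
lemma la_iv (g : K) (x : E × Bool) : la g (iv x) = iv (la g x) := rfl

/-- the action on the free group -/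
def act : K →* MulAut (FreeGroup E) where
  toFun g := FreeGroup.freeGroupCongr (MulAction.toPerm g)
  map_one' := by
    ext x
    induction x using FreeGroup.induction_on with
    | C1 => simp
    | of a => simp
    | inv_of a _ => simp
    | mul a b ha hb => rw [_root_.map_mul, ha, hb, _root_.map_mul]
  map_mul' g h := by
    ext x
    induction x using FreeGroup.induction_on with
    | C1 => simp
    | of a => simp [mul_smul]
    | inv_of a _ => simp [mul_smul]
    | mul a b ha hb => rw [_root_.map_mul, ha, hb, _root_.map_mul]

lemma act_apply (g : K) (w : FreeGroup E) : act g w = FreeGroup.map (fun x => g • x) w := rfl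

lemma act_mk (g : K) (L : List (E × Bool)) : act g (mk L) = mk (L.map (la g)) := rfl

lemma isReduced_map (g : K) {L : List (E × Bool)} (h : FreeGroup.IsReduced L) : FreeGroup.IsReduced (L.map (la g)) := by
  unfold FreeGroup.IsReduced at h ⊢
  rw [List.isChain_map]
  refine h.imp ?_
  intro a b hab h1
  exact hab (MulAction.injective g h1)

variable [DecidableEq E]

lemma toWord_act (g : K) (w : FreeGroup E) : (act g w).toWord = w.toWord.map (la g) := by
  conv_lhs => rw [← mk_toWord (x := w), act_mk, toWord_mk]
  exact (isReduced_map g isReduced_toWord).reduce_eq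

lemma norm_act (g : K) (w : FreeGroup E) : (act g w).norm = w.norm := by
  unfold FreeGroup.norm
  rw [toWord_act, List.length_map]

lemma invRev_eq (L : List (E × Bool)) : invRev L = (L.map iv).reverse := rfl

/-- no cancellation -/
lemma norm_inv_mul {w w' : FreeGroup E} {e f : E × Bool} {L L' : List (E × Bool)} (hw : w.toWord = e :: L)
    (hw' : w'.toWord = f :: L') (hne : f ≠ e) : (w⁻¹ * w').norm = w.norm + w'.norm := by
  have h1 : FreeGroup.IsReduced (invRev w.toWord ++ w'.toWord) := by
    unfold FreeGroup.IsReduced
    rw [List.isChain_append]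
    refine ⟨?_, isReduced_toWord, ?_⟩
    · have := isReduced_toWord (x := w⁻¹)
      rw [toWord_inv] at this
      exact this
    · intro x hx y hy
      rw [hw, invRev_eq, List.map_cons, List.reverse_cons] at hx
      simp only [List.getLast?_append, List.getLast?_singleton, Option.some_or] at hx
      rw [hw'] at hy
      simp only [List.head?_cons] at hy
      obtain rfl : iv e = x := by simpa using hx
      obtain rfl : f = y := by simpa using hy
      intro h2
      by_contra h3
      apply hne
      have h2' : e.1 = f.1 := h2
      have h3' : (!e.2) ≠ f.2 := h3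
      refine Prod.ext h2'.symm ?_
      cases h : e.2 <;> cases h' : f.2 <;> simp_all
  unfold FreeGroup.norm
  rw [toWord_mul, toWord_inv, h1.reduce_eq, List.length_append, invRev_length]

end words

section graph

variable {K V E : Type*} [Group K] [MulAction K V] [MulAction K E]

/-- a graph with an action of `K` -/
structure Gr (K V E : Type*) [Group K] [MulAction K V] [MulAction K E] where
  o : E → V
  t : E → V
  ho : ∀ (g : K) (e : E), o (g • e) = g • o e
  ht : ∀ (g : K) (e : E), t (g • e) = g • t e

variable (Γ : Gr K V E)

/-- start of a letter -/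
def src (x : E × Bool) : V := if x.2 then Γ.o x.1 else Γ.t x.1
/-- end of a letter -/
def tgt (x : E × Bool) : V := if x.2 then Γ.t x.1 else Γ.o x.1

lemma src_iv (x : E × Bool) : src Γ (iv x) = tgt Γ x := by
  rcases x with ⟨e, _ | _⟩ <;> simp [src, tgt, iv]
lemma tgt_iv (x : E × Bool) : tgt Γ (iv x) = src Γ x := by
  rcases x with ⟨e, _ | _⟩ <;> simp [src, tgt, iv]
lemma src_la (g : K) (x : E × Bool) : src Γ (la g x) = g • src Γ x := by
  rcases x with ⟨e, _ | _⟩ <;> simp [src, la, Γ.ho, Γ.ht]
lemma tgt_la (g : K) (x : E × Bool) : tgt Γ (la g x) = g • tgt Γ x := by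
  rcases x with ⟨e, _ | _⟩ <;> simp [tgt, la, Γ.ho, Γ.ht]

/-- `L` is a path from `a` to `b` -/
def Path : List (E × Bool) → V → V → Prop
  | [], a, b => a = b
  | x :: L, a, b => src Γ x = a ∧ Path L (tgt Γ x) b

variable {Γ}

lemma path_append {L L' : List (E × Bool)} {a b : V} :
    Path Γ (L ++ L') a b ↔ ∃ c, Path Γ L a c ∧ Path Γ L' c b := by
  induction L generalizing a with
  | nil => simp [Path]
  | cons x L ih =>
    simp only [List.cons_append, Path, ih]
    constructor
    · rintro ⟨h, c, h1, h2⟩; exact ⟨c, ⟨h, h1⟩, h2⟩
    · rintro ⟨c, ⟨h, h1⟩, h2⟩; exact ⟨h, c, h1, h2⟩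

lemma path_smul (g : K) {L : List (E × Bool)} {a b : V} (h : Path Γ L a b) :
    Path Γ (L.map (la g)) (g • a) (g • b) := by
  induction L generalizing a with
  | nil =>
    change a = b at h
    subst h; rfl
  | cons x L ih =>
    obtain ⟨h1, h2⟩ := h
    refine ⟨?_, ?_⟩
    · rw [src_la, h1]
    · rw [tgt_la]; exact ih h2

lemma path_invRev {L : List (E × Bool)} {a b : V} (h : Path Γ L a b) : Path Γ (invRev L) b a := by
  induction L generalizing a with
  | nil =>
    change a = b at h
    subst h; rfl
  | cons x L ih =>
    obtain ⟨h1, h2⟩ := h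
    have h3 : invRev (x :: L) = invRev L ++ [iv x] := by
      simp [invRev, iv]
    rw [h3, path_append]
    exact ⟨tgt Γ x, ih h2, src_iv Γ x, by rw [tgt_iv]; exact h1⟩

lemma path_step {L L' : List (E × Bool)} (hs : Red.Step L L') {a b : V} (h : Path Γ L a b) : Path Γ L' a b := by
  cases hs with
  | @not L₁ L₂ x c =>
    rw [path_append] at h ⊢
    obtain ⟨d, h1, h2, h3, h4⟩ := h
    refine ⟨d, h1, ?_⟩
    have : tgt Γ (x, !c) = d := by
      rw [← h2]; exact tgt_iv Γ (x, c)
    rw [← this]; exact h4

lemma path_red {L L' : List (E × Bool)} (hs : Red L L') {a b : V} (h : Path Γ L a b) : Path Γ L' a b := by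
  induction hs with
  | refl => exact h
  | tail _ h2 ih => exact path_step h2 ih

variable [DecidableEq E]

lemma path_reduce {L : List (E × Bool)} {a b : V} (h : Path Γ L a b) : Path Γ (reduce L) a b :=
  path_red reduce.red h

/-- the fundamental group of the quotient graph of groups -/
def pi (Γ : Gr K V E) (a : V) : Subgroup (FreeGroup E ⋊[act (K := K)] K) where
  carrier := {x | Path Γ x.left.toWord a (x.right • a)}
  mul_mem' {x y} hx hy := by
    change Path Γ (x * y).left.toWord a ((x * y).right • a)
    rw [SemidirectProduct.mul_left, SemidirectProduct.mul_right, toWord_mul, toWord_act, mul_smul]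
    exact path_reduce (path_append.2 ⟨_, hx, path_smul x.right hy⟩)
  one_mem' := by
    change Path Γ (1 : FreeGroup E).toWord a ((1 : K) • a)
    rw [toWord_one, one_smul]; rfl
  inv_mem' {x} hx := by
    change Path Γ (x⁻¹).left.toWord a ((x⁻¹).right • a)
    rw [SemidirectProduct.inv_left, SemidirectProduct.inv_right, toWord_act, toWord_inv]
    have := path_smul (x.right⁻¹) (path_invRev hx)
    rw [inv_smul_smul] at this
    exact this

lemma mem_pi {a : V} {x : FreeGroup E ⋊[act (K := K)] K} : x ∈ pi Γ a ↔ Path Γ x.left.toWord a (x.right • a) := Iff.rfl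

/-- finite subgroups fix a vertex -/
theorem fin_fix (N : ℕ) : ∀ (a : V) (H : Subgroup (FreeGroup E ⋊[act (K := K)] K)), H ≤ pi Γ a →
    (∀ h ∈ H, h.left.norm ≤ N) →
    ∃ (p : FreeGroup E) (b : V), Path Γ p.toWord a b ∧
      ∀ h ∈ H, (SemidirectProduct.inl p)⁻¹ * h * SemidirectProduct.inl p = SemidirectProduct.inr h.right ∧
        h.right • b = b := by
  induction N with
  | zero =>
    intro a H hH hN
    refine ⟨1, a, rfl, fun h hh => ?_⟩
    have h1 : h.left = 1 := by
      have := hN h hh
      rw [Nat.le_zero, FreeGroup.norm_eq_zero] at this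
      exact this
    refine ⟨?_, ?_⟩
    · rw [_root_.map_one, inv_one, one_mul, mul_one]
      ext
      · rw [h1]; rfl
      · rfl
    · have := hH hh
      rw [mem_pi, h1, toWord_one] at this
      exact (show a = h.right • a from this).symm
  | succ N ih =>
    intro a H hH hN
    by_cases hall : ∀ h ∈ H, h.left.norm ≤ N
    · exact ih a H hH hall
    · push Not at hall
      obtain ⟨h, hh, hlt⟩ := hall
      have hnorm : h.left.norm = N + 1 := le_antisymm (hN h hh) hlt
      obtain ⟨e, L, heL⟩ : ∃ e L, h.left.toWord = e :: L := by
        cases hc : h.left.toWord with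
        | nil =>
          exfalso
          unfold FreeGroup.norm at hnorm
          rw [hc] at hnorm
          simp at hnorm
        | cons e L => exact ⟨e, L, rfl⟩
      -- all words start with e
      have claim1 : ∀ k ∈ H, ∀ f L', k.left.toWord = f :: L' → f = e := by
        intro k hk f L' hf
        by_contra hne
        have h1 := hN (h⁻¹ * k) (H.mul_mem (H.inv_mem hh) hk)
        have h2 : (h⁻¹ * k).left = act h.right⁻¹ (h.left⁻¹ * k.left) := by
          rw [SemidirectProduct.mul_left, SemidirectProduct.inv_left, SemidirectProduct.inv_right, _root_.map_mul]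
        rw [h2, norm_act, norm_inv_mul heL hf hne, hnorm] at h1
        have h3 : k.left.norm = L'.length + 1 := by
          unfold FreeGroup.norm; rw [hf]; rfl
        omega
      have claim2 : ∀ k ∈ H, k.left = 1 → la k.right e = e := by
        intro k hk h1
        have h2 : (k * h).left = act k.right h.left := by
          rw [SemidirectProduct.mul_left, h1, one_mul]
        refine claim1 (k * h) (H.mul_mem hk hh) _ (L.map (la k.right)) ?_
        rw [h2, toWord_act, heL]; rfl
      have claim3 : ∀ k ∈ H, k.left ≠ 1 → ∃ L', k.left.toWord = e :: (L' ++ [iv (la k.right e)]) := by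
        intro k hk h1
        have hne : k.left.toWord ≠ [] := by
          rw [Ne, toWord_eq_nil_iff]; exact h1
        obtain ⟨L₁, x, hx⟩ : ∃ L₁ x, k.left.toWord = L₁ ++ [x] := ⟨_, _, (List.dropLast_append_getLast hne).symm⟩
        have hxe : x = iv (la k.right e) := by
          have h2 : (k⁻¹).left.toWord = la k.right⁻¹ (iv x) :: ((invRev L₁).map (la k.right⁻¹)) := by
            rw [SemidirectProduct.inv_left, toWord_act, toWord_inv, hx]
            simp [invRev, iv]
          have h3 := claim1 _ (H.inv_mem hk) _ _ h2
          rw [← h3, ← la_mul, mul_inv_cancel, la_one, iv_iv]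
        cases L₁ with
        | nil =>
          exfalso
          rw [List.nil_append] at hx
          have h4 := claim1 k hk x [] hx
          rw [h4] at hxe
          have := congrArg Prod.snd hxe
          simp [iv, la] at this
        | cons y L' =>
          have h4 := claim1 k hk y (L' ++ [x]) (by rw [hx]; rfl)
          refine ⟨L', ?_⟩
          rw [hx, h4, hxe]; rfl
      -- move the base point
      set p₁ : FreeGroup E := mk [e] with hp₁
      have htw : p₁.toWord = [e] := by
        rw [hp₁, toWord_mk]
        exact IsReduced.singleton.reduce_eq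
      have hact : ∀ g : K, act g p₁ = mk [la g e] := fun g => rfl
      have hsrc : src Γ e = a := by
        have := hH hh
        rw [mem_pi, heL] at this
        exact this.1
      have hconj : ∀ k : FreeGroup E ⋊[act (K := K)] K,
          ((SemidirectProduct.inl p₁)⁻¹ * k * SemidirectProduct.inl p₁).left = p₁⁻¹ * k.left * act k.right p₁ ∧
          ((SemidirectProduct.inl p₁)⁻¹ * k * SemidirectProduct.inl p₁).right = k.right := by
        intro k
        constructor
        · rw [← _root_.map_inv]
          simp
        · simp
      have hkey : ∀ k ∈ H, (p₁⁻¹ * k.left * act k.right p₁).norm ≤ N ∧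
          Path Γ (p₁⁻¹ * k.left * act k.right p₁).toWord (tgt Γ e) (k.right • tgt Γ e) := by
        intro k hk
        by_cases h1 : k.left = 1
        · have h2 := claim2 k hk h1
          rw [h1, mul_one, hact, h2, ← hp₁, inv_mul_cancel]
          refine ⟨by simp, ?_⟩
          rw [toWord_one, ← tgt_la, h2]; rfl
        · obtain ⟨L', hL'⟩ := claim3 k hk h1
          have h2 : k.left = mk [e] * mk L' * mk [iv (la k.right e)] := by
            rw [← mk_toWord (x := k.left), hL', mul_mk, mul_mk]; rfl
          have h3 : mk [iv (la k.right e)] * mk [la k.right e] = (1 : FreeGroup E) := by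
            have : mk [iv (la k.right e)] = (mk [la k.right e] : FreeGroup E)⁻¹ := by
              rw [inv_mk]; rfl
            rw [this, inv_mul_cancel]
          have h4 : p₁⁻¹ * k.left * act k.right p₁ = mk L' := by
            rw [h2, hact, hp₁, mul_assoc, mul_assoc, mul_assoc, h3, mul_one, inv_mul_cancel_left]
          rw [h4]
          constructor
          · refine norm_mk_le.trans ?_
            have h5 := hN k hk
            unfold FreeGroup.norm at h5
            rw [hL'] at h5
            simp at h5
            omega
          · have h5 := hH hk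
            rw [mem_pi, hL'] at h5
            obtain ⟨-, h6⟩ := h5
            rw [path_append] at h6
            obtain ⟨c, h7, h8, -⟩ := h6
            rw [src_iv, tgt_la] at h8
            rw [toWord_mk, h8]
            exact path_reduce h7
      obtain ⟨p', b, hp', hb⟩ := ih (tgt Γ e) (H.map (MulAut.conj (SemidirectProduct.inl p₁)⁻¹).toMonoidHom) (by
        rintro _ ⟨k, hk, rfl⟩
        change (SemidirectProduct.inl p₁)⁻¹ * k * (SemidirectProduct.inl p₁)⁻¹⁻¹ ∈ pi Γ (tgt Γ e)
        rw [inv_inv, mem_pi, (hconj k).1, (hconj k).2]
        exact (hkey k hk).2) (by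
        rintro _ ⟨k, hk, rfl⟩
        change ((SemidirectProduct.inl p₁)⁻¹ * k * (SemidirectProduct.inl p₁)⁻¹⁻¹).left.norm ≤ N
        rw [inv_inv, (hconj k).1]
        exact (hkey k hk).1)
      refine ⟨p₁ * p', b, ?_, fun k hk => ?_⟩
      · rw [toWord_mul, htw]
        refine path_reduce (path_append.2 ⟨tgt Γ e, ⟨hsrc, rfl⟩, hp'⟩)
      · have h1 := hb _ ⟨k, hk, rfl⟩
        have h2 : (MulAut.conj (SemidirectProduct.inl p₁)⁻¹).toMonoidHom k =
            (SemidirectProduct.inl p₁)⁻¹ * k * SemidirectProduct.inl p₁ := by
          change (SemidirectProduct.inl p₁)⁻¹ * k * (SemidirectProduct.inl p₁)⁻¹⁻¹ = _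
          rw [inv_inv]
        rw [h2, (hconj k).2] at h1
        refine ⟨?_, h1.2⟩
        rw [← h1.1, _root_.map_mul, mul_inv_rev]
        group

/-- an element conjugated into the vertex group fixes all letters -/
lemma fix_letters {x : FreeGroup E ⋊[act (K := K)] K} {h y : K}
    (hx : x * SemidirectProduct.inr h = SemidirectProduct.inr y * x) :
    (∀ l ∈ x.left.toWord, la y l = l) ∧ x.right * h = y * x.right := by
  have h1 := congrArg SemidirectProduct.left hx
  have h2 := congrArg SemidirectProduct.right hx
  rw [SemidirectProduct.mul_left, SemidirectProduct.mul_left, SemidirectProduct.left_inr, SemidirectProduct.left_inr,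
    SemidirectProduct.right_inr, _root_.map_one, mul_one, one_mul] at h1
  rw [SemidirectProduct.mul_right, SemidirectProduct.mul_right, SemidirectProduct.right_inr,
    SemidirectProduct.right_inr] at h2
  refine ⟨?_, h2⟩
  have h3 : x.left.toWord = x.left.toWord.map (la y) := by
    conv_lhs => rw [h1]
    exact toWord_act _ _
  intro l hl
  obtain ⟨n, hn, rfl⟩ := List.getElem_of_mem hl
  have h4 : (x.left.toWord.map (la y))[n]'(by rw [List.length_map]; exact hn) = x.left.toWord[n] := by
    congr 1
    · exact h3.symm
  rw [List.getElem_map] at h4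
  exact h4

end graph

end Cfsg.Agent.H59.GraphPi
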