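import Mathlib

/-!
# Permutations of prime order: cycles and invariant subsets (owner: helper59)
-/

set_option autoImplicit false

namespace Cfsg.Agent.H59

open Equiv.Perm

variable {α : Type*} [DecidableEq α] [Fintype α] {r : ℕ}

theorem image_eq_iff {σ : Equiv.Perm α} {s : Finset α} : s.image σ = s ↔ ∀ x, σ x ∈ s ↔ x ∈ s := by
  constructor
  · intro h x
    constructor
    · intro hx
      rw [← h, Finset.mem_image] at hx
      obtain ⟨y, hy, e⟩ := hx
      rwa [← σ.injective e]
    · intro hx
      rw [← h]
      exact Finset.mem_image_of_mem _ hx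
  · intro h
    ext x
    rw [Finset.mem_image]
    constructor
    · rintro ⟨y, hy, rfl⟩
      exact (h y).2 hy
    · intro hx
      refine ⟨σ.symm x, ?_, σ.apply_symm_apply x⟩
      rw [← h, σ.apply_symm_apply]
      exact hx

theorem card_cycleOf_support (hr : r.Prime) {σ : Equiv.Perm α} (hσ : orderOf σ = r) {x : α}
    (hx : x ∈ σ.support) : (σ.cycleOf x).support.card = r := by
  have hx' : σ x ≠ x := mem_support.1 hx
  have hc := isCycle_cycleOf σ hx'
  have h1 : orderOf (σ.cycleOf x) ∣ orderOf σ := orderOf_cycleOf_dvd_orderOf σ x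
  rw [hσ, (Nat.dvd_prime hr), hc.orderOf] at h1
  rcases h1 with h | h
  · exact absurd h (by have := hc.two_le_card_support; omega)
  · exact h

theorem support_cycleOf_inv {σ : Equiv.Perm α} (x : α) :
    ∀ y, σ y ∈ (σ.cycleOf x).support ↔ y ∈ (σ.cycleOf x).support := by
  intro y
  rw [mem_support_cycleOf_iff, mem_support_cycleOf_iff, sameCycle_apply_right]

/-- Invariant subsets consisting of `i` cycles. -/
theorem exists_inv_subset (hr : r.Prime) {σ : Equiv.Perm α} (hσ : orderOf σ = r) (i : ℕ)
    (hi : r * i ≤ σ.support.card) :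
    ∃ s ⊆ σ.support, (∀ x, σ x ∈ s ↔ x ∈ s) ∧ s.card = r * i := by
  induction i with
  | zero => exact ⟨∅, Finset.empty_subset _, fun x => ⟨fun h => absurd h (Finset.notMem_empty _), fun h => absurd h (Finset.notMem_empty _)⟩, by rw [Finset.card_empty, Nat.mul_zero]⟩
  | succ i ih =>
    have hpos := hr.pos
    have hmul : r * (i + 1) = r * i + r := Nat.mul_succ r i
    obtain ⟨s, hs, hinv, hcard⟩ := ih (by omega)
    have hlt : s.card < σ.support.card := by omega
    obtain ⟨x, hx, hxs⟩ : ∃ x ∈ σ.support, x ∉ s := by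
      by_contra hcon
      push Not at hcon
      exact absurd (Finset.card_le_card hcon) (by omega)
    refine ⟨s ∪ (σ.cycleOf x).support, ?_, ?_, ?_⟩
    · apply Finset.union_subset hs
      exact support_cycleOf_le σ x
    · intro y
      rw [Finset.mem_union, Finset.mem_union, hinv, support_cycleOf_inv]
    · rw [Finset.card_union_of_disjoint, hcard, card_cycleOf_support hr hσ hx]
      · ring
      · rw [Finset.disjoint_right]
        intro y hy hys
        apply hxs
        rw [mem_support_cycleOf_iff] at hy
        obtain ⟨⟨z, hz⟩, _⟩ := hy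
        have hzp : ∀ z : ℤ, ∀ w, (σ ^ z) w ∈ s ↔ w ∈ s := by
          have hn : ∀ n : ℕ, ∀ w, (σ ^ n) w ∈ s ↔ w ∈ s := by
            intro n
            induction n with
            | zero => intro w; rfl
            | succ n ih => intro w; rw [pow_succ', Equiv.Perm.mul_apply, hinv, ih]
          intro z w
          cases z with
          | ofNat n => exact hn n w
          | negSucc n =>
            rw [zpow_negSucc]
            have h1 := hn (n + 1) ((σ ^ (n + 1))⁻¹ w)
            have e : (σ ^ (n + 1)) ((σ ^ (n + 1))⁻¹ w) = w := (σ ^ (n + 1)).apply_symm_apply w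
            rw [e] at h1
            exact h1.symm
        rw [← hzp z, hz]
        exact hys

theorem card_modEq_of_inv (hr : r.Prime) {σ : Equiv.Perm α} (hσ : σ ^ r = 1) {s : Finset α}
    (hs : ∀ x, σ x ∈ s ↔ x ∈ s) : (s \ σ.support).card ≡ s.card [MOD r] := by
  have : Fact r.Prime := ⟨hr⟩
  let τ : Equiv.Perm {x // x ∈ s} := σ.subtypePerm hs
  have hτ : τ ^ r ^ 1 = 1 := by
    rw [pow_one]
    apply Equiv.Perm.ext
    intro x
    apply Subtype.ext
    change ((σ.subtypePerm hs ^ r) x : α) = x.1
    rw [Equiv.Perm.subtypePerm_pow, Equiv.Perm.subtypePerm_apply]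
    change (σ ^ r) x.1 = x.1
    rw [hσ]
    rfl
  have h := card_compl_support_modEq hτ
  rw [Fintype.card_coe] at h
  have h4 : τ.supportᶜ.card = (s \ σ.support).card := by
    have h5 : (τ.supportᶜ).map (Function.Embedding.subtype _) = s \ σ.support := by
      ext x
      rw [Finset.mem_map, Finset.mem_sdiff, notMem_support]
      constructor
      · rintro ⟨y, hy, rfl⟩
        rw [Finset.mem_compl, notMem_support] at hy
        exact ⟨y.2, congrArg Subtype.val hy⟩
      · rintro ⟨h1, h2⟩
        refine ⟨⟨x, h1⟩, ?_, rfl⟩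
        rw [Finset.mem_compl, notMem_support]
        exact Subtype.ext h2
    rw [← h5, Finset.card_map]
  rw [h4] at h
  exact h

theorem dvd_card_support (hr : r.Prime) {σ : Equiv.Perm α} (hσ : σ ^ r = 1) : r ∣ σ.support.card := by
  have h := card_modEq_of_inv hr hσ (s := σ.support) (fun x => apply_mem_support)
  rw [Finset.sdiff_self, Finset.card_empty] at h
  exact (Nat.modEq_zero_iff_dvd).1 h.symm

/-- A permutation of order `r` with `j` cycles of length `r`. -/
theorem exists_perm_prime (hr : r.Prime) {n j : ℕ} (hj : 1 ≤ j) (h : r * j ≤ n) :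
    ∃ σ : Equiv.Perm (Fin n), orderOf σ = r ∧ σ.support.card = r * j := by
  have h1 : (∃ g : Equiv.Perm (Fin n), g.cycleType = Multiset.replicate j r) := by
    rw [exists_with_cycleType_iff]
    refine ⟨?_, ?_⟩
    · rw [Multiset.sum_replicate, Fintype.card_fin, smul_eq_mul, mul_comm]; exact h
    · intro a ha
      rw [Multiset.eq_of_mem_replicate ha]
      exact hr.two_le
  obtain ⟨g, hg⟩ := h1
  refine ⟨g, ?_, ?_⟩
  · rw [← lcm_cycleType, hg]
    apply Nat.dvd_antisymm
    · rw [Multiset.lcm_dvd]
      intro b hb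
      rw [Multiset.eq_of_mem_replicate hb]
    · apply Multiset.dvd_lcm
      rw [Multiset.mem_replicate]
      exact ⟨by omega, rfl⟩
  · rw [← sum_cycleType, hg, Multiset.sum_replicate, smul_eq_mul, mul_comm]

end Cfsg.Agent.H59
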