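import Cfsg.Agent.H12.PermChar
import Cfsg.Agent.Frob.Kernel
import Cfsg.Agent.Coh.Basic
import Mathlib.GroupTheory.GroupAction.MultipleTransitivity

set_option autoImplicit false
set_option linter.unusedSectionVars false
set_option linter.unusedDecidableInType false
set_option linter.unusedFintypeInType false

/-! Irreducibility of the characters `π - 1`, `(n-2,2)`, `(n-2,1,1)` of 4-transitive groups, by
counting with multiple transitivity. -/

namespace Cfsg.Agent.H59.SymCh

open MulAction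
open scoped ComplexConjugate
open Cfsg Cfsg.Agent.CharBase Cfsg.Agent.H12

universe u v

variable {G : Type u} [Group G] [Fintype G]

/-- counting solutions of `g • x = φ x` for a transitive action -/
theorem sum_card_eq {X : Type*} [Fintype X] [DecidableEq X] [MulAction G X] [IsPretransitive G X]
    [Nonempty X] (φ : X → X) :
    ∑ g : G, (Finset.univ.filter (fun x : X => g • x = φ x)).card = Fintype.card G := by
  classical
  have h1 : ∑ g : G, (Finset.univ.filter (fun x : X => g • x = φ x)).card =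
      ∑ x : X, (Finset.univ.filter (fun g : G => g • x = φ x)).card := by
    simp only [Finset.card_filter]
    exact Finset.sum_comm
  have h2 : ∀ x : X, (Finset.univ.filter (fun g : G => g • x = φ x)).card * Fintype.card X =
      Fintype.card G := by
    intro x
    obtain ⟨h, hh⟩ := exists_smul_eq G x (φ x)
    have h3 : (Finset.univ.filter (fun g : G => g • x = φ x)).card = Nat.card (stabilizer G x) := by
      rw [← Fintype.card_subtype, Nat.card_eq_fintype_card]
      apply Fintype.card_congr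
      refine ⟨fun g => ⟨h⁻¹ * g.1, ?_⟩, fun g => ⟨h * g.1, ?_⟩, fun g => ?_, fun g => ?_⟩
      · rw [mem_stabilizer_iff, mul_smul, g.2, ← hh, inv_smul_smul]
      · rw [mul_smul, mem_stabilizer_iff.1 g.2, hh]
      · apply Subtype.ext
        simp
      · apply Subtype.ext
        simp
    rw [h3]
    have h4 := Subgroup.card_mul_index (stabilizer G x)
    rw [index_stabilizer_of_transitive, Nat.card_eq_fintype_card (α := X),
      Nat.card_eq_fintype_card (α := G)] at h4
    exact h4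
  have hX : 0 < Fintype.card X := Fintype.card_pos
  rw [h1]
  apply Nat.eq_of_mul_eq_mul_right hX
  rw [Finset.sum_mul, Finset.sum_congr rfl (fun x _ => h2 x), Finset.sum_const, Finset.card_univ,
    smul_eq_mul, mul_comm]

variable {Ω : Type v} [Fintype Ω] [DecidableEq Ω] [MulAction G Ω]

/-- fixed points -/
def Fx (Ω : Type v) [Fintype Ω] [DecidableEq Ω] [MulAction G Ω] (g : G) : Finset Ω :=
  Finset.univ.filter (fun x => g • x = x)

/-- points in 2-cycles -/
def Mv (Ω : Type v) [Fintype Ω] [DecidableEq Ω] [MulAction G Ω] (g : G) : Finset Ω :=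
  Finset.univ.filter (fun x => g • g • x = x ∧ g • x ≠ x)

theorem mem_Fx {g : G} {x : Ω} : x ∈ Fx Ω g ↔ g • x = x := by simp [Fx]

theorem mem_Mv {g : G} {x : Ω} : x ∈ Mv Ω g ↔ g • g • x = x ∧ g • x ≠ x := by simp [Mv]

/-- number of fixed points -/
def fx (Ω : Type v) [Fintype Ω] [DecidableEq Ω] [MulAction G Ω] (g : G) : ℕ := (Fx Ω g).card

/-- number of points in 2-cycles -/
def tx (Ω : Type v) [Fintype Ω] [DecidableEq Ω] [MulAction G Ω] (g : G) : ℕ := (Mv Ω g).card

theorem permChar_eq (g : G) : permChar G Ω g = fx Ω g := by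
  unfold permChar fx Fx
  congr 1
  rw [Nat.card_eq_fintype_card, Fintype.card_subtype]
  congr 1

/-- falling factorials -/
theorem sum_desc (k : ℕ) (hk : k ≤ Fintype.card Ω) [IsMultiplyPretransitive G Ω k] :
    ∑ g : G, (fx Ω g).descFactorial k = Fintype.card G := by
  classical
  haveI : Nonempty (Fin k ↪ Ω) := by
    rw [Function.Embedding.nonempty_iff_card_le]
    simpa using hk
  rw [← sum_card_eq (G := G) (X := Fin k ↪ Ω) id]
  refine Finset.sum_congr rfl fun g _ => ?_
  rw [← Fintype.card_subtype]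
  have h1 : (fx Ω g).descFactorial k = Fintype.card (Fin k ↪ (Fx Ω g)) := by
    rw [Fintype.card_embedding_eq, Fintype.card_fin, Fintype.card_coe]
    rfl
  rw [h1]
  apply Fintype.card_congr
  refine ⟨fun e => ⟨e.trans (Function.Embedding.subtype _), ?_⟩,
    fun e => ⟨fun i => ⟨e.1 i, ?_⟩, fun i j hij => e.1.injective (congrArg Subtype.val hij)⟩,
    fun e => ?_, fun e => ?_⟩
  · ext i
    exact mem_Fx.1 (e i).2
  · rw [mem_Fx]
    have := DFunLike.congr_fun e.2 i
    exact this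
  · ext i
    rfl
  · apply Subtype.ext
    ext i
    rfl


/-- counting embeddings permuted by `g` in a prescribed way -/
theorem sum_sigma (k : ℕ) (hk : k ≤ Fintype.card Ω) [IsMultiplyPretransitive G Ω k]
    (σ : Equiv.Perm (Fin k)) :
    ∑ g : G, (Finset.univ.filter (fun x : Fin k ↪ Ω => ∀ i, g • x i = x (σ i))).card =
      Fintype.card G := by
  classical
  haveI : Nonempty (Fin k ↪ Ω) := by
    rw [Function.Embedding.nonempty_iff_card_le]
    simpa using hk
  rw [← sum_card_eq (G := G) (X := Fin k ↪ Ω) (fun x => σ.toEmbedding.trans x)]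
  refine Finset.sum_congr rfl fun g _ => ?_
  congr 1
  ext x
  simp only [Finset.mem_filter, Finset.mem_univ, true_and]
  constructor
  · intro h
    ext i
    exact h i
  · intro h i
    exact DFunLike.congr_fun h i

theorem sum_tx (hk : 2 ≤ Fintype.card Ω) [IsMultiplyPretransitive G Ω 2] :
    ∑ g : G, tx Ω g = Fintype.card G := by
  classical
  rw [← sum_sigma (G := G) (Ω := Ω) 2 hk (Equiv.swap 0 1)]
  refine Finset.sum_congr rfl fun g _ => ?_
  symm
  unfold tx
  refine Finset.card_bij (fun x _ => x 0) ?_ ?_ ?_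
  · intro x hx
    simp only [Finset.mem_filter, Finset.mem_univ, true_and, Fin.forall_fin_two, Equiv.swap_apply_left,
      Equiv.swap_apply_right] at hx
    rw [mem_Mv]
    refine ⟨by rw [hx.1, hx.2], ?_⟩
    rw [hx.1]
    intro h
    exact absurd (x.injective h) (by decide)
  · intro x hx y hy hxy
    simp only [Finset.mem_filter, Finset.mem_univ, true_and, Fin.forall_fin_two, Equiv.swap_apply_left,
      Equiv.swap_apply_right] at hx hy
    ext i
    fin_cases i
    · exact hxy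
    · show x 1 = y 1
      rw [← hx.1, ← hy.1, hxy]
  · intro a ha
    rw [mem_Mv] at ha
    refine ⟨⟨![a, g • a], ?_⟩, ?_, rfl⟩
    · intro i j hij
      fin_cases i <;> fin_cases j <;> simp at hij ⊢
      · exact ha.2 hij.symm
      · exact ha.2 hij
    · simp only [Finset.mem_filter, Finset.mem_univ, true_and, Fin.forall_fin_two, Equiv.swap_apply_left,
        Equiv.swap_apply_right]
      exact ⟨rfl, ha.1⟩

theorem fix_ne_mov {g : G} {a b : Ω} (ha : g • a = a) (hb : g • g • b = b ∧ g • b ≠ b) :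
    a ≠ b ∧ a ≠ g • b := by
  constructor
  · rintro rfl
    exact hb.2 ha
  · rintro rfl
    rw [hb.1] at ha
    exact hb.2 ha.symm

theorem sum_fx_tx (hk : 3 ≤ Fintype.card Ω) [IsMultiplyPretransitive G Ω 3] :
    ∑ g : G, fx Ω g * tx Ω g = Fintype.card G := by
  classical
  rw [← sum_sigma (G := G) (Ω := Ω) 3 hk (Equiv.swap 1 2)]
  refine Finset.sum_congr rfl fun g _ => ?_
  symm
  have key : ∀ x : Fin 3 ↪ Ω, (∀ i, g • x i = x (Equiv.swap 1 2 i)) ↔
      (g • x 0 = x 0 ∧ g • x 1 = x 2 ∧ g • x 2 = x 1) := by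
    intro x
    constructor
    · intro h
      exact ⟨h 0, h 1, h 2⟩
    · rintro ⟨h0, h1, h2⟩ i
      fin_cases i
      exacts [h0, h1, h2]
  simp only [key]
  unfold tx fx
  rw [← Finset.card_product]
  refine Finset.card_bij (fun x _ => (x 0, x 1)) ?_ ?_ ?_
  · intro x hx
    simp only [Finset.mem_filter, Finset.mem_univ, true_and] at hx
    rw [Finset.mem_product, mem_Mv, mem_Fx]
    refine ⟨hx.1, by show g • g • x 1 = x 1; rw [hx.2.1, hx.2.2], ?_⟩
    show g • x 1 ≠ x 1
    rw [hx.2.1]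
    intro h
    exact absurd (x.injective h) (by decide)
  · intro x hx y hy hxy
    simp only [Finset.mem_filter, Finset.mem_univ, true_and] at hx hy
    rw [Prod.mk.injEq] at hxy
    ext i
    fin_cases i
    · exact hxy.1
    · exact hxy.2
    · show x 2 = y 2
      rw [← hx.2.1, ← hy.2.1, hxy.2]
  · rintro ⟨a, b⟩ hab
    rw [Finset.mem_product, mem_Mv, mem_Fx] at hab
    obtain ⟨ha, hb⟩ := hab
    simp only at ha hb
    obtain ⟨h1, h2⟩ := fix_ne_mov ha hb
    have h3 := hb.2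
    refine ⟨⟨![a, b, g • b], ?_⟩, ?_, rfl⟩
    · intro i j hij
      fin_cases i <;> fin_cases j <;> simp at hij ⊢
      all_goals first | exact h1 hij | exact h1 hij.symm | exact h2 hij | exact h2 hij.symm | exact h3 hij | exact h3 hij.symm
    · simp only [Finset.mem_filter, Finset.mem_univ, true_and]
      exact ⟨ha, rfl, hb.1⟩

theorem sum_fx_fx_tx (hk : 4 ≤ Fintype.card Ω) [IsMultiplyPretransitive G Ω 4] :
    ∑ g : G, (fx Ω g * fx Ω g - fx Ω g) * tx Ω g = Fintype.card G := by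
  classical
  rw [← sum_sigma (G := G) (Ω := Ω) 4 hk (Equiv.swap 2 3)]
  refine Finset.sum_congr rfl fun g _ => ?_
  symm
  have key : ∀ x : Fin 4 ↪ Ω, (∀ i, g • x i = x (Equiv.swap 2 3 i)) ↔
      (g • x 0 = x 0 ∧ g • x 1 = x 1 ∧ g • x 2 = x 3 ∧ g • x 3 = x 2) := by
    intro x
    constructor
    · intro h
      exact ⟨h 0, h 1, h 2, h 3⟩
    · rintro ⟨h0, h1, h2, h3⟩ i
      fin_cases i
      exacts [h0, h1, h2, h3]
  simp only [key]
  unfold tx fx
  rw [← Finset.offDiag_card, ← Finset.card_product]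
  refine Finset.card_bij (fun x _ => ((x 0, x 1), x 2)) ?_ ?_ ?_
  · intro x hx
    simp only [Finset.mem_filter, Finset.mem_univ, true_and] at hx
    rw [Finset.mem_product, mem_Mv, Finset.mem_offDiag, mem_Fx, mem_Fx]
    refine ⟨⟨hx.1, hx.2.1, ?_⟩, by show g • g • x 2 = x 2; rw [hx.2.2.1, hx.2.2.2], ?_⟩
    · intro h
      exact absurd (x.injective h) (by decide)
    · show g • x 2 ≠ x 2
      rw [hx.2.2.1]
      intro h
      exact absurd (x.injective h) (by decide)
  · intro x hx y hy hxy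
    simp only [Finset.mem_filter, Finset.mem_univ, true_and] at hx hy
    rw [Prod.mk.injEq, Prod.mk.injEq] at hxy
    ext i
    fin_cases i
    · exact hxy.1.1
    · exact hxy.1.2
    · exact hxy.2
    · show x 3 = y 3
      rw [← hx.2.2.1, ← hy.2.2.1, hxy.2]
  · rintro ⟨⟨a, b⟩, c⟩ hab
    rw [Finset.mem_product, mem_Mv, Finset.mem_offDiag, mem_Fx, mem_Fx] at hab
    obtain ⟨⟨ha, hb, hne⟩, hc⟩ := hab
    simp only at ha hb hc hne
    obtain ⟨h1, h2⟩ := fix_ne_mov ha hc
    obtain ⟨h4, h5⟩ := fix_ne_mov hb hc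
    have h3 := hc.2
    refine ⟨⟨![a, b, c, g • c], ?_⟩, ?_, rfl⟩
    · intro i j hij
      fin_cases i <;> fin_cases j <;> simp at hij ⊢
      all_goals first | exact h1 hij | exact h1 hij.symm | exact h2 hij | exact h2 hij.symm | exact h3 hij | exact h3 hij.symm | exact h4 hij | exact h4 hij.symm | exact h5 hij | exact h5 hij.symm | exact hne hij | exact hne hij.symm
    · simp only [Finset.mem_filter, Finset.mem_univ, true_and]
      exact ⟨ha, hb, rfl, hc.1⟩

theorem card_mov_pairs (g : G) :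
    (((Mv Ω g) ×ˢ (Mv Ω g)).filter (fun p => p.2 ≠ p.1 ∧ p.2 ≠ g • p.1)).card =
      tx Ω g * (tx Ω g - 2) := by
  classical
  have h1 : ((Mv Ω g) ×ˢ (Mv Ω g)).filter (fun p => p.2 ≠ p.1 ∧ p.2 ≠ g • p.1) =
      (Mv Ω g).biUnion (fun a => ((Mv Ω g).filter (fun c => c ≠ a ∧ c ≠ g • a)).image (fun c => (a, c))) := by
    ext ⟨a, c⟩
    simp only [Finset.mem_filter, Finset.mem_product, Finset.mem_biUnion, Finset.mem_image, Prod.mk.injEq]
    constructor
    · rintro ⟨⟨ha, hc⟩, h⟩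
      exact ⟨a, ha, c, ⟨hc, h⟩, rfl, rfl⟩
    · rintro ⟨a', ha, c', ⟨hc, h⟩, rfl, rfl⟩
      exact ⟨⟨ha, hc⟩, h⟩
  rw [h1, Finset.card_biUnion]
  · rw [Finset.sum_congr rfl (g := fun _ => tx Ω g - 2)]
    · rw [Finset.sum_const, smul_eq_mul]
      rfl
    · intro a ha
      rw [Finset.card_image_of_injective _ (fun c c' h => (Prod.mk.inj h).2)]
      have h2 : (Mv Ω g).filter (fun c => c ≠ a ∧ c ≠ g • a) = ((Mv Ω g).erase a).erase (g • a) := by
        ext c
        simp only [Finset.mem_filter, Finset.mem_erase]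
        tauto
      have hga : g • a ∈ (Mv Ω g).erase a := by
        rw [Finset.mem_erase]
        refine ⟨(mem_Mv.1 ha).2, ?_⟩
        rw [mem_Mv, (mem_Mv.1 ha).1]
        exact ⟨rfl, (mem_Mv.1 ha).2.symm⟩
      rw [h2, Finset.card_erase_of_mem hga, Finset.card_erase_of_mem ha]
      unfold tx
      omega
  · intro a _ b _ hab
    rw [Function.onFun, Finset.disjoint_left]
    intro p hp hq
    rw [Finset.mem_image] at hp hq
    obtain ⟨c, _, rfl⟩ := hp
    obtain ⟨d, _, h⟩ := hq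
    exact hab (Prod.mk.inj h).1.symm

theorem sum_tx_tx (hk : 4 ≤ Fintype.card Ω) [IsMultiplyPretransitive G Ω 4] :
    ∑ g : G, tx Ω g * (tx Ω g - 2) = Fintype.card G := by
  classical
  rw [← sum_sigma (G := G) (Ω := Ω) 4 hk (Equiv.swap (0 : Fin 4) 1 * Equiv.swap (2 : Fin 4) 3)]
  refine Finset.sum_congr rfl fun g _ => ?_
  symm
  have key : ∀ x : Fin 4 ↪ Ω, (∀ i, g • x i = x ((Equiv.swap (0 : Fin 4) 1 * Equiv.swap (2 : Fin 4) 3) i)) ↔
      (g • x 0 = x 1 ∧ g • x 1 = x 0 ∧ g • x 2 = x 3 ∧ g • x 3 = x 2) := by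
    intro x
    constructor
    · intro h
      exact ⟨h 0, h 1, h 2, h 3⟩
    · rintro ⟨h0, h1, h2, h3⟩ i
      fin_cases i
      exacts [h0, h1, h2, h3]
  simp only [key]
  rw [← card_mov_pairs]
  refine Finset.card_bij (fun x _ => (x 0, x 2)) ?_ ?_ ?_
  · intro x hx
    simp only [Finset.mem_filter, Finset.mem_univ, true_and] at hx
    rw [Finset.mem_filter, Finset.mem_product, mem_Mv, mem_Mv]
    refine ⟨⟨⟨by show g • g • x 0 = x 0; rw [hx.1, hx.2.1], ?_⟩,
      by show g • g • x 2 = x 2; rw [hx.2.2.1, hx.2.2.2], ?_⟩, ?_, ?_⟩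
    · show g • x 0 ≠ x 0
      rw [hx.1]
      intro h
      exact absurd (x.injective h) (by decide)
    · show g • x 2 ≠ x 2
      rw [hx.2.2.1]
      intro h
      exact absurd (x.injective h) (by decide)
    · intro h
      exact absurd (x.injective h) (by decide)
    · show x 2 ≠ g • x 0
      rw [hx.1]
      intro h
      exact absurd (x.injective h) (by decide)
  · intro x hx y hy hxy
    simp only [Finset.mem_filter, Finset.mem_univ, true_and] at hx hy
    rw [Prod.mk.injEq] at hxy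
    ext i
    fin_cases i
    · exact hxy.1
    · show x 1 = y 1
      rw [← hx.1, ← hy.1, hxy.1]
    · exact hxy.2
    · show x 3 = y 3
      rw [← hx.2.2.1, ← hy.2.2.1, hxy.2]
  · rintro ⟨a, c⟩ hab
    rw [Finset.mem_filter, Finset.mem_product, mem_Mv, mem_Mv] at hab
    obtain ⟨⟨ha, hc⟩, h1, h2⟩ := hab
    simp only at ha hc h1 h2
    have h3 := ha.2
    have h4 := hc.2
    have h5 : a ≠ g • c := by
      rintro rfl
      exact h2 hc.1.symm
    have h6 : g • a ≠ g • c := by
      intro h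
      exact h1 (smul_left_cancel g h).symm
    refine ⟨⟨![a, g • a, c, g • c], ?_⟩, ?_, rfl⟩
    · intro i j hij
      fin_cases i <;> fin_cases j <;> simp at hij ⊢
      all_goals first | exact h1 hij | exact h1 hij.symm | exact h2 hij | exact h2 hij.symm | exact h3 hij | exact h3 hij.symm | exact h4 hij | exact h4 hij.symm | exact h5 hij | exact h5 hij.symm | exact h6 hij | exact h6 hij.symm | (exact h1 (smul_left_cancel g hij)) | (exact h1 (smul_left_cancel g hij).symm)
    · simp only [Finset.mem_filter, Finset.mem_univ, true_and]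
      exact ⟨rfl, ha.1, rfl, hc.1⟩

/-- 2-subsets -/
def P2 (Ω : Type v) : Type v := {s : Finset Ω // s.card = 2}

instance : Fintype (P2 Ω) := inferInstanceAs (Fintype {s : Finset Ω // s.card = 2})

instance instP2 : MulAction G (P2 Ω) where
  smul g s := ⟨s.1.map (MulAction.toPerm g).toEmbedding, by rw [Finset.card_map]; exact s.2⟩
  one_smul s := by
    apply Subtype.ext
    show s.1.map (MulAction.toPerm (1 : G)).toEmbedding = s.1
    ext x
    simp
  mul_smul g h s := by
    apply Subtype.ext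
    show s.1.map (MulAction.toPerm (g * h)).toEmbedding =
      (s.1.map (MulAction.toPerm h).toEmbedding).map (MulAction.toPerm g).toEmbedding
    ext x
    simp [mul_smul]

theorem p2_val (g : G) (s : P2 Ω) : (g • s).1 = s.1.map (MulAction.toPerm g).toEmbedding := rfl

/-- constructor -/
def mkP2 (s : Finset Ω) (h : s.card = 2) : P2 Ω := ⟨s, h⟩

theorem mkP2_fix (g : G) (s : Finset Ω) (h : s.card = 2)
    (h2 : s.map (MulAction.toPerm g).toEmbedding = s) : g • mkP2 s h = mkP2 s h :=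
  Subtype.ext h2

/-- ordered pairs fixed as sets -/
def Or (g : G) : Finset (Ω × Ω) :=
  Finset.univ.filter (fun p => p.1 ≠ p.2 ∧ ((g • p.1 = p.1 ∧ g • p.2 = p.2) ∨ (g • p.1 = p.2 ∧ g • p.2 = p.1)))

theorem card_Or (g : G) : (Or (Ω := Ω) g).card = (fx Ω g * fx Ω g - fx Ω g) + tx Ω g := by
  classical
  have h1 : Or (Ω := Ω) g = (Fx Ω g).offDiag ∪ (Mv Ω g).image (fun a => (a, g • a)) := by
    ext ⟨a, b⟩
    simp only [Or, Finset.mem_filter, Finset.mem_univ, true_and, Finset.mem_union, Finset.mem_offDiag,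
      mem_Fx, Finset.mem_image, mem_Mv, Prod.mk.injEq]
    constructor
    · rintro ⟨hab, h | h⟩
      · exact Or.inl ⟨h.1, h.2, hab⟩
      · refine Or.inr ⟨a, ⟨by rw [h.1, h.2], ?_⟩, rfl, h.1⟩
        rw [h.1]
        exact hab.symm
    · rintro (h | ⟨a', h, rfl, rfl⟩)
      · exact ⟨h.2.2, Or.inl ⟨h.1, h.2.1⟩⟩
      · exact ⟨h.2.symm, Or.inr ⟨rfl, h.1⟩⟩
  rw [h1, Finset.card_union_of_disjoint, Finset.offDiag_card,
    Finset.card_image_of_injective _ (fun a b h => (Prod.mk.inj h).1)]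
  · rfl
  · rw [Finset.disjoint_left]
    rintro ⟨a, b⟩ h h'
    rw [Finset.mem_offDiag, mem_Fx, mem_Fx] at h
    rw [Finset.mem_image] at h'
    obtain ⟨c, hc, h2⟩ := h'
    rw [Prod.mk.injEq] at h2
    rw [mem_Mv] at hc
    apply hc.2
    rw [h2.1]
    exact h.1

theorem card_Or_two (g : G) : (Or (Ω := Ω) g).card = 2 * Nat.card (fixedBy (P2 Ω) g) := by
  classical
  have h0 : Nat.card (fixedBy (P2 Ω) g) =
      (Finset.univ.filter (fun s : Finset Ω => s.card = 2 ∧ s.map (MulAction.toPerm g).toEmbedding = s)).card := by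
    rw [← Fintype.card_subtype, ← Nat.card_eq_fintype_card]
    apply Nat.card_congr
    have hfix : ∀ s : fixedBy (P2 Ω) g, (s.1 : P2 Ω).1.map (MulAction.toPerm g).toEmbedding = (s.1 : P2 Ω).1 := by
      intro s
      have h : g • (s.1 : P2 Ω) = s.1 := s.2
      exact congrArg Subtype.val h
    refine ⟨fun s => ⟨s.1.1, s.1.2, hfix s⟩,
      fun s => ⟨mkP2 s.1 s.2.1, mkP2_fix g s.1 s.2.1 s.2.2⟩,
      fun s => rfl, fun s => rfl⟩
  rw [h0]
  rw [Finset.card_eq_sum_card_fiberwise (f := fun p : Ω × Ω => ({p.1, p.2} : Finset Ω))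
    (t := Finset.univ.filter (fun s : Finset Ω => s.card = 2 ∧ s.map (MulAction.toPerm g).toEmbedding = s))]
  · rw [Finset.sum_const_nat (m := 2)]
    · rw [mul_comm]
    · intro s hs
      simp only [Finset.mem_filter, Finset.mem_univ, true_and] at hs
      obtain ⟨hs2, hsg⟩ := hs
      obtain ⟨x, y, hxy, rfl⟩ := Finset.card_eq_two.1 hs2
      have h1 : (Or (Ω := Ω) g).filter (fun p => ({p.1, p.2} : Finset Ω) = {x, y}) = {(x, y), (y, x)} := by
        have hmem : ∀ a b : Ω, a ≠ b → ({a, b} : Finset Ω) = {x, y} → (a = x ∧ b = y) ∨ (a = y ∧ b = x) := by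
          intro a b hab h
          have ha : a ∈ ({x, y} : Finset Ω) := by rw [← h]; simp
          have hb : b ∈ ({x, y} : Finset Ω) := by rw [← h]; simp
          rw [Finset.mem_insert, Finset.mem_singleton] at ha hb
          rcases ha with rfl | rfl <;> rcases hb with rfl | rfl
          · exact absurd rfl hab
          · exact Or.inl ⟨rfl, rfl⟩
          · exact Or.inr ⟨rfl, rfl⟩
          · exact absurd rfl hab
        have hg : (g • x = x ∧ g • y = y) ∨ (g • x = y ∧ g • y = x) := by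
          apply hmem
          · intro h
            exact hxy (smul_left_cancel g h)
          · rw [← hsg]
            ext z
            simp only [Finset.mem_insert, Finset.mem_singleton, Finset.mem_map, Equiv.coe_toEmbedding,
              MulAction.toPerm_apply]
            constructor
            · rintro (rfl | rfl)
              · exact ⟨x, Or.inl rfl, rfl⟩
              · exact ⟨y, Or.inr rfl, rfl⟩
            · rintro ⟨w, rfl | rfl, rfl⟩
              · exact Or.inl rfl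
              · exact Or.inr rfl
        ext ⟨a, b⟩
        simp only [Or, Finset.mem_filter, Finset.mem_univ, true_and, Finset.mem_insert, Finset.mem_singleton,
          Prod.mk.injEq]
        constructor
        · rintro ⟨⟨hab, _⟩, h⟩
          exact hmem a b hab h
        · rintro (⟨rfl, rfl⟩ | ⟨rfl, rfl⟩)
          · exact ⟨⟨hxy, hg⟩, rfl⟩
          · refine ⟨⟨hxy.symm, ?_⟩, Finset.pair_comm _ _⟩
            rcases hg with h | h
            · exact Or.inl ⟨h.2, h.1⟩
            · exact Or.inr ⟨h.2, h.1⟩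
      rw [h1, Finset.card_pair]
      intro h
      exact hxy (Prod.mk.inj h).1
  · intro p hp
    have hp' : p ∈ Or (Ω := Ω) g := hp
    simp only [Or, Finset.mem_filter, Finset.mem_univ, true_and] at hp'
    show ({p.1, p.2} : Finset Ω) ∈ (Finset.univ.filter (fun s : Finset Ω => s.card = 2 ∧ s.map (MulAction.toPerm g).toEmbedding = s) : Finset (Finset Ω))
    simp only [Finset.mem_filter, Finset.mem_univ, true_and]
    refine ⟨Finset.card_pair hp'.1, ?_⟩
    rw [Finset.map_insert, Finset.map_singleton]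
    simp only [Equiv.coe_toEmbedding, MulAction.toPerm_apply]
    rcases hp'.2 with h | h
    · rw [h.1, h.2]
    · rw [h.1, h.2, Finset.pair_comm]

/-- the character of the action on 2-subsets -/
theorem permChar_P2 (g : G) :
    2 * permChar G (P2 Ω) g = (fx Ω g : ℂ) ^ 2 - fx Ω g + tx Ω g := by
  have h1 := (card_Or_two (Ω := Ω) g).symm.trans (card_Or g)
  have h2 : fx Ω g ≤ fx Ω g * fx Ω g := Nat.le_mul_self _
  unfold permChar
  have h3 : ((2 * Nat.card (fixedBy (P2 Ω) g) : ℕ) : ℂ) = (((fx Ω g * fx Ω g - fx Ω g) + tx Ω g : ℕ) : ℂ) := by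
    rw [h1]
  rw [Nat.cast_add, Nat.cast_sub h2] at h3
  push_cast at h3
  rw [h3]
  ring

/-- `π - 1` -/
noncomputable def ch1 (G : Type u) [Group G] (Ω : Type v) [Fintype Ω] [DecidableEq Ω] [MulAction G Ω] : G → ℂ :=
  fun g => (fx Ω g : ℂ) - 1

/-- `(n-2,2)` -/
noncomputable def ch2 (G : Type u) [Group G] (Ω : Type v) [Fintype Ω] [DecidableEq Ω] [MulAction G Ω] : G → ℂ :=
  fun g => ((fx Ω g : ℂ) ^ 2 - 3 * fx Ω g + tx Ω g) / 2

/-- `(n-2,1,1)` -/
noncomputable def ch3 (G : Type u) [Group G] (Ω : Type v) [Fintype Ω] [DecidableEq Ω] [MulAction G Ω] : G → ℂ :=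
  fun g => ((fx Ω g : ℂ) ^ 2 - 3 * fx Ω g + 2 - tx Ω g) / 2

theorem isChar_fx : IsCharacter G (fun g : G => (fx Ω g : ℂ)) := by
  have h := isCharacter_permChar G Ω
  have h2 : permChar G Ω = fun g : G => (fx Ω g : ℂ) := by
    funext g
    exact permChar_eq g
  rwa [h2] at h

theorem isGen_ch1 : IsGeneralizedCharacter G (ch1 G Ω) :=
  ⟨fun g : G => (fx Ω g : ℂ), fun _ => 1, isChar_fx, isCharacter_of_isIrr isIrrCharacter_one, rfl⟩

theorem isGen_ch2 : IsGeneralizedCharacter G (ch2 G Ω) := by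
  refine ⟨permChar G (P2 Ω), fun g : G => (fx Ω g : ℂ), isCharacter_permChar G (P2 Ω), isChar_fx, ?_⟩
  funext g
  have h := permChar_P2 (Ω := Ω) g
  show ((fx Ω g : ℂ) ^ 2 - 3 * fx Ω g + tx Ω g) / 2 = permChar G (P2 Ω) g - (fx Ω g : ℂ)
  linear_combination (-1 / 2) * h

theorem isGen_ch3 : IsGeneralizedCharacter G (ch3 G Ω) := by
  refine ⟨(fun g : G => (fx Ω g : ℂ)) * (fun g : G => (fx Ω g : ℂ)) + fun _ => 1,
    permChar G (P2 Ω) + ((fun g : G => (fx Ω g : ℂ)) + fun g : G => (fx Ω g : ℂ)),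
    isCharacter_add (isCharacter_mul isChar_fx isChar_fx) (isCharacter_of_isIrr isIrrCharacter_one),
    isCharacter_add (isCharacter_permChar G (P2 Ω)) (isCharacter_add isChar_fx isChar_fx), ?_⟩
  funext g
  have h := permChar_P2 (Ω := Ω) g
  show ((fx Ω g : ℂ) ^ 2 - 3 * fx Ω g + 2 - tx Ω g) / 2 =
    ((fx Ω g : ℂ) * (fx Ω g : ℂ) + 1) - (permChar G (P2 Ω) g + ((fx Ω g : ℂ) + fx Ω g))
  linear_combination (1 / 2) * h

theorem cast_desc2 (f : ℕ) : ((f.descFactorial 2 : ℕ) : ℂ) = f * (f - 1) := by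
  rcases f with _ | f
  · simp
  · simp [Nat.descFactorial]
    ring

theorem cast_desc3 (f : ℕ) : ((f.descFactorial 3 : ℕ) : ℂ) = f * (f - 1) * (f - 2) := by
  rcases f with _ | _ | f
  · simp
  · simp [Nat.descFactorial]
  · simp [Nat.descFactorial]
    ring

theorem cast_desc4 (f : ℕ) : ((f.descFactorial 4 : ℕ) : ℂ) = f * (f - 1) * (f - 2) * (f - 3) := by
  rcases f with _ | _ | _ | f
  · simp
  · simp [Nat.descFactorial]
  · simp [Nat.descFactorial]
  · simp [Nat.descFactorial]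
    ring

theorem cast_tt (t : ℕ) (h : t ≠ 1) : ((t * (t - 2) : ℕ) : ℂ) = t * (t - 2) := by
  rcases t with _ | _ | t
  · simp
  · exact absurd rfl h
  · rw [show t + 1 + 1 - 2 = t by omega]
    push_cast
    ring

theorem tx_ne_one (g : G) : tx Ω g ≠ 1 := by
  intro h
  unfold tx at h
  obtain ⟨a, ha⟩ := Finset.card_eq_one.1 h
  have h1 : a ∈ Mv Ω g := by rw [ha]; simp
  rw [mem_Mv] at h1
  have h2 : g • a ∈ Mv Ω g := by
    rw [mem_Mv, h1.1]
    exact ⟨rfl, h1.2.symm⟩
  rw [ha, Finset.mem_singleton] at h2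
  exact h1.2 h2

section norms

variable (hk : 4 ≤ Fintype.card Ω) [h4 : IsMultiplyPretransitive G Ω 4]

theorem pre_of_le {k : ℕ} (hk : 4 ≤ Fintype.card Ω) (h : k ≤ 4) [h4 : IsMultiplyPretransitive G Ω 4] :
    IsMultiplyPretransitive G Ω k :=
  isMultiplyPretransitive_of_le (n := 4) h (by rw [Nat.card_eq_fintype_card]; exact hk)

theorem norm_ch1 (hk : 4 ≤ Fintype.card Ω) [h4 : IsMultiplyPretransitive G Ω 4] :
    classInner (ch1 G Ω) (ch1 G Ω) = 1 := by
  haveI := pre_of_le (G := G) (Ω := Ω) (k := 1) hk (by norm_num)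
  haveI := pre_of_le (G := G) (Ω := Ω) (k := 2) hk (by norm_num)
  have e1 := congrArg (Nat.cast : ℕ → ℂ) (sum_desc (G := G) (Ω := Ω) 1 (by omega))
  have e2 := congrArg (Nat.cast : ℕ → ℂ) (sum_desc (G := G) (Ω := Ω) 2 (by omega))
  push_cast at e1 e2
  simp only [Nat.descFactorial_one, cast_desc2] at e1 e2
  have e0 : ∑ _g : G, (1 : ℂ) = Fintype.card G := by simp
  have hG : (Fintype.card G : ℂ) ≠ 0 := by exact_mod_cast Fintype.card_pos.ne'
  unfold classInner
  rw [Nat.card_eq_fintype_card]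
  have h : ∑ g : G, ch1 G Ω g * conj (ch1 G Ω g) = Fintype.card G := by
    have : ∀ g : G, ch1 G Ω g * conj (ch1 G Ω g) =
        (fx Ω g : ℂ) * ((fx Ω g : ℂ) - 1) - (fx Ω g : ℂ) + 1 := by
      intro g
      simp only [ch1, map_sub, map_natCast, map_one]
      ring
    rw [Finset.sum_congr rfl (fun g _ => this g), Finset.sum_add_distrib, Finset.sum_sub_distrib, e2, e1, e0]
    ring
  rw [h, inv_mul_cancel₀ hG]

theorem sums (hk : 4 ≤ Fintype.card Ω) [h4 : IsMultiplyPretransitive G Ω 4] :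
    (∑ g : G, (fx Ω g : ℂ) = Fintype.card G) ∧
    (∑ g : G, (fx Ω g : ℂ) * ((fx Ω g : ℂ) - 1) = Fintype.card G) ∧
    (∑ g : G, (fx Ω g : ℂ) * ((fx Ω g : ℂ) - 1) * ((fx Ω g : ℂ) - 2) = Fintype.card G) ∧
    (∑ g : G, (fx Ω g : ℂ) * ((fx Ω g : ℂ) - 1) * ((fx Ω g : ℂ) - 2) * ((fx Ω g : ℂ) - 3) = Fintype.card G) ∧
    (∑ g : G, (tx Ω g : ℂ) = Fintype.card G) ∧
    (∑ g : G, (fx Ω g : ℂ) * (tx Ω g : ℂ) = Fintype.card G) ∧
    (∑ g : G, ((fx Ω g : ℂ) * (fx Ω g : ℂ) - (fx Ω g : ℂ)) * (tx Ω g : ℂ) = Fintype.card G) ∧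
    (∑ g : G, (tx Ω g : ℂ) * ((tx Ω g : ℂ) - 2) = Fintype.card G) := by
  haveI := pre_of_le (G := G) (Ω := Ω) (k := 1) hk (by norm_num)
  haveI := pre_of_le (G := G) (Ω := Ω) (k := 2) hk (by norm_num)
  haveI := pre_of_le (G := G) (Ω := Ω) (k := 3) hk (by norm_num)
  have e1 := congrArg (Nat.cast : ℕ → ℂ) (sum_desc (G := G) (Ω := Ω) 1 (by omega))
  have e2 := congrArg (Nat.cast : ℕ → ℂ) (sum_desc (G := G) (Ω := Ω) 2 (by omega))
  have e3 := congrArg (Nat.cast : ℕ → ℂ) (sum_desc (G := G) (Ω := Ω) 3 (by omega))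
  have e4 := congrArg (Nat.cast : ℕ → ℂ) (sum_desc (G := G) (Ω := Ω) 4 (by omega))
  have e5 := congrArg (Nat.cast : ℕ → ℂ) (sum_tx (G := G) (Ω := Ω) (by omega))
  have e6 := congrArg (Nat.cast : ℕ → ℂ) (sum_fx_tx (G := G) (Ω := Ω) (by omega))
  have e7 := congrArg (Nat.cast : ℕ → ℂ) (sum_fx_fx_tx (G := G) (Ω := Ω) (by omega))
  have e8 := congrArg (Nat.cast : ℕ → ℂ) (sum_tx_tx (G := G) (Ω := Ω) (by omega))
  rw [Nat.cast_sum] at e1 e2 e3 e4 e5 e6 e7 e8
  refine ⟨?_, ?_, ?_, ?_, e5, ?_, ?_, ?_⟩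
  · rw [← e1]
    exact Finset.sum_congr rfl fun g _ => by rw [Nat.descFactorial_one]
  · rw [← e2]
    exact Finset.sum_congr rfl fun g _ => (cast_desc2 _).symm
  · rw [← e3]
    exact Finset.sum_congr rfl fun g _ => (cast_desc3 _).symm
  · rw [← e4]
    exact Finset.sum_congr rfl fun g _ => (cast_desc4 _).symm
  · rw [← e6]
    exact Finset.sum_congr rfl fun g _ => (Nat.cast_mul _ _).symm
  · rw [← e7]
    refine Finset.sum_congr rfl fun g _ => ?_
    rw [Nat.cast_mul, Nat.cast_sub (Nat.le_mul_self _), Nat.cast_mul]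
  · rw [← e8]
    exact Finset.sum_congr rfl fun g _ => (cast_tt _ (tx_ne_one g)).symm

theorem norm_ch2 (hk : 4 ≤ Fintype.card Ω) [h4 : IsMultiplyPretransitive G Ω 4] :
    classInner (ch2 G Ω) (ch2 G Ω) = 1 := by
  obtain ⟨e1, e2, e3, e4, e5, e6, e7, e8⟩ := sums (G := G) hk
  have hG : (Fintype.card G : ℂ) ≠ 0 := by exact_mod_cast Fintype.card_pos.ne'
  unfold classInner
  rw [Nat.card_eq_fintype_card]
  have h : 4 * ∑ g : G, ch2 G Ω g * conj (ch2 G Ω g) = 4 * Fintype.card G := by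
    have : ∀ g : G, 4 * (ch2 G Ω g * conj (ch2 G Ω g)) =
        (fx Ω g : ℂ) * ((fx Ω g : ℂ) - 1) * ((fx Ω g : ℂ) - 2) * ((fx Ω g : ℂ) - 3) +
        (2 * (((fx Ω g : ℂ) * (fx Ω g : ℂ) - (fx Ω g : ℂ)) * (tx Ω g : ℂ)) +
        ((tx Ω g : ℂ) * ((tx Ω g : ℂ) - 2) + (2 * (tx Ω g : ℂ) + ((-4) * ((fx Ω g : ℂ) * (tx Ω g : ℂ)) +
        ((-2) * ((fx Ω g : ℂ) * ((fx Ω g : ℂ) - 1)) + 4 * (fx Ω g : ℂ)))))) := by
      intro g
      simp only [ch2, map_sub, map_natCast, map_one, map_div₀, map_add, map_mul, map_pow, map_ofNat]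
      ring
    rw [Finset.mul_sum, Finset.sum_congr rfl (fun g _ => this g), Finset.sum_add_distrib, Finset.sum_add_distrib,
      Finset.sum_add_distrib, Finset.sum_add_distrib, Finset.sum_add_distrib, Finset.sum_add_distrib,
      ← Finset.mul_sum, ← Finset.mul_sum, ← Finset.mul_sum, ← Finset.mul_sum, ← Finset.mul_sum, e1, e2, e4, e5, e6, e7, e8]
    ring
  have h' := mul_left_cancel₀ (by norm_num : (4 : ℂ) ≠ 0) h
  rw [h', inv_mul_cancel₀ hG]

theorem norm_ch3 (hk : 4 ≤ Fintype.card Ω) [h4 : IsMultiplyPretransitive G Ω 4] :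
    classInner (ch3 G Ω) (ch3 G Ω) = 1 := by
  obtain ⟨e1, e2, e3, e4, e5, e6, e7, e8⟩ := sums (G := G) hk
  have hG : (Fintype.card G : ℂ) ≠ 0 := by exact_mod_cast Fintype.card_pos.ne'
  have e0 : ∑ _g : G, (1 : ℂ) = Fintype.card G := by simp
  unfold classInner
  rw [Nat.card_eq_fintype_card]
  have h : 4 * ∑ g : G, ch3 G Ω g * conj (ch3 G Ω g) = 4 * Fintype.card G := by
    have : ∀ g : G, 4 * (ch3 G Ω g * conj (ch3 G Ω g)) =
        (fx Ω g : ℂ) * ((fx Ω g : ℂ) - 1) * ((fx Ω g : ℂ) - 2) * ((fx Ω g : ℂ) - 3) +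
        ((-2) * (((fx Ω g : ℂ) * (fx Ω g : ℂ) - (fx Ω g : ℂ)) * (tx Ω g : ℂ)) +
        ((tx Ω g : ℂ) * ((tx Ω g : ℂ) - 2) + ((-2) * (tx Ω g : ℂ) + (4 * ((fx Ω g : ℂ) * (tx Ω g : ℂ)) +
        (2 * ((fx Ω g : ℂ) * ((fx Ω g : ℂ) - 1)) + ((-4) * (fx Ω g : ℂ) + 4)))))) := by
      intro g
      simp only [ch3, map_sub, map_natCast, map_one, map_div₀, map_add, map_mul, map_pow, map_ofNat]
      ring
    have e0' : ∑ _g : G, (4 : ℂ) = 4 * Fintype.card G := by simp [mul_comm]
    rw [Finset.mul_sum, Finset.sum_congr rfl (fun g _ => this g), Finset.sum_add_distrib, Finset.sum_add_distrib,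
      Finset.sum_add_distrib, Finset.sum_add_distrib, Finset.sum_add_distrib, Finset.sum_add_distrib,
      Finset.sum_add_distrib,
      ← Finset.mul_sum, ← Finset.mul_sum, ← Finset.mul_sum, ← Finset.mul_sum, ← Finset.mul_sum, e0', e1, e2, e4, e5, e6, e7, e8]
    ring
  have h' := mul_left_cancel₀ (by norm_num : (4 : ℂ) ≠ 0) h
  rw [h', inv_mul_cancel₀ hG]

end norms

end Cfsg.Agent.H59.SymCh
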