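import Mathlib.GroupTheory.GroupAction.Jordan
import Mathlib.GroupTheory.SpecificGroups.Alternating.Simple
import Cfsg.Agent.FStar.Layer
import Cfsg.Agent.H73.AltStd

set_option autoImplicit false

/-! Groups generated by 3-cycles, and subgroups of symmetric groups with quasisimple generalized
Fitting subgroup containing a 3-cycle. -/

namespace Cfsg.Agent.H59.ThreeCyc

open Equiv Equiv.Perm MulAction

/-- a transitive group generated by 3-cycles is the alternating group -/
theorem alt_of_gen {β : Type*} [Fintype β] [DecidableEq β] [Nontrivial β] (S : Set (Perm β))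
    (hS : ∀ t ∈ S, IsThreeCycle t) (htr : ∀ x y : β, ∃ g ∈ Subgroup.closure S, g x = y) :
    Subgroup.closure S = alternatingGroup β := by
  have hpre : IsPretransitive (Subgroup.closure S) β := by
    refine ⟨fun x y => ?_⟩
    obtain ⟨g, hg, h⟩ := htr x y
    exact ⟨⟨g, hg⟩, h⟩
  have hprim : IsPreprimitive (Subgroup.closure S) β := by
    refine ⟨fun {B} hB => ?_⟩
    by_contra hnt
    have h1 : ¬ B.Subsingleton := fun h => hnt (Or.inl h)
    have h2 : B ≠ Set.univ := fun h => hnt (Or.inr h)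
    rw [Set.not_subsingleton_iff] at h1
    obtain ⟨x, hx, y, hy, hxy⟩ := h1
    obtain ⟨z, hz⟩ := (Set.ne_univ_iff_exists_notMem B).1 h2
    -- some element of S moves B
    have h3 : ∃ t ∈ S, ∃ b ∈ B, t b ∉ B := by
      by_contra hno
      push Not at hno
      have h4 : ∀ g ∈ Subgroup.closure S, ∀ b ∈ B, g b ∈ B := by
        intro g hg
        have hfin : ∀ t ∈ S, ∀ b ∈ B, t⁻¹ b ∈ B := by
          intro t ht b hb
          have h6 : t ^ 3 = 1 := by
            rw [← (hS t ht).orderOf]
            exact pow_orderOf_eq_one t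
          have h5 : t⁻¹ = t ^ 2 := by
            rw [inv_eq_iff_mul_eq_one, ← pow_succ']
            exact h6
          rw [h5, pow_two]
          exact hno t ht _ (hno t ht b hb)
        induction hg using Subgroup.closure_induction'' with
        | mem t ht => exact hno t ht
        | inv_mem t ht => exact hfin t ht
        | one => exact fun b hb => hb
        | mul g k _ _ hg hk => exact fun b hb => hg _ (hk b hb)
      obtain ⟨g, hg, h⟩ := htr x z
      exact hz (h ▸ h4 g hg x hx)
    obtain ⟨t, ht, b, hb, htb⟩ := h3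
    have htm : t ∈ Subgroup.closure S := Subgroup.subset_closure ht
    rcases (isBlock_iff_smul_eq_or_disjoint.1 hB) ⟨t, htm⟩ with h | h
    · apply htb
      rw [← h]
      exact ⟨b, hb, rfl⟩
    · rw [Set.disjoint_left] at h
      have h5 : ∀ w ∈ B, t w ∉ B := fun w hw hw' => h ⟨w, hw, rfl⟩ hw'
      have hm1 : ∀ w ∈ B, w ∈ t.support := by
        intro w hw
        rw [Perm.mem_support]
        intro h6
        exact h5 w hw (h6.symm ▸ hw)
      have hm2 : ∀ w ∈ B, t w ∈ t.support := by
        intro w hw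
        rw [Perm.mem_support]
        intro h6
        exact h5 w hw ((t.injective h6).symm ▸ hw)
      have hsub : ({x, y, t x, t y} : Finset β) ⊆ t.support := by
        intro w hw
        simp only [Finset.mem_insert, Finset.mem_singleton] at hw
        rcases hw with rfl | rfl | rfl | rfl
        · exact hm1 _ hx
        · exact hm1 _ hy
        · exact hm2 _ hx
        · exact hm2 _ hy
      have hc := Finset.card_le_card hsub
      have h3c : t.support.card = 3 := (card_support_eq_three_iff).2 (hS t ht)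
      have hx1 : x ≠ t x := fun h6 => h5 x hx (h6 ▸ hx)
      have hx2 : x ≠ t y := fun h6 => h5 y hy (h6 ▸ hx)
      have hy1 : y ≠ t x := fun h6 => h5 x hx (h6 ▸ hy)
      have hy2 : y ≠ t y := fun h6 => h5 y hy (h6 ▸ hy)
      have ht2 : t x ≠ t y := fun h6 => hxy (t.injective h6)
      rw [Finset.card_insert_of_notMem, Finset.card_insert_of_notMem, Finset.card_pair ht2] at hc
      · omega
      · simp only [Finset.mem_insert, Finset.mem_singleton, not_or]
        exact ⟨hy1, hy2⟩
      · simp only [Finset.mem_insert, Finset.mem_singleton, not_or]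
        exact ⟨hxy, hx1, hx2⟩
  obtain ⟨x, y, hxy⟩ := exists_pair_ne β
  have hne : S.Nonempty := by
    by_contra hno
    rw [Set.not_nonempty_iff_eq_empty] at hno
    obtain ⟨g, hg, h⟩ := htr x y
    rw [hno, Subgroup.closure_empty, Subgroup.mem_bot] at hg
    rw [hg] at h
    exact hxy h
  obtain ⟨t, ht⟩ := hne
  apply le_antisymm
  · rw [Subgroup.closure_le]
    intro s hs
    exact (hS s hs).mem_alternatingGroup
  · exact alternatingGroup_le_of_isPreprimitive_of_isThreeCycle_mem hprim (hS t ht) (Subgroup.subset_closure ht)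

variable {α : Type*} [Fintype α] [DecidableEq α]

/-- even permutations supported in `s` -/
def AO (s : Finset α) : Subgroup (Perm α) where
  carrier := {g | g ∈ alternatingGroup α ∧ ∀ x, x ∉ s → g x = x}
  mul_mem' := by
    rintro a b ⟨ha, ha'⟩ ⟨hb, hb'⟩
    refine ⟨mul_mem ha hb, fun x hx => ?_⟩
    rw [Perm.mul_apply, hb' x hx, ha' x hx]
  one_mem' := ⟨one_mem _, fun x _ => rfl⟩
  inv_mem' := by
    rintro a ⟨ha, ha'⟩
    refine ⟨inv_mem ha, fun x hx => ?_⟩
    rw [Perm.inv_eq_iff_eq]
    exact (ha' x hx).symm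

theorem mem_AO {s : Finset α} {g : Perm α} :
    g ∈ AO s ↔ g ∈ alternatingGroup α ∧ ∀ x, x ∉ s → g x = x := Iff.rfl

theorem ofSubtype_mem_AO {s : Finset α} {g : Perm s} (hg : g ∈ alternatingGroup s) :
    ofSubtype g ∈ AO s := by
  refine ⟨?_, fun x hx => ofSubtype_apply_of_not_mem g hx⟩
  rw [mem_alternatingGroup] at hg ⊢
  rw [sign_ofSubtype, hg]

theorem exists_ofSubtype {s : Finset α} {g : Perm α} (hg : g ∈ AO s) :
    ∃ k : Perm s, k ∈ alternatingGroup s ∧ ofSubtype k = g := by
  have h1 : ∀ x, x ∈ s ↔ g x ∈ s := by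
    intro x
    constructor
    · intro hx
      by_contra hno
      have h2 := hg.2 _ hno
      have h3 := g.injective h2
      exact hno (h3.symm ▸ hx)
    · intro hx
      by_contra hno
      rw [hg.2 x hno] at hx
      exact hno hx
  refine ⟨g.subtypePerm (p := (· ∈ s)) (fun x => (h1 x).symm), ?_, ?_⟩
  · have h2 := hg.1
    rw [mem_alternatingGroup] at h2 ⊢
    rw [← sign_ofSubtype, ofSubtype_subtypePerm, h2]
    intro x hx
    by_contra hno
    exact hx (hg.2 x hno)
  · rw [ofSubtype_subtypePerm]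
    intro x hx
    by_contra hno
    exact hx (hg.2 x hno)

/-- `AO s` is the alternating group of `s` -/
noncomputable def AOequiv (s : Finset α) : alternatingGroup s ≃* AO s := by
  refine MulEquiv.ofBijective ((ofSubtype.comp (alternatingGroup s).subtype).codRestrict (AO s)
    (fun g => ofSubtype_mem_AO g.2)) ⟨?_, ?_⟩
  · intro a b h
    have h1 : ofSubtype (a : Perm s) = ofSubtype (b : Perm s) := congrArg Subtype.val h
    exact Subtype.ext (ofSubtype_injective h1)
  · intro g
    obtain ⟨k, hk, h⟩ := exists_ofSubtype g.2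
    exact ⟨⟨k, hk⟩, Subtype.ext h⟩

section comb

variable (H : Subgroup (Perm α))

/-- the 3-cycles of `H` -/
def T3 : Set (Perm α) := {t | t ∈ H ∧ IsThreeCycle t}

/-- the subgroup generated by the 3-cycles -/
def R3 : Subgroup (Perm α) := Subgroup.closure (T3 H)

theorem R3_le : R3 H ≤ H := by
  unfold R3
  rw [Subgroup.closure_le]
  exact fun t ht => ht.1

theorem conj_T3 {h : Perm α} (hh : h ∈ H) {t : Perm α} (ht : t ∈ T3 H) : h * t * h⁻¹ ∈ T3 H := by
  refine ⟨mul_mem (mul_mem hh ht.1) (inv_mem hh), ?_⟩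
  have h2 := ht.2
  unfold IsThreeCycle at h2 ⊢
  rw [cycleType_conj, h2]

theorem conj_R3 {h : Perm α} (hh : h ∈ H) {r : Perm α} (hr : r ∈ R3 H) : h * r * h⁻¹ ∈ R3 H := by
  unfold R3 at hr ⊢
  induction hr using Subgroup.closure_induction with
  | mem t ht => exact Subgroup.subset_closure (conj_T3 H hh ht)
  | one => rw [mul_one, mul_inv_cancel]; exact one_mem _
  | mul a b _ _ ha hb =>
    have : h * (a * b) * h⁻¹ = (h * a * h⁻¹) * (h * b * h⁻¹) := by group
    rw [this]
    exact mul_mem ha hb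
  | inv a _ ha =>
    have : h * a⁻¹ * h⁻¹ = (h * a * h⁻¹)⁻¹ := by group
    rw [this]
    exact inv_mem ha

/-- the orbit of `x` -/
noncomputable def Ob (x : α) : Finset α := by
  classical
  exact Finset.univ.filter (fun y => ∃ r ∈ R3 H, r x = y)

theorem mem_Ob {x y : α} : y ∈ Ob H x ↔ ∃ r ∈ R3 H, r x = y := by
  classical
  unfold Ob
  simp

theorem self_mem_Ob (x : α) : x ∈ Ob H x := (mem_Ob H).2 ⟨1, one_mem _, rfl⟩

theorem Ob_stable {x y : α} (hy : y ∈ Ob H x) {r : Perm α} (hr : r ∈ R3 H) : r y ∈ Ob H x := by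
  obtain ⟨s, hs, rfl⟩ := (mem_Ob H).1 hy
  exact (mem_Ob H).2 ⟨r * s, mul_mem hr hs, rfl⟩

theorem Ob_eq {x y : α} (hy : y ∈ Ob H x) : Ob H y = Ob H x := by
  obtain ⟨s, hs, rfl⟩ := (mem_Ob H).1 hy
  ext z
  rw [mem_Ob, mem_Ob]
  constructor
  · rintro ⟨r, hr, rfl⟩
    exact ⟨r * s, mul_mem hr hs, rfl⟩
  · rintro ⟨r, hr, rfl⟩
    refine ⟨r * s⁻¹, mul_mem hr (inv_mem hs), ?_⟩
    simp

theorem inv_app (h : Perm α) (z : α) : h⁻¹ (h z) = z := by simp

theorem Ob_conj {x y h : _} (hh : h ∈ H) : h y ∈ Ob H (h x) ↔ y ∈ Ob H x := by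
  rw [mem_Ob, mem_Ob]
  constructor
  · rintro ⟨r, hr, h1⟩
    refine ⟨h⁻¹ * r * h, ?_, ?_⟩
    · have := conj_R3 H (inv_mem hh) hr
      rwa [inv_inv] at this
    · rw [Perm.mul_apply, Perm.mul_apply, h1, inv_app]
  · rintro ⟨r, hr, h1⟩
    refine ⟨h * r * h⁻¹, conj_R3 H hh hr, ?_⟩
    rw [Perm.mul_apply, Perm.mul_apply, inv_app, h1]

/-- points moved by a 3-cycle moving a point of the orbit lie in the orbit -/
theorem support_sub {x a : α} (ha : a ∈ Ob H x) {t : Perm α} (ht : t ∈ T3 H) (hta : t a ≠ a)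
    {y : α} (hy : t y ≠ y) : y ∈ Ob H x := by
  have hc : t.IsCycle := ht.2.isCycle
  obtain ⟨i, hi⟩ := hc.exists_zpow_eq hta hy
  rw [← hi]
  exact Ob_stable H ha (zpow_mem (Subgroup.subset_closure ht) i)

theorem AO_le_R3 {x : α} {c : Perm α} (hc : c ∈ T3 H) (hx : c x ≠ x) : AO (Ob H x) ≤ R3 H := by
  classical
  set O := Ob H x with hO
  set S : Set (Perm O) := {t | ofSubtype t ∈ T3 H} with hS
  have hnt : Nontrivial O := by
    refine ⟨⟨x, self_mem_Ob H x⟩, ⟨c x, Ob_stable H (self_mem_Ob H x) (Subgroup.subset_closure hc)⟩, ?_⟩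
    intro h
    exact hx (congrArg Subtype.val h).symm
  have hS3 : ∀ t ∈ S, IsThreeCycle t := by
    intro t ht
    have h1 := ht.2
    unfold IsThreeCycle at h1 ⊢
    rwa [cycleType_ofSubtype] at h1
  have key : ∀ t ∈ T3 H, ∀ a (ha : a ∈ O), ∃ g ∈ Subgroup.closure S, ((g ⟨a, ha⟩ : O) : α) = t a := by
    intro t ht a ha
    by_cases hta : t a = a
    · exact ⟨1, one_mem _, hta.symm⟩
    · have h1 : ∀ y, y ∈ O ↔ t y ∈ O := by
        intro y
        constructor
        · intro hy
          exact Ob_stable H hy (Subgroup.subset_closure ht)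
        · intro hy
          have := Ob_stable H hy (inv_mem (Subgroup.subset_closure ht))
          rwa [inv_app] at this
      refine ⟨t.subtypePerm (p := (· ∈ O)) (fun y => (h1 y).symm), ?_, rfl⟩
      apply Subgroup.subset_closure
      show ofSubtype _ ∈ T3 H
      rw [ofSubtype_subtypePerm]
      · exact ht
      · intro y hy
        exact support_sub H ha ht hta hy
  have htr : ∀ r ∈ R3 H, ∀ a (ha : a ∈ O), ∃ g ∈ Subgroup.closure S, ((g ⟨a, ha⟩ : O) : α) = r a := by
    intro r hr
    unfold R3 at hr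
    induction hr using Subgroup.closure_induction'' with
    | mem t ht => exact key t ht
    | inv_mem t ht =>
      refine key t⁻¹ ⟨inv_mem ht.1, ?_⟩
      have := ht.2
      exact this.inv
    | one => exact fun a ha => ⟨1, one_mem _, rfl⟩
    | mul g k _ _ hg hk =>
      intro a ha
      obtain ⟨u, hu, hu'⟩ := hk a ha
      obtain ⟨w, hw, hw'⟩ := hg _ (u ⟨a, ha⟩).2
      refine ⟨w * u, mul_mem hw hu, ?_⟩
      rw [Perm.mul_apply, Perm.mul_apply, ← hu', ← hw']
  have htr' : ∀ a b : O, ∃ g ∈ Subgroup.closure S, g a = b := by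
    rintro ⟨a, ha⟩ ⟨b, hb⟩
    have h1 : b ∈ Ob H a := by
      rw [Ob_eq H ha]
      exact hb
    obtain ⟨r, hr, hrb⟩ := (mem_Ob H).1 h1
    obtain ⟨g, hg, h⟩ := htr r hr a ha
    refine ⟨g, hg, Subtype.ext ?_⟩
    rw [h, hrb]
  have hgen := alt_of_gen S hS3 htr'
  intro g hg
  obtain ⟨k, hk, rfl⟩ := exists_ofSubtype hg
  rw [← hgen] at hk
  have : (Subgroup.closure S).map (ofSubtype : Perm O →* Perm α) ≤ R3 H := by
    rw [MonoidHom.map_closure]
    unfold R3
    apply Subgroup.closure_mono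
    rintro _ ⟨t, ht, rfl⟩
    exact ht
  exact this ⟨k, hk, rfl⟩

end comb

end Cfsg.Agent.H59.ThreeCyc
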