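import Cfsg.Agent.H59.PrimePerm

/-!
# Permutations of prime order fixing a uniform partition (owner: helper59)
-/

set_option autoImplicit false

namespace Cfsg.Agent.H59

open Equiv.Perm

theorem exists_distribution {ι : Type*} [DecidableEq ι] (S : Finset ι) (A : ℕ) :
    ∀ m : ℕ, m ≤ S.card * A → ∃ g : ι → ℕ, (∀ j, g j ≤ A) ∧ ∑ j ∈ S, g j = m := by
  induction S using Finset.induction_on with
  | empty =>
    intro m hm
    refine ⟨fun _ => 0, fun _ => Nat.zero_le _, ?_⟩
    rw [Finset.card_empty, zero_mul] at hm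
    rw [Finset.sum_empty]
    omega
  | insert i S hi ih =>
    intro m hm
    rw [Finset.card_insert_of_notMem hi, Nat.add_mul, one_mul] at hm
    obtain ⟨g, hg, hsum⟩ := ih (m - min m A) (by
      rcases le_total m A with h | h
      · rw [min_eq_left h]; omega
      · rw [min_eq_right h]; omega)
    refine ⟨Function.update g i (min m A), ?_, ?_⟩
    · intro j
      rcases eq_or_ne j i with rfl | hj
      · rw [Function.update_self]; exact min_le_right _ _
      · rw [Function.update_of_ne hj]; exact hg j
    · rw [Finset.sum_insert hi, Function.update_self]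
      have h1 : ∑ x ∈ S, Function.update g i (min m A) x = ∑ x ∈ S, g x := by
        apply Finset.sum_congr rfl
        intro x hx
        rw [Function.update_of_ne]
        rintro rfl
        exact hi hx
      rw [h1, hsum]
      have : min m A ≤ m := min_le_left _ _
      omega

theorem exists_perm_pow {r : ℕ} (hr : r.Prime) {n j : ℕ} (h : r * j ≤ n) :
    ∃ σ : Equiv.Perm (Fin n), σ ^ r = 1 ∧ σ.support.card = r * j := by
  rcases Nat.eq_zero_or_pos j with rfl | hj
  · exact ⟨1, one_pow r, by rw [support_one, Finset.card_empty, mul_zero]⟩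
  · obtain ⟨σ, h1, h2⟩ := exists_perm_prime hr hj h
    exact ⟨σ, by rw [← h1]; exact pow_orderOf_eq_one σ, h2⟩

theorem isConj_of_prime_order {X : Type*} [Fintype X] [DecidableEq X] {r : ℕ} (hr : r.Prime)
    {σ τ : Equiv.Perm X} (hσ : orderOf σ = r) (hτ : orderOf τ = r)
    (h : σ.support.card = τ.support.card) : IsConj σ τ := by
  rw [isConj_iff_cycleType_eq]
  obtain ⟨n, hn⟩ := cycleType_prime_order (by rw [hσ]; exact hr : (orderOf σ).Prime)
  obtain ⟨m, hm⟩ := cycleType_prime_order (by rw [hτ]; exact hr : (orderOf τ).Prime)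
  rw [hσ] at hn
  rw [hτ] at hm
  rw [← sum_cycleType, ← sum_cycleType, hn, hm, Multiset.sum_replicate, Multiset.sum_replicate,
    smul_eq_mul, smul_eq_mul] at h
  rw [hn, hm, Nat.eq_of_mul_eq_mul_right hr.pos h]

/-- The permutation of a product acting through `π` on the first factor and through `τ j` on the
fibre over a fixed point `j` of `π`. -/
def shearPerm {a b : ℕ} (π : Equiv.Perm (Fin b)) (τ : Fin b → Equiv.Perm (Fin a)) :
    Equiv.Perm (Fin b × Fin a) :=
  Equiv.prodShear π (fun j => if π j = j then τ j else 1)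

theorem shearPerm_apply {a b : ℕ} (π : Equiv.Perm (Fin b)) (τ : Fin b → Equiv.Perm (Fin a))
    (x : Fin b × Fin a) :
    shearPerm π τ x = (π x.1, (if π x.1 = x.1 then τ x.1 else 1 : Equiv.Perm (Fin a)) x.2) := rfl

theorem shear_pow {a b : ℕ} (π : Equiv.Perm (Fin b)) (τ : Fin b → Equiv.Perm (Fin a)) (n : ℕ)
    (x : Fin b × Fin a) :
    ((shearPerm π τ) ^ n) x
      = if π x.1 = x.1 then (x.1, ((τ x.1) ^ n) x.2) else ((π ^ n) x.1, x.2) := by
  induction n with
  | zero =>
    rw [pow_zero, pow_zero, pow_zero]
    split_ifs <;> rfl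
  | succ n ih =>
    rw [pow_succ', Equiv.Perm.mul_apply, ih]
    split_ifs with h
    · rw [shearPerm_apply]
      dsimp only
      rw [if_pos h, h, pow_succ', Equiv.Perm.mul_apply]
    · rw [shearPerm_apply]
      dsimp only
      have h1 : ¬ π ((π ^ n) x.1) = (π ^ n) x.1 := by
        intro h2
        apply h
        have h3 : (π ^ n) (π x.1) = (π ^ n) x.1 := by
          rw [← Equiv.Perm.mul_apply, ← pow_succ, pow_succ', Equiv.Perm.mul_apply, h2]
        exact (π ^ n).injective h3
      rw [if_neg h1, pow_succ', Equiv.Perm.mul_apply]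
      rfl

theorem shear_support {a b : ℕ} (π : Equiv.Perm (Fin b)) (τ : Fin b → Equiv.Perm (Fin a)) :
    (shearPerm π τ).support.card
      = π.support.card * a + ∑ j ∈ π.supportᶜ, (τ j).support.card := by
  classical
  rw [Finset.card_eq_sum_card_fiberwise (f := Prod.fst) (t := Finset.univ)
    (fun _ _ => Finset.mem_coe.2 (Finset.mem_univ _))]
  rw [← Finset.sum_add_sum_compl π.support]
  congr 1
  · rw [← smul_eq_mul, ← Finset.sum_const]
    apply Finset.sum_congr rfl
    intro j hj
    have h1 : Finset.filter (fun x : Fin b × Fin a => x.1 = j)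
        (shearPerm π τ).support
        = Finset.univ.map ⟨fun i : Fin a => (j, i), fun i i' h => congrArg Prod.snd h⟩ := by
      ext ⟨j', i⟩
      rw [Finset.mem_filter, mem_support, Finset.mem_map]
      constructor
      · rintro ⟨_, h⟩
        exact ⟨i, Finset.mem_univ _, by rw [← h]; rfl⟩
      · rintro ⟨i', _, h⟩
        have h2 : j = j' := congrArg Prod.fst h
        subst h2
        refine ⟨?_, rfl⟩
        intro h3
        exact mem_support.1 hj (congrArg Prod.fst h3)
    rw [h1, Finset.card_map, Finset.card_univ, Fintype.card_fin]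
  · apply Finset.sum_congr rfl
    intro j hj
    rw [Finset.mem_compl, notMem_support] at hj
    have h1 : Finset.filter (fun x : Fin b × Fin a => x.1 = j)
        (shearPerm π τ).support
        = (τ j).support.map ⟨fun i : Fin a => (j, i), fun i i' h => congrArg Prod.snd h⟩ := by
      ext ⟨j', i⟩
      rw [Finset.mem_filter, mem_support, Finset.mem_map, shearPerm_apply]
      dsimp only
      constructor
      · rintro ⟨h, rfl⟩
        refine ⟨i, ?_, rfl⟩
        rw [mem_support]
        intro h3
        apply h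
        rw [if_pos hj, hj, h3]
      · rintro ⟨i', h', h⟩
        have h2 : j = j' := congrArg Prod.fst h
        have h3 : i' = i := congrArg Prod.snd h
        subst h2
        subst h3
        refine ⟨?_, rfl⟩
        rw [if_pos hj]
        intro h4
        exact mem_support.1 h' (congrArg Prod.snd h4)
    rw [h1, Finset.card_map]

theorem fixes_partition {X : Type*} [Fintype X] [DecidableEq X] {r a b t c A : ℕ} (hr : r.Prime)
    {σ : Equiv.Perm X} (hσ : orderOf σ = r) (hX : Fintype.card X = a * b)
    (hc : σ.support.card = r * c) (htr : r * t ≤ b) (h1 : t * a ≤ c)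
    (h2 : c ≤ t * a + (b - r * t) * A) (hA : r * A ≤ a) :
    ∃ f : X → Fin b, (∀ j : Fin b, Nat.card {x : X // f x = j} = a) ∧
      ∃ π : Equiv.Perm (Fin b), ∀ x : X, f (σ x) = π (f x) := by
  classical
  obtain ⟨π, hπ, hπc⟩ := exists_perm_pow hr htr
  obtain ⟨g, hg, hsum⟩ := exists_distribution (π.supportᶜ) A (c - t * a) (by
    rw [Finset.card_compl, hπc, Fintype.card_fin]; omega)
  have hex : ∀ j : Fin b, ∃ τ : Equiv.Perm (Fin a), τ ^ r = 1 ∧ τ.support.card = r * g j :=
    fun j => exists_perm_pow hr ((Nat.mul_le_mul_left r (hg j)).trans hA)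
  choose τ hτ hτc using hex
  set σ₀ : Equiv.Perm (Fin b × Fin a) := shearPerm π τ with hσ₀
  have hpow : σ₀ ^ r = 1 := by
    apply Equiv.Perm.ext
    intro x
    rw [hσ₀, shear_pow, hπ, hτ]
    split_ifs <;> rfl
  have hsup : σ₀.support.card = r * c := by
    rw [hσ₀, shear_support, hπc]
    have h3 : ∑ j ∈ π.supportᶜ, (τ j).support.card = r * (c - t * a) := by
      rw [← hsum, Finset.mul_sum]
      exact Finset.sum_congr rfl fun j _ => hτc j
    rw [h3, mul_assoc, ← Nat.mul_add]
    congr 1
    omega
  have e : X ≃ Fin b × Fin a := Fintype.equivOfCardEq (by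
    rw [hX, Fintype.card_prod, Fintype.card_fin, Fintype.card_fin, mul_comm])
  set σ₁ : Equiv.Perm X := e.symm.permCongr σ₀ with hσ₁
  have hap : ∀ x, e (σ₁ x) = σ₀ (e x) := by
    intro x
    rw [hσ₁, Equiv.permCongr_apply, Equiv.symm_symm, Equiv.apply_symm_apply]
  have hpow1 : σ₁ ^ r = 1 := by
    have hn : ∀ n : ℕ, ∀ x, e ((σ₁ ^ n) x) = (σ₀ ^ n) (e x) := by
      intro n
      induction n with
      | zero => intro x; rfl
      | succ n ih => intro x; rw [pow_succ', pow_succ', Equiv.Perm.mul_apply, Equiv.Perm.mul_apply,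
          hap, ih]
    apply Equiv.Perm.ext
    intro x
    apply e.injective
    rw [hn, hpow]
    rfl
  have hsup1 : σ₁.support.card = r * c := by
    rw [← hsup]
    have h3 : σ₁.support.map e.toEmbedding = σ₀.support := by
      ext y
      rw [Finset.mem_map, mem_support]
      constructor
      · rintro ⟨x, hx, rfl⟩
        rw [mem_support] at hx
        intro h4
        apply hx
        apply e.injective
        rw [hap]
        exact h4
      · intro hy
        refine ⟨e.symm y, ?_, e.apply_symm_apply y⟩
        rw [mem_support]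
        intro h4
        apply hy
        have h5 := hap (e.symm y)
        rw [h4, e.apply_symm_apply] at h5
        exact h5.symm
    rw [← h3, Finset.card_map]
  have hne : σ ≠ 1 := by
    rintro rfl
    rw [orderOf_one] at hσ
    exact hr.one_lt.ne hσ
  have hne1 : σ₁ ≠ 1 := by
    intro h3
    rw [h3, support_one, Finset.card_empty, ← hc] at hsup1
    exact hne (support_eq_empty_iff.1 (Finset.card_eq_zero.1 hsup1.symm))
  have hord1 : orderOf σ₁ = r := by
    rcases (Nat.dvd_prime hr).1 (orderOf_dvd_of_pow_eq_one hpow1) with h3 | h3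
    · exact absurd (orderOf_eq_one_iff.1 h3) hne1
    · exact h3
  obtain ⟨u, hu⟩ := isConj_iff.1 (isConj_of_prime_order hr hord1 hσ (by rw [hsup1, hc]))
  have hi1 : ∀ x, u⁻¹ (u x) = x := fun x => u.symm_apply_apply x
  have hi2 : ∀ x, u (u⁻¹ x) = x := fun x => u.apply_symm_apply x
  refine ⟨fun x => (e (u⁻¹ x)).1, ?_, π, ?_⟩
  · intro j
    have e2 : {x : X // (e (u⁻¹ x)).1 = j} ≃ Fin a :=
      { toFun := fun x => (e (u⁻¹ x.1)).2
        invFun := fun i => ⟨u (e.symm (j, i)), by
          rw [hi1, e.apply_symm_apply]⟩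
        left_inv := by
          intro x
          apply Subtype.ext
          change u (e.symm (j, (e (u⁻¹ x.1)).2)) = x.1
          have h3 : (j, (e (u⁻¹ x.1)).2) = e (u⁻¹ x.1) := Prod.ext x.2.symm rfl
          rw [h3, e.symm_apply_apply, hi2]
        right_inv := by
          intro i
          change (e (u⁻¹ (u (e.symm (j, i))))).2 = i
          rw [hi1, e.apply_symm_apply] }
    rw [Nat.card_congr e2, Nat.card_eq_fintype_card, Fintype.card_fin]
  · intro x
    dsimp only
    have h3 : u⁻¹ (σ x) = σ₁ (u⁻¹ x) := by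
      rw [← hu, Equiv.Perm.mul_apply, Equiv.Perm.mul_apply, hi1]
    rw [h3, hap, hσ₀, shearPerm_apply]

theorem partition_bounds {X : Type*} [Fintype X] [DecidableEq X] {r a b c : ℕ} (hr : r.Prime)
    {σ : Equiv.Perm X} (hσ : orderOf σ = r) (ha : 0 < a)
    (hc : σ.support.card = r * c) (f : X → Fin b) (hf : ∀ j : Fin b, Nat.card {x : X // f x = j} = a)
    (π : Equiv.Perm (Fin b)) (hπ : ∀ x : X, f (σ x) = π (f x)) :
    ∃ t : ℕ, r * t ≤ b ∧ t * a ≤ c ∧ c ≤ t * a + (b - r * t) * (a / r) := by
  classical
  have hσr : σ ^ r = 1 := by rw [← hσ]; exact pow_orderOf_eq_one σ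
  have hf' : ∀ j : Fin b, (Finset.univ.filter fun x => f x = j).card = a := by
    intro j
    rw [← hf j, Nat.card_eq_fintype_card, Fintype.card_subtype]
  have hsurj : Function.Surjective f := by
    intro j
    have h1 : 0 < (Finset.univ.filter fun x => f x = j).card := by rw [hf']; exact ha
    obtain ⟨x, hx⟩ := Finset.card_pos.1 h1
    exact ⟨x, (Finset.mem_filter.1 hx).2⟩
  have hπr : π ^ r = 1 := by
    have hn : ∀ n : ℕ, ∀ x, f ((σ ^ n) x) = (π ^ n) (f x) := by
      intro n
      induction n with
      | zero => intro x; rfl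
      | succ n ih => intro x; rw [pow_succ', pow_succ', Equiv.Perm.mul_apply, Equiv.Perm.mul_apply,
          hπ, ih]
    apply Equiv.Perm.ext
    intro j
    obtain ⟨x, rfl⟩ := hsurj j
    rw [← hn, hσr]
    rfl
  obtain ⟨t, ht⟩ := dvd_card_support hr hπr
  have hcard : σ.support.card = π.support.card * a +
      ∑ j ∈ π.supportᶜ, (σ.support.filter fun x => f x = j).card := by
    rw [Finset.card_eq_sum_card_fiberwise (f := f) (t := Finset.univ)
      (fun _ _ => Finset.mem_coe.2 (Finset.mem_univ _)), ← Finset.sum_add_sum_compl π.support]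
    congr 1
    rw [← smul_eq_mul, ← Finset.sum_const]
    apply Finset.sum_congr rfl
    intro j hj
    rw [← hf' j]
    congr 1
    ext x
    rw [Finset.mem_filter, Finset.mem_filter]
    constructor
    · rintro ⟨_, h⟩; exact ⟨Finset.mem_univ _, h⟩
    · rintro ⟨_, h⟩
      refine ⟨?_, h⟩
      rw [mem_support]
      intro h2
      apply mem_support.1 hj
      rw [← h, ← hπ, h2]
  have hle : ∀ j ∈ π.supportᶜ, (σ.support.filter fun x => f x = j).card ≤ r * (a / r) := by
    intro j hj
    rw [Finset.mem_compl, notMem_support] at hj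
    have hinv : ∀ x, σ x ∈ (Finset.univ.filter fun x => f x = j) ↔
        x ∈ (Finset.univ.filter fun x => f x = j) := by
      intro x
      rw [Finset.mem_filter, Finset.mem_filter, hπ]
      constructor
      · rintro ⟨_, h⟩
        refine ⟨Finset.mem_univ _, ?_⟩
        apply π.injective
        rw [h, hj]
      · rintro ⟨_, h⟩
        refine ⟨Finset.mem_univ _, ?_⟩
        rw [h, hj]
    have h1 := card_modEq_of_inv hr hσr hinv
    rw [hf'] at h1
    have h2 : (σ.support.filter fun x => f x = j).card +
        ((Finset.univ.filter fun x => f x = j) \ σ.support).card = a := by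
      rw [← hf' j, ← Finset.card_union_of_disjoint]
      · congr 1
        ext x
        rw [Finset.mem_union, Finset.mem_sdiff, Finset.mem_filter, Finset.mem_filter]
        by_cases hx : x ∈ σ.support <;> simp [hx]
      · rw [Finset.disjoint_left]
        intro x hx hx'
        exact (Finset.mem_sdiff.1 hx').2 (Finset.mem_filter.1 hx).1
    have h3 : r ∣ (σ.support.filter fun x => f x = j).card := by
      have h4 : (σ.support.filter fun x => f x = j).card =
        a - ((Finset.univ.filter fun x => f x = j) \ σ.support).card := by omega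
      rw [h4]
      exact (Nat.modEq_iff_dvd' (by omega)).1 h1
    obtain ⟨m, hm⟩ := h3
    rw [hm] at h2 ⊢
    apply Nat.mul_le_mul_left
    rw [Nat.le_div_iff_mul_le hr.pos, mul_comm]
    omega
  have hsum := Finset.sum_le_sum hle
  rw [Finset.sum_const, Finset.card_compl, Fintype.card_fin, ht, smul_eq_mul] at hsum
  rw [ht, hc] at hcard
  have hbt : r * t ≤ b := by
    rw [← ht]
    calc π.support.card ≤ Fintype.card (Fin b) := Finset.card_le_univ _
      _ = b := Fintype.card_fin b
  refine ⟨t, hbt, ?_, ?_⟩
  · apply Nat.le_of_mul_le_mul_left _ hr.pos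
    calc r * (t * a) = r * t * a := by ring
      _ ≤ _ := Nat.le_add_right _ _
      _ = r * c := hcard.symm
  · apply Nat.le_of_mul_le_mul_left _ hr.pos
    calc r * c ≤ r * t * a + (b - r * t) * (r * (a / r)) := by omega
      _ = r * (t * a + (b - r * t) * (a / r)) := by ring

end Cfsg.Agent.H59
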